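import Cfsg.Agent.JT.Quot
import Cfsg.Agent.JT.Der
import Cfsg.Agent.JT.Bad
import Cfsg.Agent.JTJ.Rel

set_option autoImplicit false
set_option linter.unusedSimpArgs false

/-! All relators of the amalgam. -/

namespace Cfsg.Agent.JT

open Cfsg.Agent.CGT

variable {G : Type*} [Group G]

theorem ho_of [Finite G] {x c r t : G} (h1 : x ^ 2 = 1) (h2 : c ^ 5 = 1) (h3 : r ^ 3 = 1)
    (h4 : (c⁻¹ * r) ^ 3 = 1) (h5 : (c * r) ^ 5 = 1) (h6 : (c ^ 2 * r) ^ 2 = 1) (h7 : x * r = r * x)
    (h8 : c * x * c⁻¹ * r = r * (c * x * c⁻¹)) (h9 : (x * c) ^ 5 = 1)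
    (h10 : (x * c * x * c⁻¹) ^ 2 = t) (tt : t * t = 1)
    (hc : Subgroup.closure {x, c, r} = Subgroup.centralizer {t})
    (hn : Nat.card (Subgroup.centralizer ({t} : Set G)) = 1920) : ∃ y a b n, HO x c r y t a b n := by
  have mx : x ∈ Subgroup.centralizer {t} := hc ▸ Subgroup.subset_closure (by simp)
  have mc' : c ∈ Subgroup.centralizer {t} := hc ▸ Subgroup.subset_closure (by simp)
  have mr : r ∈ Subgroup.centralizer {t} := hc ▸ Subgroup.subset_closure (by simp)
  obtain ⟨y, hy⟩ : ∃ y, y = c * x * c⁻¹ := ⟨_, rfl⟩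
  obtain ⟨a, ha⟩ : ∃ a, a = c * r⁻¹ * c * c := ⟨_, rfl⟩
  obtain ⟨b, hb⟩ : ∃ b, b = y * a * y := ⟨_, rfl⟩
  obtain ⟨n, hn'⟩ : ∃ n, n = c * r * c⁻¹ * r⁻¹ * c := ⟨_, rfl⟩
  refine ⟨y, a, b, n, ?_⟩
  obtain ⟨f, hf⟩ := pg_lift (m := 8) (R := JTH.RR) (p := gl [x, c, r, y, t, a, b, n])
    (fun j hj => gl_one hj) (by
      simp only [JTH.RR, ws, and_true]
      refine ⟨by rw [← h1, sq], ?_, by rw [← h3, pow_three], ?_, ?_, ?_, cm_of h7,
        cm_of (hy ▸ h8), tt, ?_, cm_of (mc.1 mc').symm, by rw [hy]; group, ?_, by rw [ha]; group,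
        by rw [hb]; group, by rw [hn']; group⟩
      · simpa only [pow_succ, pow_zero, one_mul, mul_assoc] using h2
      · simpa only [pow_succ, pow_zero, one_mul, mul_assoc] using h4
      · simpa only [pow_succ, pow_zero, one_mul, mul_assoc] using h5
      · simpa only [pow_succ, pow_zero, one_mul, mul_assoc] using h6
      · simpa only [pow_succ, pow_zero, one_mul, mul_assoc] using h9
      · rw [← h10, hy, sq]; group)
  have e : f.range = Subgroup.centralizer {t} := by
    apply le_antisymm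
    · rintro _ ⟨z, rfl⟩
      have my : y ∈ Subgroup.centralizer {t} := hy ▸ mul_mem (mul_mem mc' mx) (inv_mem mc')
      have ma : a ∈ Subgroup.centralizer {t} := ha ▸ mul_mem (mul_mem (mul_mem mc' (inv_mem mr)) mc') mc'
      have : gp JTH.γ [0, 2, 4, 6, 8, 10, 12, 14] ≤ (Subgroup.centralizer {t}).comap f := gp_le (by
        simp only [List.forall_mem_cons, ws, Subgroup.mem_comap, hf]
        exact ⟨mx, mc', mr, my, mc.2 rfl, ma, hb ▸ mul_mem (mul_mem my ma) my,
          hn' ▸ mul_mem (mul_mem (mul_mem (mul_mem mc' mr) (inv_mem mc')) (inv_mem mr)) mc', by simp⟩)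
      exact this (JTH.gen_top ▸ Subgroup.mem_top z)
    · rw [← hc, Subgroup.closure_le]
      rintro z (rfl | rfl | rfl)
      exacts [⟨_, hf 0⟩, ⟨_, hf 1⟩, ⟨_, hf 2⟩]
  haveI : Finite JTH.K := Nat.finite_of_card_ne_zero (by rw [JTH.card_eq]; norm_num)
  have hi := (f.rangeRestrict_surjective.bijective_of_nat_card_le (by rw [e, hn, JTH.card_eq])).1
  have := orcH.map (f := f) (fun u v huv => hi (Subtype.ext huv)) hf
  rwa [e] at this

theorem inj_Y {X : Type*} [Group X] (f : JTY.K →* X) (h : f (JTY.γ 2) ≠ 1) : Function.Injective f :=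
  (injective_iff_map_eq_one f).2 fun z hz => by
    obtain ⟨p, hp, e⟩ := orcY.cls _ _ c_Y (z := z) trivial (fun _ h => by cases h)
    have h2 := allL_iff.1 c_Y2 p hp
    rw [Bool.or_eq_true, anyL_iff] at h2
    rcases h2 with h2 | ⟨s, -, h2⟩
    · rw [beqL_sound h2] at e
      exact conj_eq_one_iff.1 e
    · rw [Bool.and_eq_true] at h2
      have h3 := congrArg f (orcY.eq _ _ h2.2)
      rw [map_ev_ext, ev_cjW (fun u hu => by
        rw [List.mem_singleton.1 hu, ← beqL_sound h2.1, ← map_ev_ext, ← e]; simp [hz])] at h3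
      exact absurd (by simpa only [ws] using h3.symm) h

/-- The normaliser of an element of order three. -/
def NR (r : G) : Subgroup G where
  carrier := {g | g * r * g⁻¹ = r ∨ g * r * g⁻¹ = r⁻¹}
  one_mem' := by simp
  mul_mem' := by
    rintro g k hg (hk | hk)
    · show _ ∨ _
      rwa [cj_cj, hk]
    · show _ ∨ _
      rw [cj_cj, hk, ← conj_inv, inv_eq_iff_eq_inv, inv_inj]; exact hg.symm
  inv_mem' := by
    rintro g (hg | hg)
    · left; nth_rewrite 1 [← hg]; group
    · right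
      nth_rewrite 1 [← inv_inv r, ← hg]
      group

variable {x c r y t a b n : G}

theorem HO.rel1 (O : HO x c r y t a b n) (h1 : One G) :
    ∃ h k q, Holds (ext (gl [x, c, r, y, t, a, b, n, h, k, q])) (R1 ++ RN) := by
  obtain ⟨h, f1, f2, hr, h3, hy, ha, hb⟩ := O.theta h1
  obtain ⟨k, k1, k2, k3, k4⟩ := O.kappa h1 f1 f2 hr ha hb
  refine ⟨h, k, k * y * k * y * k, r1_of (Holds.append ?_ ?_)⟩
  · have := O.holds RHX (by decide +kernel)
    simpa only [RHX, ws] using this
  · simp only [ws, mul_assoc] at k4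
    simp only [RG0, ws]
    obtain ⟨k5, k6, k7, k8, k9, -⟩ := k4
    refine ⟨h3, cm_of hr, by rw [← hy]; group, by rw [← f1]; group, ?_, ?_, ?_, by rw [← k2]; group,
      ?_, k5, k6, k7, k8, k9, by group, trivial⟩
    · rw [← mul_inv_eq_one.2 f2]; group
    · rw [← mul_inv_eq_one.2 ha]; group
    · rw [← cm_of k1]; group
    · rw [← mul_inv_eq_one.2 k3]; group

theorem HO.relJ [Finite G] (O : HO x c r y t a b n) (h1 : One G) :
    ∃ h k q, Holds (ext (gl [x, c, r, y, t, a, b, n, h, k, q])) JTJ.RR := by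
  obtain ⟨h, k, q, R⟩ := O.rel1 h1
  refine ⟨h, k, q, ?_⟩
  obtain ⟨xx, yy, tt, -, -, rrr, -, rt, -, -, -, rx, -, -, yr, -⟩ := O.rel
  obtain ⟨t1, -, -, -, -, ta, -⟩ := O.nrel
  have R' := R.subR (D := [[16, 16, 16], [16, 4, 17, 5], [6, 16, 6, 16], [16, 8, 17, 0], [20, 20],
    [20, 4, 20, 5], [20, 16, 20, 16], [20, 0, 20, 0, 20, 0, 20, 0, 20, 0], [20, 8, 20, 8, 20, 8],
    [18, 18], [18, 8, 18, 10], [18, 6, 18, 6, 18, 20], [14, 16, 14, 14, 16, 14, 14, 16, 14],
    [0, 14, 16, 14, 0, 14, 16, 14], [14, 16, 14, 8, 15, 17, 15, 7], [14, 16, 14, 4, 15, 17, 15, 5],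
    [14, 4, 15, 4]]) (by decide +kernel)
  simp only [ws] at R'
  obtain ⟨h3, hr, yh, ht, qq, qr, qh, qx, qt, kk, kt, kq, n1, n2, n3, n4, n5, -⟩ := R'
  have hr := of_cm hr
  have qr : q * r = r * q := of_cm (by rwa [inv_eq_of_mul_eq_one_right qq])
  have q1 : q ≠ 1 := fun e => by
    have k1 : k = 1 := by
      have : k * y * k * (k * y)⁻¹ = 1 := by
        rw [mul_inv_rev, inv_eq_of_mul_eq_one_right yy, inv_eq_of_mul_eq_one_right kk, ← kq, e]; group
      exact conj_eq_one_iff.1 this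
    rw [k1, one_mul, one_mul] at kt
    exact ta (by rw [← mul_right_inj t, kt, tt])
  obtain ⟨c1, qy⟩ := O.card_X h1 hr qr h3
    (by rw [← inv_eq_of_mul_eq_one_right xx, eq_inv_iff_mul_eq_one, ← ht]; group) yh qq q1 qh
    (by simpa only [pow_succ, pow_zero, one_mul, mul_assoc] using qx)
    (by simpa only [pow_succ, pow_zero, one_mul, mul_assoc] using qt)
  have R2 := R.append (R' := [[20, 6, 20, 6, 20, 6]]) (by simpa only [ws, and_true] using qy)
  have RY : Holds (ext (gl [x, y, t, h, q])) JTY.RR := by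
    have := R2.relsFrom (I := []) (W := [[0], [6], [8], [16], [20]]) (R := JTY.RR) (by decide +kernel)
    simp only [JTY.RR, ws] at this ⊢
    simpa only [wg, nth_eq, List.getD_cons_zero, List.getD_cons_succ, ws] using this
  let X : CC r := ⟨x, mc.2 rx.symm⟩
  let Y : CC r := ⟨y, mc.2 yr⟩
  let T : CC r := ⟨t, mc.2 rt.symm⟩
  let H : CC r := ⟨h, mc.2 hr⟩
  let Q : CC r := ⟨q, mc.2 qr⟩
  have hv : ∀ j, (CC r).subtype (gl [X, Y, T, H, Q] j) = gl [x, y, t, h, q] j := fun j => by
    rcases j with _ | _ | _ | _ | _ | j <;> rfl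
  obtain ⟨f, hf⟩ := pg_lift (m := 5) (R := JTY.RR) (p := gl [X, Y, T, H, Q]) (fun j hj => gl_one hj)
    fun u hu => Subtype.ext ((map_ev_ext (CC r).subtype _ u).trans (by rw [funext hv]; exact RY u hu))
  have hi := inj_Y ((pr r).comp f) fun e => t1 (one_z rrr ((pr_one (z := T)).1 ((congrArg (pr r) (hf 2)).symm.trans e)) tt)
  haveI : Finite JTY.K := Nat.finite_of_card_ne_zero (by rw [JTY.card_eq]; norm_num)
  have hs := (hi.bijective_of_nat_card_le (by rw [c1, JTY.card_eq])).2
  have OX := orcY.map hi (δ := gl [pr r X, pr r Y, pr r T, pr r H, pr r Q]) fun j => by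
    rw [MonoidHom.comp_apply, hf]
    rcases j with _ | _ | _ | _ | _ | j <;> first | rfl | exact map_one _
  let N : CC r := ⟨n * (h * n), mc.2 (of_cm (by rw [← n4]; group))⟩
  obtain ⟨s, hs', e⟩ := OX.sol _ _ c_U (z := pr r N) (hs _) (by
    simp only [ws, and_true, ← map_mul, ← map_inv]
    refine ⟨?_, ?_, ?_⟩ <;> rw [← map_one (pr r)] <;> refine congrArg _ (Subtype.ext ?_)
    · exact Eq.trans (by simp only [N, Subgroup.coe_mul, mul_assoc]) n1
    · exact Eq.trans (by simp only [N, X, Subgroup.coe_mul, mul_assoc]) n2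
    · exact Eq.trans (by simp only [N, T, Y, Subgroup.coe_mul, Subgroup.coe_inv, mul_assoc, mul_inv_rev]) n3)
  have key : ∀ U : CC r, pr r N = pr r U → X * U * (X * U) = 1 → n * (h * n) = U := fun U eU sU => by
    have m : (U : G)⁻¹ * (n * (h * n)) ∈ Subgroup.zpowers r := (QuotientGroup.eq (a := U) (b := N)).1 eU.symm
    have sU' : x * U * (x * U) = 1 := congrArg Subtype.val sU
    have := one_z rrr m (by
      have cz : x * U * _ = _ * (x * U) := comm_z (mc.1 (X * U).2) m
      generalize hw : (U : G)⁻¹ * (n * (h * n)) = w at cz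
      have e1 : n * (h * n) = U * w := by rw [← hw]; group
      have e2 : x * (U * w) * (x * (U * w)) = 1 := by rw [← e1, ← n2]; group
      calc w * w = x * U * (x * U * w) * w := by rw [← mul_assoc, sU', one_mul]
        _ = 1 := by rw [cz, ← e2]; group)
    exact (inv_mul_eq_one.1 this).symm
  have sq : ∀ u : List ℕ, qY (0 :: app u (0 :: u)) [] = true →
      X * ev (ext (gl [X, Y, T, H, Q])) u * (X * ev (ext (gl [X, Y, T, H, Q])) u) = 1 := fun u hu => by
    have := congrArg f (orcY.eq _ _ hu)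
    rw [map_ev_ext, funext hf] at this
    simpa only [ws, ev_app, map_one, mul_assoc] using this
  have x2 : ∀ z, x * (x * z) = z := fun z => by rw [← mul_assoc, xx, one_mul]
  have y2 : ∀ z, y * (y * z) = z := fun z => by rw [← mul_assoc, yy, one_mul]
  have q2 : ∀ z, q * (q * z) = z := fun z => by rw [← mul_assoc, qq, one_mul]
  simp only [List.mem_cons, List.not_mem_nil, or_false] at hs'
  rcases hs' with rfl | rfl
  · have e1 := key _ (by simpa only [ws, map_mul] using e) (sq [8, 0, 2, 0, 8, 0] (by decide +kernel))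
    simp only [ws, Subgroup.coe_mul, X, Y, Q] at e1
    refine (R2.append (R' := [[14, 16, 14, 0, 20, 0, 6, 0, 20]]) ?_).subR (by decide +kernel)
    simp only [ws, and_true]
    rw [← mul_assoc h, ← mul_assoc n, e1]
    simp only [mul_assoc, x2, y2, q2, qq]
  · have e1 := key _ (by simpa only [ws, map_mul] using e) (sq [8, 0, 2, 0, 8, 0, 2] (by decide +kernel))
    simp only [ws, Subgroup.coe_mul, X, Y, Q] at e1
    have R3 := R2.append (R' := [[14, 16, 14, 6, 0, 20, 0, 6, 0, 20]]) (by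
      simp only [ws, and_true]
      rw [← mul_assoc h, ← mul_assoc n, e1]
      simp only [mul_assoc, x2, y2, q2, qq])
    have := bad_mem (R3.subR (by decide +kernel)) (H := NR r) (by
      simp only [bad_S0, List.forall_mem_cons, ws]
      exact ⟨Or.inl (cj_of rx.symm), Or.inl (cj_of yr), Or.inl (cj_of hr), Or.inl (cj_of qr),
        Or.inl (cj_of rfl), Or.inr (by rw [eq_inv_iff_mul_eq_one, ← n5]; group), by simp⟩) [2] (by simp [bad_W])
    simp only [ws] at this
    rcases this with e2 | e2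
    · exact absurd (by simpa only [ws, mul_assoc] using e2) (O.ne [2, 4, 3] [4] (by decide +kernel))
    · exact absurd (by simpa only [ws, mul_assoc] using e2) (O.ne [2, 4, 3] [5] (by decide +kernel))

end Cfsg.Agent.JT
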