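import Cfsg.Agent.CharLib.ClassFun

set_option autoImplicit false

namespace Cfsg.Agent.JT.D8

open Finset Subgroup

variable {X : Type*} [Group X]

/-- involutions -/
def Iv (s : X) : Prop := s ≠ 1 ∧ s * s = 1

theorem iv_iff {s : X} : orderOf s = 2 ↔ Iv s := by
  rw [orderOf_eq_prime_iff, Iv, pow_two, and_comm]

theorem iv_map {Y : Type*} [Group Y] (φ : X →* Y) (h : Function.Injective φ) (s : X) :
    Iv (φ s) ↔ Iv s := by
  rw [Iv, Iv, ← map_mul, Ne, Ne, map_eq_one_iff φ h, map_eq_one_iff φ h]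

theorem Iv.inv {s : X} (h : Iv s) : s⁻¹ = s := inv_eq_of_mul_eq_one_right h.2

instance decIv (s : DihedralGroup 4) : Decidable (Iv s) := by unfold Iv; infer_instance

theorem mem_c {y w : X} : w ∈ centralizer ({y} : Set X) ↔ w * y = y * w :=
  mem_centralizer_singleton_iff

theorem dvd_of_free {X : Type*} [Group X] [Finite X] (E : Subgroup X) (S : X → Prop)
    (h1 : ∀ u ∈ E, ∀ w, S w → S (u * w * u⁻¹)) (h2 : ∀ u ∈ E, ∀ w, S w → u * w * u⁻¹ = w → u = 1) :
    Nat.card E ∣ Nat.card {w // S w} := by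
  let _ : MulAction E {w // S w} :=
    { smul := fun u w => ⟨u * w * (u : X)⁻¹, h1 _ u.2 _ w.2⟩
      one_smul := fun w => Subtype.ext (by change ((1 : E) : X) * w * ((1 : E) : X)⁻¹ = w; simp)
      mul_smul := fun u v w => Subtype.ext (by
        change ((u * v : E) : X) * w * ((u * v : E) : X)⁻¹ = u * (v * w * (v : X)⁻¹) * (u : X)⁻¹
        simp [mul_assoc]) }
  have := Nat.card_congr (MulAction.selfEquivOrbitsQuotientProd (G := E) (X := {w // S w})
    fun w => (eq_bot_iff_forall _).2 fun u hu => Subtype.ext (h2 _ u.2 _ w.2 (congrArg Subtype.val hu)))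
  rw [this, Nat.card_prod]
  exact Dvd.intro_left _ rfl

structure Hyp (X : Type*) [Group X] : Prop where
  conj : ∀ s s' : X, Iv s → Iv s' → IsConj s s'
  cent : ∀ s : X, Iv s → Nonempty (centralizer ({s} : Set X) ≃* DihedralGroup 4)

/-- odd order, nontrivial -/
def Od (y : X) : Prop := Odd (orderOf y) ∧ y ≠ 1

def Rr (y : X) : Prop := Od y ∧ ∃ s, Iv s ∧ s * y * s⁻¹ = y⁻¹

noncomputable def rr (y : X) : ℕ := Nat.card {s : X // Iv s ∧ Iv (s * y)}

noncomputable def mm (y : X) : ℕ := Nat.card (centralizer ({y} : Set X))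

def Blk (y z : X) : Prop := z ≠ 1 ∧ ∃ g : X, g * z * g⁻¹ ∈ centralizer ({y} : Set X)

theorem sqrt_odd {w : X} (h : Odd (orderOf w)) : ∃ k : ℕ, (w * w) ^ k = w := by
  obtain ⟨k, hk⟩ := h
  refine ⟨k + 1, ?_⟩
  rw [← pow_two, ← pow_mul, show 2 * (k + 1) = (2 * k + 1) + 1 by ring, ← hk, pow_succ,
    pow_orderOf_eq_one, one_mul]

theorem Od.ne_inv {y : X} (h : Od y) : y ≠ y⁻¹ := fun e => by
  obtain ⟨k, hk⟩ := sqrt_odd h.1
  have : y * y = 1 := by nth_rewrite 2 [e]; simp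
  rw [this, one_pow] at hk
  exact h.2 hk.symm

theorem Od.conj {y : X} (h : Od y) (g : X) : Od (g * y * g⁻¹) := by
  refine ⟨?_, fun e => h.2 (by simpa using e)⟩
  have : orderOf (g * y * g⁻¹) = orderOf y := by
    simpa using (MulAut.conj g).orderOf_eq y
  rw [this]; exact h.1

theorem Iv.conj {s : X} (h : Iv s) (g : X) : Iv (g * s * g⁻¹) :=
  (iv_map (MulAut.conj g).toMonoidHom (MulAut.conj g).injective s).2 h

theorem Rr.conj {y : X} (h : Rr y) (g : X) : Rr (g * y * g⁻¹) := by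
  obtain ⟨h1, s, hs, h2⟩ := h
  refine ⟨h1.conj g, g * s * g⁻¹, hs.conj g, ?_⟩
  have : g * s * g⁻¹ * (g * y * g⁻¹) * (g * s * g⁻¹)⁻¹ = g * (s * y * s⁻¹) * g⁻¹ := by group
  rw [this, h2]; group

theorem mm_conj (y g : X) : mm (g * y * g⁻¹) = mm y := by
  refine Nat.card_congr ((MulAut.conj g).symm.toEquiv.subtypeEquiv fun w => ?_)
  rw [mem_c, mem_c]
  simp only [MulEquiv.toEquiv_eq_coe, EquivLike.coe_coe, MulAut.conj_symm_apply]
  constructor
  · intro h
    calc g⁻¹ * w * g * y = g⁻¹ * (w * (g * y * g⁻¹)) * g := by group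
      _ = _ := by rw [h]; group
  · intro h
    calc w * (g * y * g⁻¹) = g * (g⁻¹ * w * g * y) * g⁻¹ := by group
      _ = _ := by rw [h]; group

variable [Finite X]

namespace Hyp

variable (H : Hyp X)
include H

omit [Finite X] in
theorem count {z : X} (hz : Iv z) : ∃ φ : DihedralGroup 4 →* X, Function.Injective φ ∧
    (∀ w, w * z = z * w → ∃ d, φ d = w) ∧ (∀ d, φ d * z = z * φ d) ∧
    ∀ (P : X → Prop) (Q : DihedralGroup 4 → Prop) [DecidablePred Q], (∀ w, P w → w * z = z * w) →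
      (∀ d, P (φ d) ↔ Q d) → Nat.card {w // P w} = (univ.filter Q).card := by
  obtain ⟨e⟩ := H.cent z hz
  let φ : DihedralGroup 4 →* X := (centralizer ({z} : Set X)).subtype.comp e.symm.toMonoidHom
  have hi : Function.Injective φ := Subtype.val_injective.comp e.symm.injective
  have hs : ∀ w, w * z = z * w → ∃ d, φ d = w := fun w hw =>
    ⟨e ⟨w, mem_c.2 hw⟩, by simp [φ]⟩
  refine ⟨φ, hi, hs, fun d => mem_c.1 (e.symm d).2, fun P Q _ h1 h2 => ?_⟩
  rw [← Fintype.card_subtype, ← Nat.card_eq_fintype_card]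
  symm
  refine Nat.card_congr (Equiv.ofBijective (fun d => ⟨φ d.1, (h2 _).2 d.2⟩) ⟨fun a b h =>
    Subtype.ext (hi (congrArg (fun w : {w // P w} => w.1) h)), fun w => ?_⟩)
  obtain ⟨d, hd⟩ := hs w.1 (h1 _ w.2)
  exact ⟨⟨d, (h2 _).1 (hd ▸ w.2)⟩, Subtype.ext hd⟩

omit [Finite X] in
theorem pow4 {z w : X} (hz : Iv z) (h : w * z = z * w) : w ^ 4 = 1 := by
  obtain ⟨φ, -, hs, -⟩ := H.count hz
  obtain ⟨d, rfl⟩ := hs w h
  rw [← map_pow, (by decide : ∀ d : DihedralGroup 4, d ^ 4 = 1) d, map_one]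

omit [Finite X] in
theorem mm_iv {z : X} (hz : Iv z) : mm z = 8 := by
  obtain ⟨e⟩ := H.cent z hz
  rw [mm, Nat.card_congr e.toEquiv, DihedralGroup.nat_card]

omit [Finite X] in
theorem rr_iv {z : X} (hz : Iv z) : rr z = 4 := by
  obtain ⟨φ, hi, hs, hc, h⟩ := H.count hz
  obtain ⟨d, rfl⟩ := hs z rfl
  rw [rr, h _ (fun s => Iv s ∧ Iv (s * d))]
  · have h1 := (iv_map φ hi d).1 hz
    have h2 : ∀ c, c * d = d * c := fun c => hi (by rw [map_mul, map_mul, hc])
    revert h1 h2 ; clear h hc hs hz; revert d; decide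
  · rintro w ⟨h1, h2⟩
    have := h2.inv
    rw [mul_inv_rev, h1.inv, hz.inv] at this
    exact this.symm
  · intro c
    rw [← map_mul, iv_map φ hi, iv_map φ hi]

omit [Finite X] in
theorem rr_four {y : X} (hy : Iv (y * y)) : rr y = 4 := by
  obtain ⟨φ, hi, hs, hc, h⟩ := H.count hy
  obtain ⟨d, rfl⟩ := hs y (by group)
  rw [rr, h _ (fun s => Iv s ∧ Iv (s * d))]
  · have h1 := (iv_map φ hi (d * d)).1 (by rwa [map_mul])
    revert h1 ; clear h hc hs hy; revert d; decide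
  · rintro w ⟨h1, h2⟩
    have h3 := h2.inv
    rw [mul_inv_rev, h1.inv] at h3
    have h4 := hy.inv
    calc w * (φ d * φ d) = (w * φ d) * φ d := by group
      _ = ((φ d)⁻¹ * w) * φ d := by rw [h3]
      _ = (φ d)⁻¹ * (w * φ d) := by group
      _ = (φ d)⁻¹ * ((φ d)⁻¹ * w) := by rw [h3]
      _ = (φ d * φ d)⁻¹ * w := by group
      _ = _ := by rw [h4]
  · intro c
    rw [← map_mul, iv_map φ hi, iv_map φ hi]

omit [Finite X] in
theorem sqrt_iv {z : X} (hz : Iv z) : Nat.card {y : X // y * y = z} = 2 := by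
  obtain ⟨φ, hi, hs, hc, h⟩ := H.count hz
  obtain ⟨d, rfl⟩ := hs z rfl
  rw [h _ (fun s => s * s = d)]
  · have h1 := (iv_map φ hi d).1 hz
    have h2 : ∀ c, c * d = d * c := fun c => hi (by rw [map_mul, map_mul, hc])
    revert h1 h2 ; clear h hc hs hz; revert d; decide
  · intro w hw
    rw [← hw]; group
  · intro c
    rw [← map_mul, hi.eq_iff]

theorem even4 {x : X} (h : ¬ Odd (orderOf x)) : x ^ 4 = 1 := by
  obtain ⟨k, hk⟩ := Nat.not_odd_iff_even.1 h
  have h0 := orderOf_pos x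
  refine H.pow4 (z := x ^ k) ⟨pow_ne_one_of_lt_orderOf (by omega) (by omega), ?_⟩ (by group)
  rw [← pow_add, ← hk, pow_orderOf_eq_one]

omit [Finite X] in
theorem no_iv {y t : X} (hy : Od y) (ht : Iv t) : y * t ≠ t * y := fun e => by
  have h := orderOf_dvd_of_pow_eq_one (H.pow4 ht e)
  have h1 : orderOf y ≠ 1 := fun e => hy.2 (orderOf_eq_one_iff.1 e)
  have := (Nat.Coprime.pow_right 2 (Nat.coprime_two_right.2 hy.1)).eq_one_of_dvd h
  exact h1 this

theorem odd_mm {y : X} (hy : Od y) : Odd (mm y) := by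
  by_contra h
  obtain ⟨t, ht⟩ := exists_prime_orderOf_dvd_card' (G := centralizer ({y} : Set X)) 2
    (even_iff_two_dvd.1 (Nat.not_odd_iff_even.1 h))
  exact H.no_iv hy (iv_iff.1 ((Subgroup.orderOf_coe t).trans ht)) (mem_c.1 t.2).symm

theorem odd_of_mem {y w : X} (hy : Od y) (hw : w ∈ centralizer ({y} : Set X)) : Odd (orderOf w) :=
  (H.odd_mm hy).of_dvd_nat (Subgroup.orderOf_dvd_natCard _ hw)

theorem iv_of_inv {y x : X} (hy : Od y) (h : x * y * x⁻¹ = y⁻¹) : Iv x := by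
  have h2 : x * x ∈ centralizer ({y} : Set X) := by
    rw [mem_c]
    calc x * x * y = x * (x * y * x⁻¹) * x := by group
      _ = x * y⁻¹ * x := by rw [h]
      _ = (x * y * x⁻¹)⁻¹ * (x * x) := by group
      _ = _ := by rw [h, inv_inv]
  have h3 : x ∉ centralizer ({y} : Set X) := fun e => hy.ne_inv (by
    rw [← h, mem_c.1 e]; group)
  have h4 : ¬ Odd (orderOf x) := fun e => by
    obtain ⟨k, hk⟩ := sqrt_odd e
    exact h3 (hk ▸ pow_mem h2 k)
  refine ⟨fun e => h3 (e ▸ one_mem _), ?_⟩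
  obtain ⟨k, hk⟩ := sqrt_odd (H.odd_of_mem hy h2)
  rw [← hk, show x * x * (x * x) = x ^ 4 by simp only [pow_succ, pow_zero, one_mul, mul_assoc], H.even4 h4, one_pow]

theorem inv_of_mem {y s w : X} (hy : Od y) (h : s * y * s⁻¹ = y⁻¹)
    (hw : w ∈ centralizer ({y} : Set X)) : s * w * s⁻¹ = w⁻¹ := by
  have h1 := H.iv_of_inv hy h
  have h2 := H.iv_of_inv hy (x := s * w) (by
    rw [← h, mul_assoc s w, mem_c.1 hw]; group)
  rw [h1.inv, eq_inv_iff_mul_eq_one, ← h2.2]; group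

theorem rr_R {y : X} (hy : Rr y) : rr y = mm y := by
  obtain ⟨hy, s, hs, h⟩ := hy
  refine Nat.card_congr ((Equiv.mulLeft s).symm.subtypeEquiv fun x => ?_)
  simp only [Equiv.mulLeft_symm, Equiv.coe_mulLeft, mem_c]
  constructor
  · rintro ⟨h1, h2⟩
    have h3 : x * y * x⁻¹ = y⁻¹ := by rw [h1.inv, eq_inv_iff_mul_eq_one, ← h2.2]; group
    calc s⁻¹ * x * y = s⁻¹ * (x * y * x⁻¹) * x := by group
      _ = s⁻¹ * (s * y * s⁻¹) * x := by rw [h3, h]
      _ = _ := by group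
  · intro h1
    have h3 : x * y * x⁻¹ = y⁻¹ := by
      calc x * y * x⁻¹ = s * (s⁻¹ * x * y) * x⁻¹ := by group
        _ = s * y * s⁻¹ := by rw [h1]; group
        _ = _ := h
    exact ⟨H.iv_of_inv hy h3, H.iv_of_inv hy (by rw [← h3]; group)⟩

theorem comm {y w w' : X} (hy : Rr y) (hw : w ∈ centralizer ({y} : Set X))
    (hw' : w' ∈ centralizer ({y} : Set X)) : w * w' = w' * w := by
  obtain ⟨hy, s, -, h⟩ := hy
  have h1 := H.inv_of_mem hy h hw
  have h2 := H.inv_of_mem hy h hw'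
  have h3 := H.inv_of_mem hy h (mul_mem hw hw')
  have : (w * w')⁻¹ = (w' * w)⁻¹ := by
    rw [← h3, mul_inv_rev, ← h1, ← h2]; group
  exact inv_injective this

theorem R_of_mem {y w : X} (hy : Rr y) (hw : w ∈ centralizer ({y} : Set X)) (h1 : w ≠ 1) : Rr w := by
  obtain ⟨hy, s, hs, h⟩ := hy
  exact ⟨⟨H.odd_of_mem hy hw, h1⟩, s, hs, H.inv_of_mem hy h hw⟩

theorem cent_eq {y w : X} (hy : Rr y) (hw : w ∈ centralizer ({y} : Set X)) (h1 : w ≠ 1) :
    centralizer ({w} : Set X) = centralizer ({y} : Set X) := by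
  ext u
  exact ⟨fun h => mem_c.2 (H.comm (H.R_of_mem hy hw h1) h (mem_c.2 (mem_c.1 hw).symm)),
    fun h => mem_c.2 (H.comm hy h hw)⟩

theorem mem_norm {y w x : X} (hy : Rr y) (hw : w ∈ centralizer ({y} : Set X)) (h1 : w ≠ 1) :
    x * w * x⁻¹ ∈ centralizer ({y} : Set X) ↔
      x ∈ normalizer ((centralizer ({y} : Set X) : Subgroup X) : Set X) := by
  refine ⟨fun h => ?_, fun h => (mem_normalizer_iff.1 h w).1 hw⟩
  rw [mem_normalizer_iff]
  intro u
  have h2 := H.cent_eq hy h (fun e => h1 (by simpa using e))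
  rw [← H.cent_eq hy hw h1] at *
  conv_rhs => rw [← h2]
  rw [mem_c, mem_c]
  constructor
  · intro e
    calc x * u * x⁻¹ * (x * w * x⁻¹) = x * (u * w) * x⁻¹ := by group
      _ = _ := by rw [e]; group
  · intro e
    calc u * w = x⁻¹ * (x * u * x⁻¹ * (x * w * x⁻¹)) * x := by group
      _ = _ := by rw [e]; group

theorem blk_R {y z : X} (hy : Rr y) (h : Blk y z) : Rr z ∧ mm z = mm y ∧ ∀ v, Blk z v ↔ Blk y v := by
  obtain ⟨h1, g, hg⟩ := h
  have h2 : g * z * g⁻¹ ≠ 1 := fun e => h1 (by simpa using e)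
  have h3 := H.cent_eq hy hg h2
  refine ⟨by simpa [mul_assoc] using (H.R_of_mem hy hg h2).conj g⁻¹, ?_, fun v => ?_⟩
  · rw [← mm_conj z g, mm, h3, mm]
  · rw [Blk, Blk, ← h3]
    refine and_congr_right fun _ => ⟨?_, ?_⟩
    · rintro ⟨k, hk⟩
      refine ⟨g * k, ?_⟩
      rw [mem_c] at hk ⊢
      calc g * k * v * (g * k)⁻¹ * (g * z * g⁻¹) = g * (k * v * k⁻¹ * z) * g⁻¹ := by group
        _ = _ := by rw [hk]; group
    · rintro ⟨k, hk⟩
      refine ⟨g⁻¹ * k, ?_⟩
      rw [mem_c] at hk ⊢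
      calc g⁻¹ * k * v * (g⁻¹ * k)⁻¹ * z = g⁻¹ * (k * v * k⁻¹ * (g * z * g⁻¹)) * g := by group
        _ = _ := by rw [hk]; group

omit H [Finite X] in
theorem blk_self {y : X} (hy : Rr y) : Blk y y := ⟨hy.1.2, 1, by simp [mem_c]⟩

theorem blk_card {y : X} (hy : Rr y) :
    Nat.card {z // Blk y z} *
      Nat.card (normalizer ((centralizer ({y} : Set X) : Subgroup X) : Set X)) =
      Nat.card X * (mm y - 1) := by
  classical
  have := Fintype.ofFinite X
  have h := Finset.sum_card_bipartiteAbove_eq_sum_card_bipartiteBelow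
    (s := univ.filter (Blk y)) (t := (univ : Finset X))
    (fun z x => x * z * x⁻¹ ∈ centralizer ({y} : Set X))
  rw [Finset.sum_const_nat (m := Nat.card (normalizer ((centralizer ({y} : Set X) : Subgroup X) : Set X))),
    Finset.sum_const_nat (m := mm y - 1)] at h
  · rw [Nat.card_eq_fintype_card, Fintype.card_subtype, h, Nat.card_eq_fintype_card, card_univ]
  · intro x _
    rw [mm, Nat.card_eq_fintype_card, Fintype.card_subtype,
      ← Finset.card_erase_of_mem (a := (1 : X)) (by simp)]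
    refine Finset.card_bij (fun z _ => x * z * x⁻¹) (fun z hz => ?_) (fun a _ b _ e => by simpa using e)
      (fun w hw => ⟨x⁻¹ * w * x, ?_, by group⟩)
    · simp only [mem_bipartiteBelow, mem_filter, mem_univ, true_and, mem_erase] at hz ⊢
      exact ⟨fun e => hz.1.1 (by simpa using e), hz.2⟩
    · simp only [mem_bipartiteBelow, mem_filter, mem_univ, true_and, mem_erase] at hw ⊢
      have e : x * (x⁻¹ * w * x) * x⁻¹ = w := by group
      refine ⟨⟨fun e' => hw.1 (by rw [← e, e']; simp), x, by rw [e]; exact hw.2⟩, by rw [e]; exact hw.2⟩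
  · intro z hz
    obtain ⟨h1, g, hg⟩ := (mem_filter.1 hz).2
    rw [Nat.card_eq_fintype_card, Fintype.card_subtype]
    refine Finset.card_bij (fun x _ => x * g⁻¹) (fun x hx => ?_) (fun a _ b _ e => by simpa using e)
      (fun x hx => ⟨x * g, ?_, by group⟩)
    · simp only [mem_bipartiteAbove, mem_filter, mem_univ, true_and] at hx ⊢
      rw [← H.mem_norm hy hg (fun e => h1 (by simpa using e))]
      convert hx using 1; group
    · simp only [mem_bipartiteAbove, mem_filter, mem_univ, true_and] at hx ⊢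
      rw [← H.mem_norm hy hg (fun e => h1 (by simpa using e))] at hx
      convert hx using 1; group

theorem norm_card {y : X} (hy : Rr y) : ∃ e, (e = 2 ∨ e = 4) ∧
    Nat.card (normalizer ((centralizer ({y} : Set X) : Subgroup X) : Set X)) = mm y * e ∧
    ∀ P : X → Prop, (∀ u w, P w → P (u * w * u⁻¹)) →
      e ∣ Nat.card {w // w ∈ centralizer ({y} : Set X) ∧ w ≠ 1 ∧ P w} := by
  obtain ⟨s, hs, h⟩ := hy.2
  set A := centralizer ({y} : Set X) with hA
  set N := normalizer (A : Set X) with hN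
  have hyA : y ∈ A := mem_c.2 rfl
  have hAN : A ≤ N := le_normalizer
  have hsN : s ∈ N := (H.mem_norm hy hyA hy.1.2).1 (h ▸ inv_mem hyA)
  have key : ∀ w ∈ A, w * s = s * w → w = 1 := fun w hw e => by
    by_contra h1
    exact H.no_iv ⟨H.odd_of_mem hy.1 hw, h1⟩ hs e
  let E := N ⊓ centralizer ({s} : Set X)
  refine ⟨Nat.card E, ?_, ?_, fun P hP => dvd_of_free E _ (fun u hu w hw => ?_) fun u hu w hw e => ?_⟩
  · have h8 : Nat.card E ∣ 8 := H.mm_iv hs ▸ card_dvd_of_le inf_le_right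
    have h2 : 2 ∣ Nat.card E := iv_iff.2 hs ▸ Subgroup.orderOf_dvd_natCard E ⟨hsN, mem_c.2 rfl⟩
    have h3 : Nat.card E ≠ 8 := fun e => by
      have hE : E = centralizer ({s} : Set X) :=
        eq_of_le_of_card_ge inf_le_right (by rw [e]; exact (H.mm_iv hs).le)
      obtain ⟨⟨t, ht, hts⟩⟩ : Nonempty {t : X // Iv t ∧ Iv (t * s)} :=
        (Nat.card_pos_iff.1 (by have := H.rr_iv hs; rw [rr] at this; omega)).1
      have hc : t * s = s * t := by
        have := hts.inv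
        rw [mul_inv_rev, ht.inv, hs.inv] at this
        exact this.symm
      have htN : t ∈ N := (hE.ge (mem_c.2 hc)).1
      have h4 : t * y * t⁻¹ ∈ A := (mem_normalizer_iff.1 htN y).1 hyA
      have h5 : y * (t * y * t⁻¹) = 1 := by
        by_contra h1
        refine H.no_iv ⟨H.odd_of_mem hy.1 (mul_mem hyA h4), h1⟩ ht ?_
        rw [H.comm hy hyA h4]
        conv_rhs => rw [← H.comm hy hyA h4]
        rw [ht.inv]
        calc t * y * t * y * t = _ := rfl
          _ = t * (y * (t * y * t)) := by group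
      have h6 : t * y * t⁻¹ = y⁻¹ := eq_inv_of_mul_eq_one_right h5
      refine hts.1 (key _ (mem_c.2 ?_) (by rw [mul_assoc, hs.2, ← mul_assoc, ← hc, mul_assoc, hs.2]))
      calc t * s * y = t * (s * y * s⁻¹) * s := by group
        _ = (t * y * t⁻¹)⁻¹ * (t * s) := by rw [h]; group
        _ = _ := by rw [h6, inv_inv]
    have := Nat.le_of_dvd (by norm_num) h8
    generalize Nat.card E = e at *
    interval_cases e <;> omega
  · rw [mm, ← Nat.card_prod]
    symm
    refine Nat.card_congr (Equiv.ofBijective (fun p : A × E => (⟨p.1 * p.2, mul_mem (hAN p.1.2) p.2.2.1⟩ : N))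
      ⟨?_, ?_⟩)
    · rintro ⟨a, u⟩ ⟨a', u'⟩ e
      have e : (a : X) * u = a' * u' := congrArg Subtype.val e
      have e2 : (a' : X)⁻¹ * a = u' * (u : X)⁻¹ := by
        calc (a' : X)⁻¹ * a = (a' : X)⁻¹ * (a * u) * (u : X)⁻¹ := by group
          _ = _ := by rw [e]; group
      have e3 := key _ (mul_mem (inv_mem a'.2) a.2) (by
        rw [e2]; exact mem_c.1 (Subgroup.mul_mem _ (Subgroup.mem_inf.1 u'.2).2
          (Subgroup.inv_mem _ (Subgroup.mem_inf.1 u.2).2)))
      rw [e2] at e3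
      have e4 : (u' : X) = u := mul_inv_eq_one.1 e3
      rw [e4] at e
      exact Prod.ext (Subtype.ext (mul_right_cancel e)) (Subtype.ext e4.symm)
    · rintro ⟨n, hn⟩
      have h1 : n⁻¹ * y * n ∈ A := by
        simpa using (mem_normalizer_iff.1 (inv_mem hn) y).1 hyA
      have h2 := H.inv_of_mem hy.1 h h1
      have h3 : n * s * n⁻¹ * s ∈ A := by
        rw [mem_c]
        calc n * s * n⁻¹ * s * y = n * s * n⁻¹ * (s * y * s⁻¹) * s := by group
          _ = n * (s * (n⁻¹ * y * n) * s⁻¹)⁻¹ * s * n⁻¹ * s := by rw [h]; group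
          _ = _ := by rw [h2]; group
      obtain ⟨k, hk⟩ := sqrt_odd (H.odd_of_mem hy.1 h3)
      set w := n * s * n⁻¹ * s with hw
      have h4 : w ^ k ∈ A := pow_mem h3 k
      have h5 : w ^ k * w ^ k = w := by rw [← Commute.mul_pow (Commute.refl w), hk]
      have h6 := H.inv_of_mem hy.1 h h4
      refine ⟨⟨⟨w ^ k, h4⟩, ⟨(w ^ k)⁻¹ * n, Subgroup.mul_mem _ (Subgroup.inv_mem _ (hAN h4)) hn, mem_c.2 ?_⟩⟩,
        Subtype.ext (by simp)⟩
      generalize w ^ k = v at *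
      have h7 : n * s = v * v * s * n := by
        rw [h5, hw, mul_assoc _ s s, hs.2]; group
      have h8 : s * v⁻¹ = v * s := by
        calc s * v⁻¹ = (s * v * s⁻¹)⁻¹ * s := by group
          _ = _ := by rw [h6, inv_inv]
      calc v⁻¹ * n * s = v⁻¹ * (n * s) := by group
        _ = v * s * n := by rw [h7]; group
        _ = _ := by rw [← h8]; group
  · exact ⟨(mem_normalizer_iff.1 hu.1 w).1 hw.1, fun e => hw.2.1 (by simpa using e), hP _ _ hw.2.2⟩
  · refine key u ?_ (mem_c.1 hu.2)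
    rw [hA, ← H.cent_eq hy hw.1 hw.2.1, mem_c]
    calc u * w = u * w * u⁻¹ * u := by group
      _ = _ := by rw [e]

theorem coprime {y z : X} (hy : Rr y) (hz : Rr z) (h : ¬ Blk y z) : (mm y).Coprime (mm z) := by
  refine Nat.Coprime.symm (Nat.coprime_of_dvd fun p hp h2 h1 => h ?_)
  have := Fact.mk hp
  obtain ⟨u, hu⟩ := exists_prime_orderOf_dvd_card' (G := centralizer ({y} : Set X)) p h1
  obtain ⟨v, hv⟩ := exists_prime_orderOf_dvd_card' (G := centralizer ({z} : Set X)) p h2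
  rw [← Subgroup.orderOf_coe] at hu hv
  have hu1 : (u : X) ≠ 1 := fun e => hp.one_lt.ne (by rw [← hu, e, orderOf_one])
  have hv1 : (v : X) ≠ 1 := fun e => hp.one_lt.ne (by rw [← hv, e, orderOf_one])
  obtain ⟨P, hP⟩ := (IsPGroup.of_card (n := 1) (G := zpowers (u : X))
    (by rw [Nat.card_zpowers, hu, pow_one])).exists_le_sylow
  obtain ⟨Q, hQ⟩ := (IsPGroup.of_card (n := 1) (G := zpowers (v : X))
    (by rw [Nat.card_zpowers, hv, pow_one])).exists_le_sylow
  obtain ⟨g, rfl⟩ := MulAction.exists_smul_eq X Q P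
  have huP : (u : X) ∈ (g • Q : Sylow p X) := hP (mem_zpowers _)
  have : Nontrivial (g • Q : Sylow p X) := ⟨⟨⟨u, huP⟩, 1, fun e => hu1 (congrArg Subtype.val e)⟩⟩
  have := (g • Q).2.center_nontrivial
  obtain ⟨⟨w, hw⟩, hw1⟩ := exists_ne (1 : center ((g • Q : Sylow p X) : Subgroup X))
  have hw2 : (w : X) ≠ 1 := fun e => hw1 (Subtype.ext (Subtype.ext e))
  have hc : ∀ x ∈ ((g • Q : Sylow p X) : Subgroup X), x * w = w * x := fun x hx =>
    congrArg Subtype.val (mem_center_iff.1 hw ⟨x, hx⟩)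
  have h3 : (w : X) ∈ centralizer ({y} : Set X) := by
    rw [← H.cent_eq hy u.2 hu1, mem_c, hc _ huP]
  have h4 : Blk y v := by
    refine ⟨hv1, g, ?_⟩
    rw [← H.cent_eq hy h3 hw2, mem_c]
    refine hc _ ?_
    exact Subgroup.smul_mem_pointwise_smul (v : X) (MulAut.conj g) (Q : Subgroup X)
      (hQ (mem_zpowers _))
  rw [← (H.blk_R hy h4).2.2]
  exact ⟨hz.1.2, 1, by simpa [mem_c] using (mem_c.1 v.2).symm⟩

open Classical in
theorem main [Fintype X] {s : X} (hs : Iv s) : ∃ N, Nat.card X = 8 * N ∧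
    N * N = 13 * N + ∑ y ∈ univ.filter (Rr (X := X)), mm y ∧
    (univ.filter (Rr (X := X))).card + 1 ≤ 5 * N := by
  set I := univ.filter (Iv (X := X)) with hI
  have h8 : Nat.card X = 8 * I.card := by
    rw [← CharLib.card_conj_mul_card_centralizer s, mul_comm]
    congr 1
    · exact H.mm_iv hs
    · rw [hI, ← Fintype.card_subtype, ← Nat.card_eq_fintype_card]
      refine Nat.card_congr (Equiv.subtypeEquivRight fun x => ⟨fun h => ?_, fun h => H.conj _ _ hs h⟩)
      obtain ⟨c, rfl⟩ := isConj_iff.1 h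
      exact hs.conj c
  have hJ : (univ.filter fun y : X => Iv (y * y)).card = 2 * I.card := by
    rw [Finset.card_eq_sum_card_fiberwise (f := fun y => y * y) (t := I) (fun y hy => by simpa [hI] using hy),
      mul_comm]
    refine Finset.sum_const_nat fun z hz => ?_
    have hz : Iv z := by simpa [hI] using hz
    rw [← H.sqrt_iv hz, Nat.card_eq_fintype_card, Fintype.card_subtype]
    congr 1
    ext y
    simp only [mem_filter, mem_univ, true_and, and_iff_right_iff_imp]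
    rintro rfl; exact hz
  have hx : ∀ y : X, (y = 1 ∧ ¬ Iv y ∧ ¬ Iv (y * y) ∧ ¬ Rr y) ∨ (y ≠ 1 ∧ Iv y ∧ ¬ Iv (y * y) ∧ ¬ Rr y) ∨
      (y ≠ 1 ∧ ¬ Iv y ∧ Iv (y * y) ∧ ¬ Rr y) ∨ (y ≠ 1 ∧ ¬ Iv y ∧ ¬ Iv (y * y) ∧ Od y) := fun y => by
    by_cases h1 : y = 1
    · subst h1; simp [Iv, Rr, Od]
    by_cases h2 : Odd (orderOf y)
    · exact .inr (.inr (.inr ⟨h1, fun h => H.no_iv ⟨h2, h1⟩ h rfl,
        fun h => H.no_iv ⟨h2, h1⟩ h (by group), h2, h1⟩))
    by_cases h3 : y * y = 1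
    · exact .inr (.inl ⟨h1, ⟨h1, h3⟩, fun h => h.1 h3, fun h => h2 h.1.1⟩)
    · exact .inr (.inr (.inl ⟨h1, fun h => h3 h.2, ⟨h3, by rw [← H.even4 h2]; simp only [pow_succ, pow_zero, one_mul, mul_assoc]⟩,
        fun h => h2 h.1.1⟩))
  have hone : (univ.filter fun a : X => a = 1).card = 1 := by
    rw [Finset.card_eq_one]; exact ⟨1, by ext; simp⟩
  refine ⟨I.card, h8, ?_, ?_⟩
  · have h1 : I.card * I.card = ∑ y : X, rr y := by
      rw [← card_product, Finset.card_eq_sum_card_fiberwise (f := fun p => p.1 * p.2) (t := univ)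
        (fun _ _ => by simp)]
      refine Finset.sum_congr rfl fun y _ => ?_
      rw [rr, Nat.card_eq_fintype_card, Fintype.card_subtype]
      refine Finset.card_bij (fun p _ => p.1) ?_ ?_ ?_
      · rintro ⟨a, b⟩ hp
        simp only [hI, mem_filter, mem_product, mem_univ, true_and] at hp ⊢
        obtain ⟨⟨ha, hb⟩, rfl⟩ := hp
        exact ⟨ha, by rwa [← mul_assoc, ha.2, one_mul]⟩
      · rintro ⟨a, b⟩ hp ⟨a', b'⟩ hp' e
        simp only [mem_filter] at hp hp' e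
        subst e
        rw [mul_left_cancel (hp.2.trans hp'.2.symm)]
      · intro a ha
        simp only [mem_filter, mem_univ, true_and] at ha
        refine ⟨(a, a * y), ?_, rfl⟩
        simp only [hI, mem_filter, mem_product, mem_univ, true_and]
        exact ⟨ha, by rw [← mul_assoc, ha.1.2, one_mul]⟩
    have h2 : ∀ y : X, rr y = (if y = 1 then I.card else 0) + (if Iv y then 4 else 0) +
        (if Iv (y * y) then 4 else 0) + (if Rr y then mm y else 0) := fun y => by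
      rcases hx y with ⟨a, b, c, d⟩ | ⟨a, b, c, d⟩ | ⟨a, b, c, d⟩ | ⟨a, b, c, d⟩
      · rw [if_pos a, if_neg b, if_neg c, if_neg d, a, rr, Nat.card_eq_fintype_card,
          Fintype.card_subtype]
        simp only [mul_one, and_self, add_zero, hI]
      · simp [a, b, c, d, H.rr_iv b]
      · simp [a, b, c, d, H.rr_four c]
      · by_cases e : Rr y
        · simp [a, b, c, e, H.rr_R e]
        · simp only [a, b, c, e, if_false, add_zero]
          rw [rr, Nat.card_eq_zero]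
          refine .inl ⟨fun ⟨t, h1, h2⟩ => e ⟨d, t, h1, ?_⟩⟩
          rw [h1.inv, eq_inv_iff_mul_eq_one, ← h2.2]; group
    rw [h1, Finset.sum_congr rfl fun y _ => h2 y]
    simp only [sum_add_distrib, ← Finset.sum_filter, sum_const, smul_eq_mul, hJ, ← hI, hone]
    ring
  · have h2 : ∀ y : X, (if y = 1 then 1 else 0) + (if Iv y then 1 else 0) +
        (if Iv (y * y) then 1 else 0) + (if Rr y then 1 else 0) ≤ 1 := fun y => by
      rcases hx y with ⟨a, b, c, d⟩ | ⟨a, b, c, d⟩ | ⟨a, b, c, d⟩ | ⟨a, b, c, d⟩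
      · rw [if_pos a, if_neg b, if_neg c, if_neg d]
      · rw [if_neg a, if_pos b, if_neg c, if_neg d]
      · rw [if_neg a, if_neg b, if_pos c, if_neg d]
      · rw [if_neg a, if_neg b, if_neg c]; split_ifs <;> simp
    have h3 := Finset.sum_le_sum fun y (_ : y ∈ univ) => h2 y
    simp only [sum_add_distrib, ← Finset.sum_filter, sum_const, smul_eq_mul, hJ, ← hI,
      hone, card_univ, mul_one] at h3
    rw [Nat.card_eq_fintype_card] at h8
    change _ + #(univ.filter Rr) ≤ _ at h3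
    omega

/-- numerical data of a block -/
def Dat (N n m e : ℕ) : Prop :=
  (e = 2 ∨ e = 4) ∧ Odd m ∧ 1 < m ∧ e ∣ m - 1 ∧ n * m * e = 8 * N * (m - 1) ∧ m ∣ N

theorem dat {N : ℕ} (hN : Nat.card X = 8 * N) {y : X} (hy : Rr y) : ∃ e,
    Dat N (Nat.card {z // Blk y z}) (mm y) e ∧ ∀ P : X → Prop, (∀ u w, P w → P (u * w * u⁻¹)) →
      e ∣ Nat.card {w // w ∈ centralizer ({y} : Set X) ∧ w ≠ 1 ∧ P w} := by
  classical
  obtain ⟨e, h1, h2, h3⟩ := H.norm_card hy
  have ho := H.odd_mm hy.1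
  refine ⟨e, ⟨h1, ho, ?_, ?_, ?_, ?_⟩, h3⟩
  · exact (Subgroup.one_lt_card_iff_ne_bot _).2 fun e => hy.1.2 (by
      have : y ∈ centralizer ({y} : Set X) := mem_c.2 rfl
      rwa [e] at this)
  · have := Fintype.ofFinite X
    convert h3 (fun _ => True) (fun _ _ _ => trivial) using 1
    rw [mm, Nat.card_eq_fintype_card, Fintype.card_subtype, Nat.card_eq_fintype_card,
      Fintype.card_subtype, ← Finset.card_erase_of_mem (a := (1 : X)) (by simp)]
    congr 1
    ext w; simp [and_comm]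
  · rw [mul_assoc, ← h2, H.blk_card hy, hN]
  · refine (Nat.Coprime.pow_right 3 (Nat.coprime_two_right.2 ho)).dvd_of_dvd_mul_left ?_
    exact hN ▸ Subgroup.card_subgroup_dvd_card _

end Hyp

open Hyp

theorem Hyp.Dat.bd {N n m e : ℕ} (h : Dat N n m e) : 8 * N ≤ 5 * n ∧ (e = 2 → 8 * N ≤ 3 * n) ∧
    (m ≠ 5 → 16 * N ≤ 9 * n) ∧ (m ≠ 5 → m ≠ 9 → 24 * N ≤ 13 * n) := by
  obtain ⟨h1, h2, h3, h4, h5, -⟩ := h
  obtain ⟨k, rfl⟩ : ∃ k, m = k + 1 := ⟨m - 1, by omega⟩
  simp only [Nat.add_sub_cancel] at h4 h5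
  obtain ⟨j, rfl⟩ := h4
  have h6 : n * (e * j + 1) = 8 * N * j :=
    Nat.eq_of_mul_eq_mul_right (by omega : 0 < e) (by rw [h5]; ring)
  have hj : 1 ≤ j := Nat.pos_of_ne_zero (by rintro rfl; simp at h3)
  have key : ∀ a b : ℕ, a * (e * j + 1) ≤ b * 8 * j → a * N ≤ b * n := fun a b h => by
    refine Nat.le_of_mul_le_mul_right (c := e * j + 1) ?_ (by omega)
    calc a * N * (e * j + 1) = a * (e * j + 1) * N := by ring
      _ ≤ b * 8 * j * N := Nat.mul_le_mul_right _ h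
      _ = _ := by rw [mul_assoc b n, h6]; ring
  rcases h1 with rfl | rfl
  · exact ⟨key _ _ (by omega), fun _ => key _ _ (by omega), fun _ => key _ _ (by omega),
      fun _ _ => key _ _ (by omega)⟩
  · exact ⟨key _ _ (by omega), fun h => by omega, fun _ => key _ _ (by omega),
      fun _ _ => key _ _ (by omega)⟩

theorem three {N n1 m1 e1 n2 m2 e2 n3 m3 e3 : ℕ} (h1 : Dat N n1 m1 e1) (h2 : Dat N n2 m2 e2)
    (h3 : Dat N n3 m3 e3) (c12 : m1.Coprime m2) (c13 : m1.Coprime m3) (c23 : m2.Coprime m3)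
    (h : n1 + n2 + n3 + 1 ≤ 5 * N) : False := by
  have b1 := h1.bd
  have b2 := h2.bd
  have b3 := h3.bd
  have d12 : m1 ≠ m2 := fun e => by subst e; have := h1.2.2.1; simp at c12; omega
  have d13 : m1 ≠ m3 := fun e => by subst e; have := h1.2.2.1; simp at c13; omega
  have d23 : m2 ≠ m3 := fun e => by subst e; have := h2.2.2.1; simp at c23; omega
  omega

theorem Hyp.Dat.eq {N n m e : ℕ} (h : Dat N n m e) : ∃ j, m = e * j + 1 ∧ n * m = 8 * N * j := by
  obtain ⟨h1, h2, h3, ⟨j, h4⟩, h5, -⟩ := h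
  refine ⟨j, by omega, Nat.eq_of_mul_eq_mul_right (by omega : 0 < e) (by rw [h5, h4]; ring)⟩

theorem one {N n m e : ℕ} (h : Dat N n m e) (hN : 0 < N) (he : N * N = 13 * N + n * m)
    (h15 : 15 ∣ m) : False := by
  obtain ⟨j, h1, h2⟩ := h.eq
  have h3 : N = 13 + 8 * j := Nat.eq_of_mul_eq_mul_left hN (by rw [he, h2]; ring)
  obtain ⟨h4, -, -, -, -, c, h5⟩ := h
  have : 15 ≤ m := Nat.le_of_dvd (by omega) h15
  have hc : c ≤ 4 := by rcases h4 with rfl | rfl <;> nlinarith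
  interval_cases c <;> rcases h4 with rfl | rfl <;> omega

theorem two {N n1 m1 e1 n2 m2 e2 : ℕ} (h1 : Dat N n1 m1 e1) (h2 : Dat N n2 m2 e2) (hN : 0 < N)
    (c : m1.Coprime m2) (he : N * N = 13 * N + (n1 * m1 + n2 * m2)) (h : n1 + n2 + 1 ≤ 5 * N)
    (h3 : 3 ∣ m1) (h5 : 5 ∣ m1 ∨ 5 ∣ m2) : N = 45 ∧ m1 = 9 ∧ e1 = 4 := by
  obtain ⟨j1, a1, a2⟩ := h1.eq
  obtain ⟨j2, b1, b2⟩ := h2.eq
  have h4 : N = 13 + 8 * j1 + 8 * j2 := Nat.eq_of_mul_eq_mul_left hN (by rw [he, a2, b2]; ring)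
  have h6 := c.mul_dvd_of_dvd_of_dvd h1.2.2.2.2.2 h2.2.2.2.2.2
  have h7 := Nat.le_of_dvd hN h6
  have d1 := h1.bd
  have d2 := h2.bd
  have p1 := h1.2.2.1
  have p2 := h2.2.2.1
  have j1p : 1 ≤ j1 := Nat.pos_of_ne_zero (by rintro rfl; omega)
  have j2p : 1 ≤ j2 := Nat.pos_of_ne_zero (by rintro rfl; omega)
  have e3 : ¬ 3 ∣ m2 := fun e => by have := Nat.dvd_gcd h3 e; rw [c] at this; omega
  subst h4
  rcases h1.1 with rfl | rfl <;> rcases h2.1 with rfl | rfl
  · have : m2 ≠ 3 := by omega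
    exfalso
    have k : 2 ≤ j2 := by omega
    have : 2 * (13 + 8 * j1 + 8 * j2) * 8 ≤ 5 * n2 := by
      refine Nat.le_of_mul_le_mul_right (c := m2) ?_ (by omega)
      rw [mul_assoc 5 n2, b2, b1]; nlinarith
    omega
  · have k1 : j1 ≤ 8 := by subst a1 b1; nlinarith
    have k2 : j2 ≤ 5 := by subst a1 b1; nlinarith
    exfalso
    subst a1 b1
    clear he a2 b2 d1 d2 h1 h2 h
    interval_cases j1 <;> interval_cases j2 <;> first | omega | (revert c; decide)
  · have k1 : j1 ≤ 5 := by subst a1 b1; nlinarith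
    have k2 : j2 ≤ 8 := by subst a1 b1; nlinarith
    subst a1 b1
    clear he a2 b2 d1 d2 h1 h2 h
    interval_cases j1 <;> interval_cases j2 <;> first | omega | (revert c; decide)
  · have k1 : j1 ≤ 5 := by subst a1 b1; nlinarith
    have k2 : j2 ≤ 5 := by subst a1 b1; nlinarith
    exfalso
    subst a1 b1
    clear he a2 b2 d1 d2 h1 h2 h
    interval_cases j1 <;> interval_cases j2 <;> first | omega | (revert c; decide)

theorem Hyp.final (H : Hyp X) {a b : X} (ha : Rr a) (hb : Rr b) (h3 : orderOf a = 3)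
    (h5 : orderOf b = 5) : Nat.card X = 360 ∧ mm a = 9 ∧ ∀ y, y * a = a * y → y ^ 3 = 1 := by
  classical
  have := Fintype.ofFinite X
  obtain ⟨s, hs, -⟩ := ha.2
  obtain ⟨N, hN, h1, h2⟩ := H.main hs
  have hN0 : 0 < N := by have := Nat.card_pos (α := X); omega
  have hd : ∀ y : X, orderOf y ∣ mm y := fun y => Subgroup.orderOf_dvd_natCard _ (mem_c.2 rfl)
  have hc : ∀ y : X, Nat.card {z // Blk y z} = (univ.filter (Blk y)).card := fun y => by
    rw [Nat.card_eq_fintype_card, Fintype.card_subtype]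
  have hsum : ∀ y : X, Rr y → ∑ z ∈ univ.filter (Blk y), mm z = (univ.filter (Blk y)).card * mm y :=
    fun y hy => Finset.sum_const_nat fun z hz => (H.blk_R hy (mem_filter.1 hz).2).2.1
  have hdis : ∀ y z : X, Rr y → Rr z → ¬ Blk y z →
      Disjoint (univ.filter (Blk y)) (univ.filter (Blk z)) := fun y z hy hz h =>
    Finset.disjoint_left.2 fun v h1 h2 => h (by
      rw [← (H.blk_R hy (mem_filter.1 h1).2).2.2, (H.blk_R hz (mem_filter.1 h2).2).2.2]
      exact blk_self hz)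
  have hsub : ∀ y : X, Rr y → univ.filter (Blk y) ⊆ univ.filter Rr := fun y hy z hz =>
    mem_filter.2 ⟨mem_univ _, (H.blk_R hy (mem_filter.1 hz).2).1⟩
  obtain ⟨e, d1, d1'⟩ := H.dat hN ha
  have key : ∀ c, Rr c → ¬ Blk a c → (5 ∣ mm a ∨ 5 ∣ mm c) → N = 45 ∧ mm a = 9 ∧ e = 4 := by
    intro c hc' hac h5'
    obtain ⟨e2, d2, -⟩ := H.dat hN hc'
    have hu : univ.filter (Blk a) ∪ univ.filter (Blk c) = univ.filter Rr := by
      refine subset_antisymm (union_subset (hsub _ ha) (hsub _ hc')) fun d hd' => ?_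
      by_contra hn
      have hR := (mem_filter.1 hd').2
      simp only [mem_union, mem_filter, mem_univ, true_and, not_or] at hn
      obtain ⟨e3, d3, -⟩ := H.dat hN hR
      refine three d1 d2 d3 (H.coprime ha hc' hac) (H.coprime ha hR hn.1) (H.coprime hc' hR hn.2) ?_
      rw [hc, hc, hc, ← card_union_of_disjoint (hdis _ _ ha hc' hac), ← card_union_of_disjoint
        (disjoint_union_left.2 ⟨hdis _ _ ha hR hn.1, hdis _ _ hc' hR hn.2⟩)]
      have := card_le_card (union_subset (union_subset (hsub _ ha) (hsub _ hc')) (hsub _ hR))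
      omega
    rw [← hu] at h1 h2
    rw [sum_union (hdis _ _ ha hc' hac), hsum _ ha, hsum _ hc', ← hc, ← hc] at h1
    rw [card_union_of_disjoint (hdis _ _ ha hc' hac), ← hc, ← hc] at h2
    exact two d1 d2 hN0 (H.coprime ha hc' hac) h1 h2 (h3 ▸ hd a) h5'
  have key2 : N = 45 ∧ mm a = 9 ∧ e = 4 := by
    by_cases hab : Blk a b
    · have h5' : 5 ∣ mm a := (H.blk_R ha hab).2.1 ▸ h5 ▸ hd b
      by_cases hx : ∃ c, Rr c ∧ ¬ Blk a c
      · obtain ⟨c, x1, x2⟩ := hx
        exact key c x1 x2 (.inl h5')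
      · exfalso
        push Not at hx
        have hu : univ.filter (Blk a) = univ.filter Rr :=
          subset_antisymm (hsub _ ha) fun d hd' => mem_filter.2 ⟨mem_univ _, hx d (mem_filter.1 hd').2⟩
        rw [← hu, hsum _ ha, ← hc] at h1
        exact one d1 hN0 h1 (Nat.Coprime.mul_dvd_of_dvd_of_dvd (m := 3) (n := 5) (by norm_num)
          (h3 ▸ hd a) h5')
    · exact key b hb hab (.inr (h5 ▸ hd b))
  obtain ⟨rfl, k2, rfl⟩ := key2
  refine ⟨hN, k2, fun y hy => ?_⟩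
  by_contra hn
  have h4 := d1' (fun w => w ^ 3 = 1) (fun u w h => by rw [conj_pow, h]; simp)
  let A := centralizer ({a} : Set X)
  have h9 : orderOf (⟨y, mem_c.2 hy⟩ : A) = 9 := by
    have h6 : orderOf (⟨y, mem_c.2 hy⟩ : A) ∣ 3 ^ 2 := by
      have := orderOf_dvd_natCard (⟨y, mem_c.2 hy⟩ : A)
      rwa [show Nat.card A = 9 from k2] at this
    obtain ⟨i, hi, e⟩ := (Nat.dvd_prime_pow (by norm_num)).1 h6
    rw [e]
    interval_cases i
    all_goals first | rfl | skip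
    all_goals
      exfalso; apply hn
      rw [← orderOf_dvd_iff_pow_eq_one, ← Subgroup.orderOf_mk y (mem_c.2 hy), e]; norm_num
  have : IsCyclic A := isCyclic_of_orderOf_eq_card _ (h9.trans k2.symm)
  have h6 := IsCyclic.card_pow_eq_one_le (α := A) (n := 3) (by norm_num)
  have h7 : Nat.card {w // w ∈ A ∧ w ≠ 1 ∧ w ^ 3 = 1} ≤ 3 := by
    refine le_trans ?_ h6
    rw [← Fintype.card_subtype, ← Nat.card_eq_fintype_card]
    exact Nat.card_le_card_of_injective (fun w => ⟨⟨w.1, w.2.1⟩, Subtype.ext w.2.2.2⟩)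
      fun u v e => Subtype.ext (congrArg (fun x => x.1.1) e)
  have h8 : 0 < Nat.card {w // w ∈ A ∧ w ≠ 1 ∧ w ^ 3 = 1} :=
    Nat.card_pos_iff.2 ⟨⟨⟨a, mem_c.2 rfl, ha.1.2, h3 ▸ pow_orderOf_eq_one a⟩⟩, inferInstance⟩
  have := Nat.le_of_dvd h8 h4
  omega

end Cfsg.Agent.JT.D8

namespace Cfsg.Agent.JT

open D8

theorem card_cent {X : Type*} [Group X] [Finite X]
    (hconj : ∀ s s' : X, orderOf s = 2 → orderOf s' = 2 → IsConj s s')
    (hC : ∀ s : X, orderOf s = 2 → Nonempty (Subgroup.centralizer ({s} : Set X) ≃* DihedralGroup 4))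
    {a b s s' : X} (ha : orderOf a = 3) (hb : orderOf b = 5) (hs : orderOf s = 2)
    (hs' : orderOf s' = 2) (h1 : s * a * s = a⁻¹) (h2 : s' * b * s' = b⁻¹) :
    Nat.card X = 360 ∧ (∀ y, Commute y a → y ^ 3 = 1) ∧
      Nat.card (Subgroup.centralizer ({a} : Set X)) = 9 := by
  have H : Hyp X := ⟨fun s s' h h' => hconj s s' (iv_iff.2 h) (iv_iff.2 h'),
    fun s h => hC s (iv_iff.2 h)⟩
  rw [iv_iff] at hs hs'
  obtain ⟨k1, k2, k3⟩ := H.final (a := a) (b := b)
    ⟨⟨by rw [ha]; decide, fun e => by simp [e] at ha⟩, s, hs, by rwa [hs.inv]⟩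
    ⟨⟨by rw [hb]; decide, fun e => by simp [e] at hb⟩, s', hs', by rwa [hs'.inv]⟩ ha hb
  exact ⟨k1, k3, k2⟩

end Cfsg.Agent.JT
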