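import Cfsg.Agent.JT.Data

set_option autoImplicit false
set_option linter.unusedSimpArgs false

/-! Facts about the centraliser of the involution, read off from its enumeration. -/

namespace Cfsg.Agent.JT

open Cfsg.Agent.CGT

variable {G : Type*} [Group G]

/-- Generators from a list. -/
def gl (l : List G) (j : ℕ) : G := l.getD j 1

theorem gl_one {l : List G} {j : ℕ} (h : l.length ≤ j) : gl l j = 1 := List.getD_eq_default _ _ h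

/-- Evaluation of words. -/
theorem ws : (∀ (g : ℕ → G) a w, ev g (a :: w) = g a * ev g w) ∧ (∀ g : ℕ → G, ev g [] = 1) ∧
    (∀ z : G, z * 1 = z) ∧ (∀ g : ℕ → G, Holds g [] ↔ True) ∧
    (∀ (g : ℕ → G) w R, Holds g (w :: R) ↔ ev g w = 1 ∧ Holds g R) ∧
    (∀ γ : ℕ → G, ext γ 0 = γ 0) ∧
    (∀ γ : ℕ → G, ext γ 1 = (γ 0)⁻¹) ∧
    (∀ γ : ℕ → G, ext γ 2 = γ 1) ∧
    (∀ γ : ℕ → G, ext γ 3 = (γ 1)⁻¹) ∧
    (∀ γ : ℕ → G, ext γ 4 = γ 2) ∧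
    (∀ γ : ℕ → G, ext γ 5 = (γ 2)⁻¹) ∧
    (∀ γ : ℕ → G, ext γ 6 = γ 3) ∧
    (∀ γ : ℕ → G, ext γ 7 = (γ 3)⁻¹) ∧
    (∀ γ : ℕ → G, ext γ 8 = γ 4) ∧
    (∀ γ : ℕ → G, ext γ 9 = (γ 4)⁻¹) ∧
    (∀ γ : ℕ → G, ext γ 10 = γ 5) ∧
    (∀ γ : ℕ → G, ext γ 11 = (γ 5)⁻¹) ∧
    (∀ γ : ℕ → G, ext γ 12 = γ 6) ∧
    (∀ γ : ℕ → G, ext γ 13 = (γ 6)⁻¹) ∧
    (∀ γ : ℕ → G, ext γ 14 = γ 7) ∧
    (∀ γ : ℕ → G, ext γ 15 = (γ 7)⁻¹) ∧
    (∀ γ : ℕ → G, ext γ 16 = γ 8) ∧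
    (∀ γ : ℕ → G, ext γ 17 = (γ 8)⁻¹) ∧
    (∀ γ : ℕ → G, ext γ 18 = γ 9) ∧
    (∀ γ : ℕ → G, ext γ 19 = (γ 9)⁻¹) ∧
    (∀ γ : ℕ → G, ext γ 20 = γ 10) ∧
    (∀ γ : ℕ → G, ext γ 21 = (γ 10)⁻¹) ∧
    (∀ γ : ℕ → G, ext γ 100 = γ 50) ∧
    (∀ γ : ℕ → G, ext γ 101 = (γ 50)⁻¹) ∧
    (∀ (γ : ℕ → G) z, up γ z 0 = γ 0) ∧
    (∀ (γ : ℕ → G) z, up γ z 1 = γ 1) ∧
    (∀ (γ : ℕ → G) z, up γ z 2 = γ 2) ∧
    (∀ (γ : ℕ → G) z, up γ z 3 = γ 3) ∧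
    (∀ (γ : ℕ → G) z, up γ z 4 = γ 4) ∧
    (∀ (γ : ℕ → G) z, up γ z 5 = γ 5) ∧
    (∀ (γ : ℕ → G) z, up γ z 6 = γ 6) ∧
    (∀ (γ : ℕ → G) z, up γ z 7 = γ 7) ∧
    (∀ (γ : ℕ → G) z, up γ z 8 = γ 8) ∧
    (∀ (γ : ℕ → G) z, up γ z 9 = γ 9) ∧
    (∀ (γ : ℕ → G) z, up γ z 10 = γ 10) ∧
    (∀ (γ : ℕ → G) z, up γ z 50 = z) ∧
    (∀ (a0 : G) l, gl (a0 :: l) 0 = a0) ∧
    (∀ (a0 a1 : G) l, gl (a0 :: a1 :: l) 1 = a1) ∧
    (∀ (a0 a1 a2 : G) l, gl (a0 :: a1 :: a2 :: l) 2 = a2) ∧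
    (∀ (a0 a1 a2 a3 : G) l, gl (a0 :: a1 :: a2 :: a3 :: l) 3 = a3) ∧
    (∀ (a0 a1 a2 a3 a4 : G) l, gl (a0 :: a1 :: a2 :: a3 :: a4 :: l) 4 = a4) ∧
    (∀ (a0 a1 a2 a3 a4 a5 : G) l, gl (a0 :: a1 :: a2 :: a3 :: a4 :: a5 :: l) 5 = a5) ∧
    (∀ (a0 a1 a2 a3 a4 a5 a6 : G) l, gl (a0 :: a1 :: a2 :: a3 :: a4 :: a5 :: a6 :: l) 6 = a6) ∧
    (∀ (a0 a1 a2 a3 a4 a5 a6 a7 : G) l, gl (a0 :: a1 :: a2 :: a3 :: a4 :: a5 :: a6 :: a7 :: l) 7 = a7) ∧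
    (∀ (a0 a1 a2 a3 a4 a5 a6 a7 a8 : G) l, gl (a0 :: a1 :: a2 :: a3 :: a4 :: a5 :: a6 :: a7 :: a8 :: l) 8 = a8) ∧
    (∀ (a0 a1 a2 a3 a4 a5 a6 a7 a8 a9 : G) l, gl (a0 :: a1 :: a2 :: a3 :: a4 :: a5 :: a6 :: a7 :: a8 :: a9 :: l) 9 = a9) ∧
    (∀ (a0 a1 a2 a3 a4 a5 a6 a7 a8 a9 a10 : G) l, gl (a0 :: a1 :: a2 :: a3 :: a4 :: a5 :: a6 :: a7 :: a8 :: a9 :: a10 :: l) 10 = a10) := by
  refine ⟨ev_cons, ev_nil, mul_one, fun g => by simp [Holds], fun g w R => by simp [Holds], ?_, ?_, ?_, ?_, ?_, ?_, ?_, ?_, ?_, ?_, ?_, ?_, ?_, ?_, ?_, ?_, ?_, ?_, ?_, ?_, ?_, ?_, ?_, ?_, ?_, ?_, ?_, ?_, ?_, ?_, ?_, ?_, ?_, ?_, ?_, ?_, ?_, ?_, ?_, ?_, ?_, ?_, ?_, ?_, ?_, ?_, ?_⟩ <;>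
    intros <;> rfl

/-- The hypothesis on the centraliser of `t`. -/
abbrev HO (x c r y t a b n : G) : Prop :=
  Orc (gl [x, c, r, y, t, a, b, n]) (Subgroup.centralizer {t}) qH WH

theorem mc {z t : G} : z ∈ Subgroup.centralizer {t} ↔ z * t = t * z :=
  Subgroup.mem_centralizer_singleton_iff

theorem cm_of {z u : G} (h : z * u = u * z) : z * (u * (z⁻¹ * u⁻¹)) = 1 := by
  rw [← mul_assoc, h]; group

theorem of_cm {z u : G} (h : z * (u * (z⁻¹ * u⁻¹)) = 1) : z * u = u * z := by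
  have : z * u = z * (u * (z⁻¹ * u⁻¹)) * (u * z) := by group
  rw [this, h, one_mul]

/-- The elements of the elementary abelian group of order 16. -/
noncomputable def ee (x r t a : G) (i : ℕ) : G := ev (ext (gl [x, 1, r, 1, t, a])) (nth [] EA i)

variable {x c r y t a b n : G}

theorem ee_eq (c y b n : G) {i : ℕ} (hi : i < 16) :
    ee x r t a i = ev (ext (gl [x, c, r, y, t, a, b, n])) (nth [] EA i) := by
  interval_cases i <;> rfl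

namespace HO

theorem inv (O : HO x c r y t a b n) {z : G} (hz : z * t = t * z) (h2 : z * z = 1) :
    z = 1 ∨ z = t ∨ (∃ h, h * t = t * h ∧ h * z * h⁻¹ = x) ∨ ∃ h, h * t = t * h ∧ h * z * h⁻¹ = a := by
  obtain ⟨p, hp, e⟩ := O.cls _ _ c_inv (mc.2 hz) (by simpa only [ws, and_true] using h2)
  have hm := mc.1 (O.mem p.1)
  simp only [List.mem_append] at hp
  rcases hp with ((hp | hp) | hp) | hp <;> obtain ⟨h1, h3⟩ := mem_cl hp <;> rw [h3] at e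
  · rw [List.mem_singleton.1 h1] at e; left; simpa using e
  · rw [List.mem_singleton.1 h1] at e; right; left; simpa [ws] using e
  · exact Or.inr (Or.inr (Or.inl ⟨_, hm, by simpa only [ws] using e⟩))
  · exact Or.inr (Or.inr (Or.inr ⟨_, hm, by simpa only [ws] using e⟩))

theorem cent_a (O : HO x c r y t a b n) {z : G} (hz : z * t = t * z) (h : z * a = a * z) :
    ∃ i < 16, z = ee x r t a i := by
  obtain ⟨s, hs, e⟩ := O.sol _ _ c_a (mc.2 hz) (by simpa only [ws, and_true] using cm_of h)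
  obtain ⟨i, hi, rfl⟩ := List.getElem_of_mem hs
  exact ⟨i, hi, by rw [ee_eq c y b n hi, e, nth_eq, List.getD_eq_getElem]⟩

theorem three_x (O : HO x c r y t a b n) {z : G} (hz : z * t = t * z) (h : z * x = x * z)
    (h3 : z * (z * z) = 1) : z = 1 ∨ ∃ p, p * t = t * p ∧ p * x = x * p ∧
      (p * z * p⁻¹ = r ∨ p * z * p⁻¹ = r⁻¹) := by
  obtain ⟨p, hp, e⟩ := O.cls _ _ c_3P (mc.2 hz) (by simpa only [ws, and_true] using ⟨cm_of h, h3⟩)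
  have hm := mc.1 (O.mem p.1)
  have hx := fun hg => of_cm (by simpa only [ws, and_true] using O.sat _ _ c_3Ps (g := p.1) hg)
  simp only [List.mem_append] at hp hx
  rcases hp with (hp | hp) | hp <;> obtain ⟨h1, h3⟩ := mem_cl hp <;> rw [h3] at e
  · rw [List.mem_singleton.1 h1] at e; left; simpa using e
  · exact Or.inr ⟨_, hm, hx (Or.inl h1), Or.inl (by simpa only [ws] using e)⟩
  · exact Or.inr ⟨_, hm, hx (Or.inr h1), Or.inr (by simpa only [ws] using e)⟩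

theorem no_inv (O : HO x c r y t a b n) {z : G} (hz : z * t = t * z) (h : z * x = x * z)
    (h3 : z * r * z⁻¹ = r⁻¹) : False := by
  obtain ⟨p, hp, -⟩ := O.cls _ _ c_ni (mc.2 hz) (by
    simp only [ws, and_true]
    exact ⟨cm_of h, by rw [← mul_assoc, ← mul_assoc, h3, inv_mul_cancel]⟩)
  cases hp

theorem cent_xr (O : HO x c r y t a b n) {z : G} (hz : z * t = t * z) (h : z * x = x * z)
    (h' : z * r = r * z) : ∃ v, (v = 1 ∨ v = t ∨ v = x ∨ v = t * x) ∧ ∃ i : ℕ, z = v * r ^ i := by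
  obtain ⟨s, hs, e⟩ := O.sol _ _ c_xr (mc.2 hz)
    (by simpa only [ws, and_true] using ⟨cm_of h, cm_of h'⟩)
  simp only [S12, List.mem_cons, List.not_mem_nil, or_false] at hs
  rcases hs with rfl | rfl | rfl | rfl | rfl | rfl | rfl | rfl | rfl | rfl | rfl | rfl <;>
    simp only [ws] at e
  exacts [⟨1, by simp, 0, by simp [e]⟩, ⟨1, by simp, 1, by simp [e]⟩, ⟨1, by simp, 2, by simp [e, sq]⟩,
    ⟨t, by simp, 0, by simp [e]⟩, ⟨t, by simp, 1, by simp [e]⟩, ⟨t, by simp, 2, by simp [e, sq]⟩,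
    ⟨x, by simp, 0, by simp [e]⟩, ⟨x, by simp, 1, by simp [e]⟩, ⟨x, by simp, 2, by simp [e, sq]⟩,
    ⟨t * x, by simp, 0, by simp [e]⟩, ⟨t * x, by simp, 1, by simp [e, mul_assoc]⟩,
    ⟨t * x, by simp, 2, by simp [e, sq, mul_assoc]⟩]

theorem inv_x (O : HO x c r y t a b n) {z : G} (hz : z * t = t * z) (h2 : z * z = 1)
    (h : z * x = x * z) : z = 1 ∨ z = t ∨ z = x ∨ z = t * x ∨
      ∃ h, h * t = t * h ∧ h * z * h⁻¹ = a := by
  obtain ⟨p, hp, e⟩ := O.cls _ _ c_xa (mc.2 hz) (by simpa only [ws, and_true] using ⟨h2, cm_of h⟩)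
  have hm := mc.1 (O.mem p.1)
  simp only [List.mem_append] at hp
  rcases hp with (((hp | hp) | hp) | hp) | hp <;> obtain ⟨h1, h3⟩ := mem_cl hp <;> rw [h3] at e
  · rw [List.mem_singleton.1 h1] at e; left; simpa using e
  · rw [List.mem_singleton.1 h1] at e; right; left; simpa [ws] using e
  · rw [List.mem_singleton.1 h1] at e; right; right; left; simpa [ws] using e
  · rw [List.mem_singleton.1 h1] at e; right; right; right; left; simpa [ws] using e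
  · exact Or.inr (Or.inr (Or.inr (Or.inr ⟨_, hm, by simpa only [ws] using e⟩)))

theorem three (O : HO x c r y t a b n) {z : G} (hz : z * t = t * z) (h3 : z * (z * z) = 1) :
    z = 1 ∨ ∃ p, p * t = t * p ∧ p * z * p⁻¹ = r := by
  obtain ⟨p, hp, e⟩ := O.cls _ _ c_3 (mc.2 hz) (by simpa only [ws, and_true] using h3)
  have hm := mc.1 (O.mem p.1)
  simp only [List.mem_append] at hp
  rcases hp with hp | hp <;> obtain ⟨h1, h3⟩ := mem_cl hp <;> rw [h3] at e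
  · rw [List.mem_singleton.1 h1] at e; left; simpa using e
  · exact Or.inr ⟨_, hm, by simpa only [ws] using e⟩

theorem norm (O : HO x c r y t a b n) {z : G} (hz : z * t = t * z)
    (h : z * x * z⁻¹ * a = a * (z * x * z⁻¹)) (h' : z * a * z⁻¹ * a = a * (z * a * z⁻¹)) :
    z * x = x * z := by
  have := O.imp _ _ c_N (mc.2 hz) (by
    simp only [ws, and_true]
    exact ⟨by rw [← cm_of h]; group, by rw [← cm_of h']; group⟩)
  exact of_cm (by simpa only [ws, and_true] using this)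

theorem e_mul (O : HO x c r y t a b n) {i j : ℕ} (hi : i < 16) (hj : j < 16) :
    ee x r t a i * ee x r t a j = ee x r t a (i ^^^ j) := by
  have h : (allLt 16 fun i => allLt 16 fun j =>
    qH (app (nth [] EA i) (nth [] EA j)) (nth [] EA (Nat.xor i j))) = true := by decide +kernel
  rw [ee_eq c y b n hi, ee_eq c y b n hj, ee_eq c y b n (Nat.xor_lt_two_pow (n := 4) hi hj), ← ev_app]
  exact O.eq _ _ (allLt_iff.1 (allLt_iff.1 h i hi) j hj)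

theorem e_inj (O : HO x c r y t a b n) {i j : ℕ} (hi : i < 16) (hj : j < 16)
    (e : ee x r t a i = ee x r t a j) : i = j := by
  have h : (allLt 16 fun i => allLt 16 fun j =>
    Nat.beq i j || !qH (nth [] EA i) (nth [] EA j)) = true := by decide +kernel
  rw [ee_eq c y b n hi, ee_eq c y b n hj] at e
  simpa [(O.iff _ _).2 e] using allLt_iff.1 (allLt_iff.1 h i hi) j hj

end HO

end Cfsg.Agent.JT
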