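import Cfsg.Agent.JT.Theta

set_option autoImplicit false
set_option linter.unusedSimpArgs false

/-! The normaliser of the elementary abelian group of order sixteen. -/

namespace Cfsg.Agent.JT

open Cfsg.Agent.CGT

variable {G : Type*} [Group G]

/-- A map of the numbers below 16. -/
def fld (c i : ℕ) : ℕ := Nat.land (Nat.shiftRight c (Nat.mul 4 i)) 15

theorem fld_lt (c i : ℕ) : fld c i < 16 := Nat.lt_succ_of_le Nat.and_le_right

/-- `g` acts as the map with code `c`. -/
def Act (e : ℕ → G) (g : G) (c : ℕ) : Prop := ∀ i < 16, g * e i * g⁻¹ = e (fld c i)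

/-- The identity. -/
def idc : ℕ := 0xfedcba9876543210

/-- The action of a word. -/
noncomputable def actW (cs w : List ℕ) (i : ℕ) : ℕ :=
  List.rec i (fun a _ ih => fld (nth idc cs a) ih) w

theorem act_ev {e g : ℕ → G} {cs : List ℕ} (h : ∀ a, Act e (g a) (nth idc cs a)) (w : List ℕ) {i : ℕ}
    (hi : i < 16) : ev g w * e i * (ev g w)⁻¹ = e (actW cs w i) ∧ actW cs w i < 16 := by
  induction w with
  | nil => exact ⟨by simp [actW], hi⟩
  | cons a w ih => exact ⟨by rw [ev_cons, cj_cj, ih.1]; exact h a _ ih.2, fld_lt _ _⟩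

/-- Additivity. -/
noncomputable def isLin (c : ℕ) : Bool :=
  allL [(1, 1), (1, 2), (1, 4), (2, 4), (3, 4), (1, 8), (2, 8), (3, 8), (4, 8), (5, 8), (6, 8), (7, 8)]
    fun p => Nat.beq (fld c (Nat.xor p.1 p.2)) (Nat.xor (fld c p.1) (fld c p.2))

/-- The linear map with given images of the basis. -/
def lin (i j k l : ℕ) : ℕ :=
  Nat.xor (Nat.xor (Nat.mul i 0x1010101010101010) (Nat.mul j 0x1100110011001100))
    (Nat.xor (Nat.mul k 0x1111000011110000) (Nat.mul l 0x1111111100000000))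

/-- The test of one linear map. -/
noncomputable def tst (c i j l : ℕ) : Bool :=
  frc c ((isLin c && (Nat.beq (fld c 1) i && (Nat.beq (fld c 2) j &&
    (Nat.beq (fld c 4) 1 && Nat.beq (fld c 8) l)))) &&
  (!(allLt 15 fun i => !(Nat.beq (fld c (Nat.succ i)) 0)) ||
    ((fun cs => (anyL TW fun w => Nat.beq (actW cs w 1) 1 && !(Nat.beq (actW cs w 2) 2)) ||
      anyL PW fun p => allLt 16 fun i => Nat.beq (actW cs (app p [5]) i) (fld cK i)) (app cs0 [c]))))

theorem c_k0 : (allLt 16 fun i => allLt 16 fun j => allLt 16 fun l => tst (lin i j 1 l) i j l) = true := by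
  decide +kernel

variable {x c r y t a b n : G}

theorem ee_0 : ee x r t a 0 = 1 := rfl
theorem ee_1 : ee x r t a 1 = t := mul_one _
theorem ee_2 : ee x r t a 2 = x := mul_one _
theorem ee_3 : ee x r t a 3 = t * x := congrArg _ (mul_one _)
theorem ee_4 : ee x r t a 4 = a := mul_one _
theorem ee_8 : ee x r t a 8 = r * a * r⁻¹ := by
  show ev _ [4, 10, 5] = _
  simp only [ws, mul_assoc]

namespace HO

theorem ee_12 (O : HO x c r y t a b n) : ee x r t a 12 = r⁻¹ * a * r := by
  rw [ee_eq c y b n (by norm_num)]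
  simpa only [ws, mul_assoc] using O.eq (nth [] EA 12) [5, 10, 4] (by decide +kernel)

theorem e_comm (O : HO x c r y t a b n) {i j : ℕ} (hi : i < 16) (hj : j < 16) :
    ee x r t a i * ee x r t a j = ee x r t a j * ee x r t a i := by
  rw [O.e_mul hi hj, O.e_mul hj hi, Nat.xor_comm]

theorem act_lin (O : HO x c r y t a b n) {g : G} {k : ℕ} (hl : isLin k = true)
    (h1 : g * ee x r t a 1 * g⁻¹ = ee x r t a (fld k 1))
    (h2 : g * ee x r t a 2 * g⁻¹ = ee x r t a (fld k 2))
    (h4 : g * ee x r t a 4 * g⁻¹ = ee x r t a (fld k 4))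
    (h8 : g * ee x r t a 8 * g⁻¹ = ee x r t a (fld k 8)) : Act (ee x r t a) g k := by
  have L : ∀ i j, i < 16 → j < 16 → (i, j) ∈ [(1, 1), (1, 2), (1, 4), (2, 4), (3, 4), (1, 8), (2, 8),
      (3, 8), (4, 8), (5, 8), (6, 8), (7, 8)] → g * ee x r t a i * g⁻¹ = ee x r t a (fld k i) →
      g * ee x r t a j * g⁻¹ = ee x r t a (fld k j) →
      g * ee x r t a (i ^^^ j) * g⁻¹ = ee x r t a (fld k (i ^^^ j)) := fun i j hi hj m e1 e2 => by
    have := Nat.eq_of_beq_eq_true (allL_iff.1 hl _ m)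
    simp only [xor_eq] at this
    rw [← O.e_mul hi hj, cj_mul, e1, e2, O.e_mul (fld_lt _ _) (fld_lt _ _), this]
  have h0 := L 1 1 (by decide) (by decide) (by decide) h1 h1
  have h3 := L 1 2 (by decide) (by decide) (by decide) h1 h2
  have h5 := L 1 4 (by decide) (by decide) (by decide) h1 h4
  have h6 := L 2 4 (by decide) (by decide) (by decide) h2 h4
  have h7 := L 3 4 (by decide) (by decide) (by decide) h3 h4
  have h9 := L 1 8 (by decide) (by decide) (by decide) h1 h8
  have h10 := L 2 8 (by decide) (by decide) (by decide) h2 h8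
  have h11 := L 3 8 (by decide) (by decide) (by decide) h3 h8
  have h12 := L 4 8 (by decide) (by decide) (by decide) h4 h8
  have h13 := L 5 8 (by decide) (by decide) (by decide) h5 h8
  have h14 := L 6 8 (by decide) (by decide) (by decide) h6 h8
  have h15 := L 7 8 (by decide) (by decide) (by decide) h7 h8
  intro i hi
  interval_cases i
  exacts [h0, h1, h2, h3, h4, h5, h6, h7, h8, h9, h10, h11, h12, h13, h14, h15]

theorem act_w (O : HO x c r y t a b n) (w : List ℕ) {k : ℕ}
    (h : (allLt 16 fun i => qH (app w (nth [] EA i)) (app (nth [] EA (fld k i)) w)) = true) :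
    Act (ee x r t a) (ev (ext (gl [x, c, r, y, t, a, b, n])) w) k := fun i hi => by
  have := O.eq _ _ (allLt_iff.1 h i hi)
  rw [ev_app, ev_app] at this
  rw [ee_eq c y b n hi, ee_eq c y b n (fld_lt _ _), this, mul_inv_cancel_right]

theorem acts (O : HO x c r y t a b n) {h k : G} (f1 : h * t * h⁻¹ = x) (f2 : h * x * h⁻¹ = t * x)
    (hr : h * r = r * h) (ha : h * a * h⁻¹ = r * a * r⁻¹) {m : ℕ} (hk : Act (ee x r t a) k m) :
    ∀ j, Act (ee x r t a) (gl [h, r, b, r * b * r⁻¹, r⁻¹ * b * r, k] j) (nth idc (app cs0 [m]) j) := by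
  intro j
  rcases j with _ | _ | _ | _ | _ | _ | j
  · show Act _ h 0x5764dfec9ba81320
    refine O.act_lin (by decide +kernel) ?_ ?_ ?_ ?_
    · rw [ee_1, f1, show fld 0x5764dfec9ba81320 1 = 2 by decide +kernel, ee_2]
    · rw [ee_2, f2, show fld 0x5764dfec9ba81320 2 = 3 by decide +kernel, ee_3]
    · rw [ee_4, ha, show fld 0x5764dfec9ba81320 4 = 8 by decide +kernel, ee_8]
    · rw [ee_8, cj_mul, cj_mul, ha, cj_of hr, cj_of (Commute.inv_right hr).eq,
        show fld 0x5764dfec9ba81320 8 = 12 by decide +kernel, O.ee_12]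
      simpa only [ws, mul_assoc] using O.eq [4, 4, 10, 5, 5] [5, 10, 4] (by decide +kernel)
  · show Act _ r 0x7654fedcba983210
    simpa only [ws] using O.act_w [4] (k := 0x7654fedcba983210) (by decide +kernel)
  · show Act _ b 0xdcfe89ab67453210
    simpa only [ws] using O.act_w [12] (k := 0xdcfe89ab67453210) (by decide +kernel)
  · show Act _ (r * b * r⁻¹) 0xcdefab8954763210
    simpa only [ws, ← mul_assoc] using O.act_w [4, 12, 5] (k := 0xcdefab8954763210) (by decide +kernel)
  · show Act _ (r⁻¹ * b * r) 0xefcd98ba45673210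
    simpa only [ws, ← mul_assoc] using O.act_w [5, 12, 4] (k := 0xefcd98ba45673210) (by decide +kernel)
  · exact hk
  · intro i hi
    have : fld idc i = i := by interval_cases i <;> rfl
    show 1 * _ * 1⁻¹ = ee x r t a (fld idc i)
    rw [this]; group

theorem kappa0 (O : HO x c r y t a b n) (h1 : One G) :
    ∃ k, k * a * k⁻¹ = t ∧ ∀ j < 16, ∃ i < 16, k * ee x r t a j * k⁻¹ = ee x r t a i := by
  obtain ⟨xx, -, tt, aa, -, -, xt, -, -, at', -, -, ax, -⟩ := O.rel
  obtain ⟨t1, x1, a1, -, tx, ta, -⟩ := O.nrel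
  have A : ∃ k, k * a * k⁻¹ = t ∧ ∃ m < 16, k * ee x r t a m * k⁻¹ = a := by
    obtain ⟨g, hg⟩ := h1 a t aa a1 tt t1
    have hz := cj_comm g at'.symm
    rw [hg] at hz
    rcases O.inv hz (cj_sq g tt) with e | e | ⟨h, ht, e⟩ | ⟨h, ht, e⟩
    · exact absurd (conj_eq_one_iff.1 e) t1
    · exact absurd (by simpa using e.trans hg.symm) ta
    · have e1 : h * g * a * (h * g)⁻¹ = t := by rw [cj_cj, hg, cj_of ht]
      rw [← cj_cj] at e
      generalize h * g = k at e e1
      have u1 := cj_comm k ax.symm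
      have u2 := cj_comm k xt
      rw [e1] at u1
      rw [e] at u2
      rcases O.inv_x u1 (cj_sq k xx) u2 with f | f | f | f | ⟨p, pt, f⟩
      · exact absurd (conj_eq_one_iff.1 f) x1
      · exact absurd (by simpa [ws] using f.trans e1.symm) (O.ne [0] [10] (by decide +kernel))
      · exact absurd (by simpa using e.trans f.symm) tx
      · have : k * x * k⁻¹ = k * (a * t) * k⁻¹ := by rw [cj_mul, e1, e, f]
        exact absurd (by simpa [ws] using this) (O.ne [0] [10, 8] (by decide +kernel))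
      · exact ⟨p * k, by rw [cj_cj, e1, cj_of pt], 2, by decide, by rw [ee_2, cj_cj, f]⟩
    · exact ⟨h * g, by rw [cj_cj, hg, cj_of ht], 1, by decide, by rw [ee_1, cj_cj, e]⟩
  obtain ⟨k, e1, m, hm, e2⟩ := A
  refine ⟨k, e1, fun j hj => ?_⟩
  have u1 := cj_comm k (O.e_comm hj (show 4 < 16 by decide))
  have u2 := cj_comm k (O.e_comm hj hm)
  rw [ee_4, e1] at u1
  rw [e2] at u2
  exact O.cent_a u1 u2

theorem kappa1 (O : HO x c r y t a b n) (h1 : One G) {h : G} (f1 : h * t * h⁻¹ = x)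
    (f2 : h * x * h⁻¹ = t * x) (hr : h * r = r * h) (ha : h * a * h⁻¹ = r * a * r⁻¹) :
    ∃ k, Act (ee x r t a) k cK := by
  obtain ⟨k, e, hk⟩ := O.kappa0 h1
  obtain ⟨i, hi, e1⟩ := hk 1 (by decide)
  obtain ⟨j, hj, e2⟩ := hk 2 (by decide)
  obtain ⟨l, hl, e8⟩ := hk 8 (by decide)
  have T := allLt_iff.1 (allLt_iff.1 (allLt_iff.1 c_k0 i hi) j hj) l hl
  generalize lin i j 1 l = m at T
  simp only [tst, frc_eq, Bool.and_eq_true, Nat.beq_eq, Bool.or_eq_true, anyL_iff, allLt_iff] at T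
  obtain ⟨⟨L, c1, c2, c4, c8⟩, T⟩ := T
  have A := O.act_lin (g := k) L (by rw [c1, e1]) (by rw [c2, e2]) (by rw [c4, ee_4, ee_1, e])
    (by rw [c8, e8])
  have B := act_ev (O.acts f1 f2 hr ha A)
  rcases T with T | ⟨w, -, w1, w2⟩ | ⟨p, -, hp⟩
  · refine absurd (allLt_iff.2 fun s hs => ?_) (by simpa using T)
    have := A (s + 1) (by omega)
    cases hb : Nat.beq (fld m (s + 1)) 0
    · rfl
    · rw [Nat.eq_of_beq_eq_true hb, ee_0, conj_eq_one_iff] at this
      exact absurd (O.e_inj (by omega) (by decide) (this.trans ee_0.symm)) (by omega)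
  · have b1 := B w (show 1 < 16 by decide)
    have b2 := B w (show 2 < 16 by decide)
    have b4 := B w (show 4 < 16 by decide)
    rw [w1, ee_1] at b1
    have u2 := O.e_comm b2.2 (show 4 < 16 by decide)
    have u4 := O.e_comm b4.2 (show 4 < 16 by decide)
    rw [← b2.1, ee_4, ee_2] at u2
    rw [← b4.1, ee_4] at u4
    have := cj_of (O.norm (of_cj b1.1) u2 u4)
    rw [← ee_2 (x := x) (r := r) (t := t) (a := a), b2.1] at this
    rw [O.e_inj b2.2 (by decide) this] at w2
    cases w2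
  · exact ⟨_, fun s hs => by rw [(B (app p [5]) hs).1, hp s hs]⟩

theorem kappa (O : HO x c r y t a b n) (h1 : One G) {h : G} (f1 : h * t * h⁻¹ = x)
    (f2 : h * x * h⁻¹ = t * x) (hr : h * r = r * h) (ha : h * a * h⁻¹ = r * a * r⁻¹)
    (hb : h * b * h⁻¹ = r⁻¹ * b * r) :
    ∃ k, k * (h * r) = h * r * k ∧ k * t * k⁻¹ = a ∧ k * x * k⁻¹ = r⁻¹ * a * r ∧
      Holds (gl [h, r, b, r * b * r⁻¹, r⁻¹ * b * r, k]) [[5, 5], [5, 0, 5, 0], [5, 2, 5, 2, 5, 2],
        [5, 3, 5, 3, 5, 3, 5, 3, 5, 3], [5, 4, 5, 4, 5, 4, 5, 4, 5, 4]] := by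
  obtain ⟨k, A⟩ := O.kappa1 h1 f1 f2 hr ha
  have S : ∀ i < 16, h * r * ee x r t a i * (h * r)⁻¹ = ee x r t a (actW (app cs0 [cK]) [0, 1] i) :=
    fun i hi => by simpa only [ws] using (act_ev (O.acts f1 f2 hr ha A) [0, 1] hi).1
  have A' : ∃ k, Act (ee x r t a) k cK ∧ k * (h * r) = h * r * k := by
    have B := act_ev (O.acts f1 f2 hr ha A)
    have C : ∀ i < 16, actW (app cs0 [cK]) [5, 0, 1] i = actW (app cs0 [cK]) [0, 1, 5] i →
        (h * r * k)⁻¹ * (k * (h * r)) * ee x r t a i = ee x r t a i * ((h * r * k)⁻¹ * (k * (h * r))) :=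
      fun i hi e => by
        have b1 := (B [5, 0, 1] hi).1
        have b2 := (B [0, 1, 5] hi).1
        simp only [ws] at b1 b2
        apply of_cj
        rw [cj_cj, b1, e, ← b2]; group
    have c1 := C 1 (by decide) (by decide +kernel)
    have c4 := C 4 (by decide) (by decide +kernel)
    rw [ee_1] at c1
    rw [ee_4] at c4
    obtain ⟨j, hj, e⟩ := O.cent_a c1 c4
    have D : (allLt 16 fun j => anyL (List.range 16) fun m =>
      Nat.beq (Nat.xor j m) (actW (app cs0 [cK]) [0, 1] m)) = true := by decide +kernel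
    obtain ⟨m, hm, em⟩ := anyL_iff.1 (allLt_iff.1 D j hj)
    rw [List.mem_range] at hm
    have em' : j ^^^ m = _ := Nat.eq_of_beq_eq_true em
    have hl := (B [0, 1] hm).2
    refine ⟨k * ee x r t a (actW (app cs0 [cK]) [0, 1] m), fun i hi => ?_, ?_⟩
    · rw [cj_cj, cj_of (O.e_comm hl hi), A i hi]
    · calc _ = h * r * k * ((h * r * k)⁻¹ * (k * (h * r)) * ee x r t a m) := by rw [← S m hm]; group
        _ = _ := by rw [e, O.e_mul hj hm, em']; group
  clear A
  obtain ⟨k, A, hk⟩ := A'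
  have B := act_ev (O.acts f1 f2 hr ha A)
  have hb0 : Commute b (h * r) := by
    apply Eq.symm
    apply of_cj
    rw [hr, cj_cj, hb]; group
  have hrr : Commute r (h * r) := Commute.mul_right hr.symm (Commute.refl r)
  have T : ∀ w : List ℕ, (Nat.beq (actW (app cs0 [cK]) w 1) 1 && (Nat.beq (actW (app cs0 [cK]) w 4) 4 &&
      allL w fun j => Nat.ble j 5)) = true →
      ev (gl [h, r, b, r * b * r⁻¹, r⁻¹ * b * r, k]) w = 1 := fun w hw => by
    simp only [Bool.and_eq_true, Nat.beq_eq, allL_iff, Nat.ble_eq] at hw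
    have b1 := (B w (show 1 < 16 by decide)).1
    have b4 := (B w (show 4 < 16 by decide)).1
    rw [hw.1, ee_1] at b1
    rw [hw.2.1, ee_4] at b4
    obtain ⟨j, hj, e⟩ := O.cent_a (of_cj b1) (of_cj b4)
    have m := mc.1 (ev_mem (gl [h, r, b, r * b * r⁻¹, r⁻¹ * b * r, k]) (Subgroup.centralizer {h * r}) w
      fun s hs => mc.2 (by
        have := hw.2.2 s hs
        interval_cases s
        exacts [Commute.mul_right (Commute.refl h) hr, hrr, hb0, (hrr.mul_left hb0).mul_left hrr.inv_left,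
          (hrr.inv_left.mul_left hb0).mul_left hrr, hk]))
    rw [e] at m ⊢
    have := O.e_inj hj (B [0, 1] hj).2 ((cj_of m.symm).symm.trans (S j hj))
    have D : (allLt 16 fun j => Nat.beq j 0 || !Nat.beq j (actW (app cs0 [cK]) [0, 1] j)) = true := by
      decide +kernel
    have D' := allLt_iff.1 D j hj
    rw [← this] at D'
    rw [show j = 0 by simpa using D', ee_0]
  refine ⟨k, hk, ?_, ?_, fun w hw => T w ?_⟩
  · have := A 1 (by decide)
    rwa [ee_1, show fld cK 1 = 4 from rfl, ee_4] at this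
  · have := A 2 (by decide)
    rwa [ee_2, show fld cK 2 = 12 from rfl, O.ee_12] at this
  · simp only [List.mem_cons, List.not_mem_nil, or_false] at hw
    rcases hw with rfl | rfl | rfl | rfl | rfl <;> decide +kernel

end HO

end Cfsg.Agent.JT
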