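import Mathlib

set_option autoImplicit false

namespace Cfsg.Agent.JT

open Subgroup

section SE

variable {G : Type*} [Group G]

theorem se_cls [Finite G] (L : Subgroup G) (t : G) :
    {s | ∃ l ∈ L, l * t * l⁻¹ = s}.ncard * Nat.card (L ⊓ centralizer {t} : Subgroup G) =
      Nat.card L := by
  letI : MulAction L G := MulAction.compHom G ((MulAut.conj (G := G)).comp L.subtype)
  have hs : ∀ (l : L) (x : G), l • x = l * x * (l : G)⁻¹ := fun l x => rfl
  have h1 := MulAction.index_stabilizer L t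
  have h2 := (MulAction.stabilizer L t).index_mul_card
  have h3 : MulAction.orbit L t = {s | ∃ l ∈ L, l * t * l⁻¹ = s} := by
    ext s
    constructor
    · rintro ⟨l, rfl⟩
      exact ⟨l, l.2, rfl⟩
    · rintro ⟨l, hl, rfl⟩
      exact ⟨⟨l, hl⟩, rfl⟩
  rw [h1, h3] at h2
  rw [← h2]
  congr 1
  apply Nat.card_congr
  refine ⟨fun y => ⟨⟨y.1, y.2.1⟩, ?_⟩, fun y => ⟨y.1.1, y.1.2, ?_⟩, fun y => rfl, fun y => rfl⟩
  · have := mem_centralizer_singleton_iff.mp y.2.2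
    rw [MulAction.mem_stabilizer_iff, hs]
    change y.1 * t * y.1⁻¹ = t
    rw [this]; group
  · have := y.2
    rw [MulAction.mem_stabilizer_iff, hs] at this
    refine mem_centralizer_singleton_iff.mpr ?_
    calc (y.1.1 : G) * t = (y.1.1 * t * y.1.1⁻¹) * y.1.1 := by group
      _ = _ := by rw [this]

theorem se_sq {s : G} (hs : orderOf s = 2) : s * s = 1 := by
  rw [← pow_two, ← hs]; exact pow_orderOf_eq_one s

theorem se_ord_conj (g t : G) : orderOf (g * t * g⁻¹) = orderOf t :=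
  (MulAut.conj g).orderOf_eq t

variable {M : Subgroup G} {t : G} (hC : Subgroup.centralizer {t} ≤ M)
  (hconj : ∀ s ∈ M, orderOf s = 2 → ∃ m ∈ M, m*t*m⁻¹ = s)
include hC hconj

theorem se_mem {u g : G} (hu : u ∈ M) (h2 : orderOf u = 2) (hg : g * u * g⁻¹ ∈ M) : g ∈ M := by
  obtain ⟨m, hm, e1⟩ := hconj u hu h2
  obtain ⟨m', hm', e2⟩ := hconj _ hg (by rw [se_ord_conj, h2])
  have : m'⁻¹ * g * m ∈ M := by
    apply hC
    rw [mem_centralizer_singleton_iff]
    calc m'⁻¹ * g * m * t = m'⁻¹ * (g * (m * t * m⁻¹) * g⁻¹) * (g * m) := by group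
      _ = m'⁻¹ * (m' * t * m'⁻¹) * (g * m) := by rw [e1, e2]
      _ = _ := by group
  have e : g = m' * (m'⁻¹ * g * m) * m⁻¹ := by group
  rw [e]
  exact M.mul_mem (M.mul_mem hm' this) (M.inv_mem hm)

theorem se_comm {u g : G} (hu : u ∈ M) (h2 : orderOf u = 2) (hg : g * u * g⁻¹ = u) : g ∈ M :=
  se_mem hC hconj hu h2 (by rw [hg]; exact hu)

theorem se_odd [Finite G] {u s : G} (hu : u ∈ M) (h2 : orderOf u = 2) (hs : orderOf s = 2)
    (hsM : s ∉ M) : Odd (orderOf (u * s)) := by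
  rw [← Nat.not_even_iff_odd]
  rintro ⟨k, hk⟩
  have hpos : 0 < orderOf (u * s) := orderOf_pos _
  have hk0 : k ≠ 0 := by omega
  have hz : orderOf ((u * s) ^ k) = 2 := by
    rw [orderOf_pow' _ hk0, hk, ← two_mul, Nat.gcd_mul_left_left, Nat.mul_div_cancel _ (by omega)]
  have hz2 := se_sq hz
  have hzi : ((u * s) ^ k)⁻¹ = (u * s) ^ k := inv_eq_of_mul_eq_one_right hz2
  have ui : u⁻¹ = u := inv_eq_of_mul_eq_one_right (se_sq h2)
  have si : s⁻¹ = s := inv_eq_of_mul_eq_one_right (se_sq hs)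
  have e1 : u * (u * s) ^ k * u⁻¹ = (u * s) ^ k := by
    rw [← conj_pow, ← hzi, ← inv_pow]
    congr 1
    rw [mul_inv_rev, si, ← mul_assoc, se_sq h2, one_mul]
  have e2 : s * (u * s) ^ k * s⁻¹ = (u * s) ^ k := by
    rw [← conj_pow, ← hzi, ← inv_pow]
    congr 1
    rw [mul_inv_rev, ui, si, mul_assoc, mul_assoc, se_sq hs, mul_one]
  have hzM : (u * s) ^ k ∈ M := by
    apply se_comm hC hconj hu h2
    calc (u * s) ^ k * u * ((u * s) ^ k)⁻¹ = (u * (u * s) ^ k * u⁻¹) * u * ((u * s) ^ k)⁻¹ := by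
          rw [e1]
      _ = u := by group
  exact hsM (se_comm hC hconj hzM hz e2)

theorem se_inj [Finite G] (ht : orderOf t = 2) {s₁ s₂ : G} (h1 : orderOf s₁ = 2)
    (h2 : orderOf s₂ = 2) (hM : s₁ ∉ M) (hc : s₁ * s₂ * t = t * (s₁ * s₂)) : s₁ = s₂ := by
  have tM : t ∈ M := hC (mem_centralizer_singleton_iff.mpr rfl)
  have i1 : s₁⁻¹ = s₁ := inv_eq_of_mul_eq_one_right (se_sq h1)
  have i2 : s₂⁻¹ = s₂ := inv_eq_of_mul_eq_one_right (se_sq h2)
  have cM : s₁ * s₂ ∈ M := hC (mem_centralizer_singleton_iff.mpr hc)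
  have e1 : s₁ * (s₁ * s₂) * s₁⁻¹ = (s₁ * s₂)⁻¹ := by
    rw [mul_inv_rev, i2, ← mul_assoc, se_sq h1, one_mul]
  generalize hc' : s₁ * s₂ = c at hc cM e1
  have e2 : (t * s₁) * c * (t * s₁)⁻¹ = c⁻¹ := by
    calc _ = t * (s₁ * c * s₁⁻¹) * t⁻¹ := by group
      _ = (c⁻¹ * (c * t) * c⁻¹) * t⁻¹ := by rw [e1]; group
      _ = c⁻¹ * (t * c) * c⁻¹ * t⁻¹ := by rw [hc]
      _ = c⁻¹ := by group
  obtain ⟨k, hk⟩ := se_odd hC hconj tM ht h1 hM
  generalize t * s₁ = w at e2 hk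
  have e3 : Commute (w ^ 2) c := by
    have e4 : w * c⁻¹ * w⁻¹ = c := by
      calc w * c⁻¹ * w⁻¹ = (w * c * w⁻¹)⁻¹ := by group
        _ = c := by rw [e2, inv_inv]
    change w ^ 2 * c = c * w ^ 2
    calc w ^ 2 * c = w * (w * c * w⁻¹) * w⁻¹ * w ^ 2 := by rw [pow_two]; group
      _ = c * w ^ 2 := by rw [e2, e4]
  have e5 : (w ^ 2) ^ (k + 1) = w := by
    rw [← pow_mul, show 2 * (k + 1) = (2 * k + 1) + 1 by ring, ← hk, pow_succ, pow_orderOf_eq_one,
      one_mul]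
  have e6 := (e3.pow_left (k + 1)).eq
  rw [e5] at e6
  have e7 : c⁻¹ = c := by rw [← e2, e6]; group
  by_cases hc1 : c = 1
  · rw [hc1] at hc'
    rw [← i1]; exact inv_eq_of_mul_eq_one_right hc'
  · exfalso
    have : Fact (Nat.Prime 2) := ⟨Nat.prime_two⟩
    have hc2 : orderOf c = 2 :=
      orderOf_eq_prime (by rw [pow_two]; nth_rewrite 1 [← e7]; simp) hc1
    exact hM (se_comm hC hconj cM hc2 (e1.trans e7))

end SE

theorem se' {G : Type*} [Group G] [Finite G]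
    (hone : ∀ x y : G, orderOf x = 2 → orderOf y = 2 → IsConj x y) {M : Subgroup G} (hM : M ≠ ⊤)
    {t : G} (ht : orderOf t = 2) (hC : Subgroup.centralizer {t} ≤ M)
    (hconj : ∀ s ∈ M, orderOf s = 2 → ∃ m ∈ M, m*t*m⁻¹ = s) :
    ∃ K : Subgroup G, K ≤ M ∧ Odd (Nat.card K) ∧
      Nat.card M ∣ Nat.card K * Nat.card (Subgroup.centralizer ({t} : Set G)) := by
  classical
  have := Fintype.ofFinite G
  have := Fintype.ofFinite (G ⧸ M)
  have tM : t ∈ M := hC (mem_centralizer_singleton_iff.mpr rfl)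
  let I : Finset G := Finset.univ.filter (fun s => orderOf s = 2)
  let J : Finset G := Finset.univ.filter (fun s => orderOf s = 2 ∧ s ∈ M)
  have hI : I.card * Nat.card (centralizer ({t} : Set G)) = Nat.card G := by
    have h := se_cls ⊤ t
    rw [top_inf_eq, Subgroup.card_top] at h
    rw [← h, ← Set.ncard_coe_finset]
    congr 2
    ext s
    simp only [I, Finset.coe_filter, Finset.mem_univ, true_and, Set.mem_setOf_eq, mem_top]
    constructor
    · intro hs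
      exact isConj_iff.mp (hone t s ht hs)
    · rintro ⟨l, rfl⟩
      rw [se_ord_conj, ht]
  have hJ : J.card * Nat.card (centralizer ({t} : Set G)) = Nat.card M := by
    have h := se_cls M t
    rw [inf_eq_right.mpr hC] at h
    rw [← h, ← Set.ncard_coe_finset]
    congr 2
    ext s
    simp only [J, Finset.coe_filter, Finset.mem_univ, true_and, Set.mem_setOf_eq]
    constructor
    · intro hs
      exact hconj s hs.2 hs.1
    · rintro ⟨l, hl, rfl⟩
      exact ⟨by rw [se_ord_conj, ht], M.mul_mem (M.mul_mem hl tM) (M.inv_mem hl)⟩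
  have hIJ : I.card = Fintype.card (G ⧸ M) * J.card := by
    have h := Subgroup.card_eq_card_quotient_mul_card_subgroup M
    rw [← hI, ← hJ, ← mul_assoc, Nat.card_eq_fintype_card (α := G ⧸ M)] at h
    exact Nat.eq_of_mul_eq_mul_right Nat.card_pos h
  let F : G ⧸ M → Finset G := fun q => I.filter (fun s => (s : G ⧸ M) = q)
  have hmaps : ∀ g : G, ∀ s ∈ F (g : G ⧸ M), (g⁻¹ * s) * t * (g⁻¹ * s)⁻¹ ∈ J := by
    intro g s hs
    simp only [F, I, Finset.mem_filter, Finset.mem_univ, true_and] at hs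
    have hm : g⁻¹ * s ∈ M := QuotientGroup.eq.mp hs.2.symm
    simp only [J, Finset.mem_filter, Finset.mem_univ, true_and]
    exact ⟨by rw [se_ord_conj, ht], M.mul_mem (M.mul_mem hm tM) (M.inv_mem hm)⟩
  have hinj : ∀ g : G, g ∉ M →
      Set.InjOn (fun s => (g⁻¹ * s) * t * (g⁻¹ * s)⁻¹) (F (g : G ⧸ M) : Set G) := by
    intro g hg s₁ h1 s₂ h2 h
    simp only [F, I, Finset.coe_filter, Finset.mem_filter, Finset.mem_univ, true_and,
      Set.mem_setOf_eq] at h1 h2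
    have hm : g⁻¹ * s₁ ∈ M := QuotientGroup.eq.mp h1.2.symm
    have hs1 : s₁ ∉ M := by
      intro h'
      apply hg
      have e : g = s₁ * (g⁻¹ * s₁)⁻¹ := by group
      rw [e]; exact M.mul_mem h' (M.inv_mem hm)
    apply se_inj hC hconj ht h1.1 h2.1 hs1
    have i1 : s₁⁻¹ = s₁ := inv_eq_of_mul_eq_one_right (se_sq h1.1)
    have h' : (g⁻¹ * s₁) * t * (g⁻¹ * s₁)⁻¹ = (g⁻¹ * s₂) * t * (g⁻¹ * s₂)⁻¹ := h
    rw [← i1]
    calc s₁⁻¹ * s₂ * t = s₁⁻¹ * g * ((g⁻¹ * s₂) * t * (g⁻¹ * s₂)⁻¹) * (g⁻¹ * s₂) := by group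
      _ = s₁⁻¹ * g * ((g⁻¹ * s₁) * t * (g⁻¹ * s₁)⁻¹) * (g⁻¹ * s₂) := by rw [h']
      _ = _ := by group
  have hle : ∀ q ∈ (Finset.univ : Finset (G ⧸ M)), (F q).card ≤ J.card := by
    intro q _
    obtain ⟨g, rfl⟩ := QuotientGroup.mk_surjective q
    by_cases hg : g ∈ M
    · apply Finset.card_le_card
      intro s hs
      simp only [F, I, Finset.mem_filter, Finset.mem_univ, true_and] at hs
      simp only [J, Finset.mem_filter, Finset.mem_univ, true_and]
      have hm : g⁻¹ * s ∈ M := QuotientGroup.eq.mp hs.2.symm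
      refine ⟨hs.1, ?_⟩
      have e : s = g * (g⁻¹ * s) := by group
      rw [e]; exact M.mul_mem hg hm
    · exact Finset.card_le_card_of_injOn _ (hmaps g) (hinj g hg)
  have hsum : ∑ q : G ⧸ M, (F q).card = ∑ _q : G ⧸ M, J.card := by
    rw [Finset.sum_const, Finset.card_univ, smul_eq_mul, ← hIJ]
    exact (Finset.card_eq_sum_card_fiberwise (fun s _ => Finset.mem_coe.mpr (Finset.mem_univ _))).symm
  have heq := (Finset.sum_eq_sum_iff_of_le hle).mp hsum
  obtain ⟨g, hg⟩ : ∃ g, g ∉ M := by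
    by_contra h
    push Not at h
    exact hM (eq_top_iff.mpr (fun g _ => h g))
  have hJpos : 0 < J.card := Finset.card_pos.mpr ⟨t, by simp [J, ht, tM]⟩
  obtain ⟨s₀, hs₀⟩ : (F (g : G ⧸ M)).Nonempty := by
    rw [← Finset.card_pos, heq _ (Finset.mem_univ _)]; exact hJpos
  simp only [F, I, Finset.mem_filter, Finset.mem_univ, true_and] at hs₀
  have hs₀M : s₀ ∉ M := by
    intro h'
    apply hg
    have hm : g⁻¹ * s₀ ∈ M := QuotientGroup.eq.mp hs₀.2.symm
    have e : g = s₀ * (g⁻¹ * s₀)⁻¹ := by group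
    rw [e]; exact M.mul_mem h' (M.inv_mem hm)
  have hsurj := Finset.surjOn_of_injOn_of_card_le _ (hmaps s₀) (hinj s₀ hs₀M)
    (heq _ (Finset.mem_univ _)).ge
  let K : Subgroup G := M ⊓ M.comap (MulAut.conj s₀).toMonoidHom
  refine ⟨K, inf_le_left, ?_, ?_⟩
  · rw [← Nat.not_even_iff_odd]
    intro h
    have : Fact (Nat.Prime 2) := ⟨Nat.prime_two⟩
    obtain ⟨u, hu⟩ := exists_prime_orderOf_dvd_card' (G := K) 2 h.two_dvd
    rw [← Subgroup.orderOf_coe] at hu
    exact hs₀M (se_mem hC hconj u.2.1 hu u.2.2)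
  · have h := se_cls K t
    have hK : {s | ∃ l ∈ K, l * t * l⁻¹ = s} = (J : Set G) := by
      ext u
      constructor
      · rintro ⟨l, hl, rfl⟩
        simp only [J, Finset.coe_filter, Finset.mem_univ, true_and, Set.mem_setOf_eq]
        exact ⟨by rw [se_ord_conj, ht], M.mul_mem (M.mul_mem hl.1 tM) (M.inv_mem hl.1)⟩
      · intro hu
        obtain ⟨s, hs, rfl⟩ := hsurj hu
        simp only [F, I, Finset.coe_filter, Finset.mem_filter, Finset.mem_univ, true_and,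
          Set.mem_setOf_eq] at hs
        have hm : s₀⁻¹ * s ∈ M := QuotientGroup.eq.mp hs.2.symm
        refine ⟨s₀⁻¹ * s, ⟨hm, ?_⟩, rfl⟩
        change s₀ * (s₀⁻¹ * s) * s₀⁻¹ ∈ M
        have i0 : s₀⁻¹ = s₀ := inv_eq_of_mul_eq_one_right (se_sq hs₀.1)
        have i1 : s⁻¹ = s := inv_eq_of_mul_eq_one_right (se_sq hs.1)
        have e : s₀ * (s₀⁻¹ * s) * s₀⁻¹ = (s₀⁻¹ * s)⁻¹ := by
          rw [mul_inv_rev, i1, inv_inv, mul_inv_cancel_left, i0]
        rw [e]; exact M.inv_mem hm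
    rw [hK, Set.ncard_coe_finset] at h
    refine ⟨Nat.card (K ⊓ centralizer {t} : Subgroup G), ?_⟩
    rw [← h, ← hJ]; ring

theorem se {G : Type*} [Group G] [Finite G] [IsSimpleGroup G]
    (hone : ∀ x y : G, orderOf x = 2 → orderOf y = 2 → IsConj x y) {M : Subgroup G} (hM : M ≠ ⊤)
    {t : G} (ht : orderOf t = 2) (hC : Subgroup.centralizer {t} ≤ M)
    (hconj : ∀ s ∈ M, orderOf s = 2 → ∃ m ∈ M, m*t*m⁻¹ = s) :
    ∃ K : Subgroup G, K ≤ M ∧ Odd (Nat.card K) ∧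
      Nat.card M ∣ Nat.card K * Nat.card (Subgroup.centralizer ({t} : Set G)) :=
  se' hone hM ht hC hconj

end Cfsg.Agent.JT
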