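import Mathlib
import Cfsg.Prelude.Def_Transfer

set_option autoImplicit false

namespace Cfsg.Agent.JT

open Subgroup
open scoped commutatorElement

section A5

theorem a5_four (a : alternatingGroup (Fin 5)) (h : a ^ 4 = 1) : a ^ 2 = 1 := by
  have key : ∀ σ : Equiv.Perm (Fin 5), Equiv.Perm.sign σ = 1 → σ ^ 4 = 1 → σ ^ 2 = 1 := by
    decide +kernel
  apply Subtype.ext
  have := congrArg Subtype.val h
  exact key a.1 (Equiv.Perm.mem_alternatingGroup.mp a.2) (by simpa using this)

theorem a5_card : Nat.card (alternatingGroup (Fin 5)) = 60 := by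
  rw [nat_card_alternatingGroup]; simp [Nat.factorial]

theorem a5_simple : IsSimpleGroup (alternatingGroup (Fin 5)) :=
  alternatingGroup.isSimpleGroup (by simp)

end A5

variable {H : Type*} [Group H]

/-- the facts on `E` that we use -/
structure Ex (t : H) (E : Subgroup H) : Prop where
  t2 : t * t = 1
  tne : t ≠ 1
  cen : ∀ h, h * t = t * h
  tmem : t ∈ E
  z : ∀ y ∈ E, (∀ w ∈ E, y * w = w * y) → y = 1 ∨ y = t
  comm : ∀ a ∈ E, ∀ b ∈ E, a * b = b * a ∨ a * b = t * (b * a)
  card : Nat.card E = 32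

theorem inv_card [Finite H] {c : H} (hc : c ^ 5 = 1) (F : Subgroup H)
    (hF : ∀ y ∈ F, c * y * c⁻¹ ∈ F) :
    Nat.card F ≡ Nat.card (F ⊓ centralizer {c} : Subgroup H) [MOD 5] := by
  classical
  haveI : Fact (Nat.Prime 5) := ⟨by norm_num⟩
  haveI := Fintype.ofFinite F
  let f : Function.End F := fun y => ⟨c * y * c⁻¹, hF _ y.2⟩
  have hp : ∀ (n : ℕ) (y : F), ((f ^ n) y : H) = c ^ n * y * (c ^ n)⁻¹ := by
    intro n
    induction n with
    | zero => intro y; simp; rfl
    | succ n ih =>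
      intro y
      rw [pow_succ']
      change c * ((f ^ n) y : H) * c⁻¹ = _
      rw [ih, pow_succ']; group
  have hf : f ^ 5 ^ 1 = 1 := by
    funext y
    apply Subtype.ext
    rw [pow_one, hp, hc]; simp; rfl
  have h := Equiv.Perm.card_fixedPoints_modEq hf
  rw [← Nat.card_eq_fintype_card, ← Nat.card_eq_fintype_card] at h
  convert h using 1
  apply Nat.card_congr
  refine ⟨fun y => ⟨⟨y.1, y.2.1⟩, ?_⟩, fun y => ⟨y.1.1, y.1.2, ?_⟩, fun y => rfl, fun y => rfl⟩
  · apply Subtype.ext
    have := (mem_centralizer_singleton_iff.mp y.2.2)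
    change c * y.1 * c⁻¹ = y.1
    rw [← this]; simp
  · have := congrArg Subtype.val y.2
    change c * y.1.1 * c⁻¹ = y.1.1 at this
    refine mem_centralizer_singleton_iff.mpr ?_
    calc (y.1.1 : H) * c = (c * y.1.1 * c⁻¹) * c := by rw [this]
      _ = c * y.1.1 := by group

namespace Ex

variable {t : H} {E : Subgroup H} (X : Ex t E)
include X

theorem sq {a : H} (ha : a ∈ E) : a * a = 1 ∨ a * a = t := by
  apply X.z _ (E.mul_mem ha ha)
  intro b hb
  rcases X.comm a ha b hb with h | h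
  · calc a * a * b = a * (a * b) := by group
      _ = a * (b * a) := by rw [h]
      _ = (a * b) * a := by group
      _ = b * (a * a) := by rw [h, mul_assoc]
  · calc a * a * b = a * (a * b) := by group
      _ = a * (t * (b * a)) := by rw [h]
      _ = (a * t) * b * a := by group
      _ = t * (a * b) * a := by rw [X.cen a]; group
      _ = (t * t) * b * (a * a) := by rw [h]; group
      _ = b * (a * a) := by rw [X.t2, one_mul]

theorem tinv : t⁻¹ = t := inv_eq_of_mul_eq_one_right X.t2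

theorem tt (a : H) : t * (t * a) = a := by rw [← mul_assoc, X.t2, one_mul]

theorem mt (a b : H) : a * (t * b) = t * (a * b) := by
  rw [← mul_assoc, X.cen a, mul_assoc]

theorem ne_t (a : H) : t * a ≠ a := by
  intro h
  exact X.tne (by simpa using h)

theorem card_pair (F : Subgroup H) (hF : ∀ y ∈ F, y = 1 ∨ y = t) : Nat.card F ≤ 2 := by
  classical
  have : (F : Set H) ⊆ ({1, t} : Finset H) := by
    intro y hy
    rcases hF y hy with h | h <;> simp [h]
  calc Nat.card F = (F : Set H).ncard := rfl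
    _ ≤ (({1, t} : Finset H) : Set H).ncard := Set.ncard_le_ncard this (Finset.finite_toSet _)
    _ = ({1, t} : Finset H).card := Set.ncard_coe_finset _
    _ ≤ 2 := Finset.card_le_two

theorem nonab : ∃ a ∈ E, ∃ b ∈ E, a * b = t * (b * a) := by
  by_contra hn
  push Not at hn
  have := X.card_pair E (fun y hy => X.z y hy (fun w hw => (X.comm y hy w hw).resolve_right (hn y hy w hw)))
  rw [X.card] at this
  omega

theorem exists_sq : ∃ y ∈ E, y * y = t := by
  obtain ⟨a, ha, b, hb, h⟩ := X.nonab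
  rcases X.sq ha with h1 | h1
  · rcases X.sq hb with h2 | h2
    · refine ⟨a * b, E.mul_mem ha hb, ?_⟩
      calc a * b * (a * b) = t * (b * a) * (a * b) := by rw [← h]
        _ = t * (b * (a * a) * b) := by group
        _ = t := by rw [h1, mul_one, h2, mul_one]
    · exact ⟨b, hb, h2⟩
  · exact ⟨a, ha, h1⟩

/-- a non-central involution -/
theorem exists_inv [Finite H] : ∃ x ∈ E, x * x = 1 ∧ x ≠ 1 ∧ x ≠ t := by
  classical
  obtain ⟨a, ha, y, hy, h⟩ := X.nonab
  have ha1 : a ≠ 1 := by
    rintro rfl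
    exact X.ne_t y (by simpa using h.symm)
  have hat : a ≠ t := by
    rintro rfl
    rw [X.cen y] at h
    exact X.ne_t _ h.symm
  by_contra hn
  push Not at hn
  have haa : a * a = t := by
    rcases X.sq ha with h1 | h1
    · exact absurd (hn a ha h1 ha1) hat
    · exact h1
  have hC : ∀ b ∈ E, a * b = b * a → b = 1 ∨ b = t ∨ b = a ∨ b = t * a := by
    intro b hb hab
    rcases X.sq hb with h2 | h2
    · by_cases hb1 : b = 1
      · exact Or.inl hb1
      · exact Or.inr (Or.inl (hn b hb h2 hb1))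
    · have h3 : a * b * (a * b) = 1 := by
        calc a * b * (a * b) = a * (b * a) * b := by group
          _ = (a * a) * (b * b) := by rw [← hab]; group
          _ = 1 := by rw [haa, h2, X.t2]
      by_cases h4 : a * b = 1
      · right; right; right
        calc b = a⁻¹ * (a * b) := by group
          _ = a⁻¹ * (t * t) := by rw [h4, X.t2]
          _ = a⁻¹ * (a * a * t) := by rw [haa]
          _ = a * t := by group
          _ = t * a := X.cen a
      · right; right; left
        have h5 := hn _ (E.mul_mem ha hb) h3 h4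
        rw [← haa] at h5
        exact mul_left_cancel h5
  have hsub : (E : Set H) ⊆ ({1, t, a, t * a, y, t * y, a * y, t * a * y} : Finset H) := by
    intro b hb
    rcases X.comm a ha b hb with h1 | h1
    · rcases hC b hb h1 with h2 | h2 | h2 | h2 <;> simp [h2]
    · have h2 : a * (b * y⁻¹) = (b * y⁻¹) * a := by
        have h3 : y⁻¹ * a = t * (a * y⁻¹) := by
          calc y⁻¹ * a = y⁻¹ * (a * y) * y⁻¹ := by group
            _ = y⁻¹ * (t * (y * a)) * y⁻¹ := by rw [h]
            _ = t * (a * y⁻¹) := by rw [X.mt]; group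
        calc a * (b * y⁻¹) = (a * b) * y⁻¹ := by group
          _ = t * (b * (a * y⁻¹)) := by rw [h1]; group
          _ = b * (t * (a * y⁻¹)) := by rw [X.mt]
          _ = (b * y⁻¹) * a := by rw [← h3]; group
      have h4 : b = (b * y⁻¹) * y := by group
      rcases hC _ (E.mul_mem hb (E.inv_mem hy)) h2 with h2 | h2 | h2 | h2 <;>
        (rw [h4, h2]; simp)
  have : Nat.card E ≤ 8 := by
    calc Nat.card E = (E : Set H).ncard := rfl
      _ ≤ _ := Set.ncard_le_ncard hsub (Finset.finite_toSet _)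
      _ = _ := Set.ncard_coe_finset _
      _ ≤ 8 := by
        refine (Finset.card_insert_le _ _).trans (Nat.succ_le_succ ?_)
        refine (Finset.card_insert_le _ _).trans (Nat.succ_le_succ ?_)
        refine (Finset.card_insert_le _ _).trans (Nat.succ_le_succ ?_)
        refine (Finset.card_insert_le _ _).trans (Nat.succ_le_succ ?_)
        refine (Finset.card_insert_le _ _).trans (Nat.succ_le_succ ?_)
        exact Finset.card_le_three
  rw [X.card] at this
  omega

theorem ord : orderOf t = 2 := by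
  haveI : Fact (Nat.Prime 2) := ⟨Nat.prime_two⟩
  exact orderOf_eq_prime (by rw [pow_two, X.t2]) X.tne

theorem of_card_two [Finite H] (F : Subgroup H) (ht : t ∈ F) (h2 : Nat.card F = 2) :
    ∀ y ∈ F, y = 1 ∨ y = t := by
  intro y hy
  obtain ⟨u, -, hu⟩ := (Nat.card_eq_two_iff' (1 : F)).mp h2
  by_cases h1 : y = 1
  · exact Or.inl h1
  · right
    have a1 := hu ⟨y, hy⟩ (fun h => h1 (congrArg Subtype.val h))
    have a2 := hu ⟨t, ht⟩ (fun h => X.tne (congrArg Subtype.val h))
    exact congrArg Subtype.val (a1.trans a2.symm)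

theorem two_dvd [Finite H] (F : Subgroup H) (ht : t ∈ F) : 2 ∣ Nat.card F := by
  have := orderOf_dvd_natCard (⟨t, ht⟩ : F)
  rwa [← Subgroup.orderOf_coe, X.ord] at this

theorem card_cases {F : Subgroup H} (hF : F ≤ E) (h : Nat.card F % 5 = 2) :
    Nat.card F = 2 ∨ Nat.card F = 32 := by
  have h1 : Nat.card F ∣ 2 ^ 5 := by
    have := Subgroup.card_dvd_of_le hF
    rwa [X.card] at this
  obtain ⟨k, hk, h2⟩ := (Nat.dvd_prime_pow Nat.prime_two).mp h1
  rw [h2] at h ⊢
  interval_cases k <;> simp_all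

theorem fix_cases [Finite H] [E.Normal] {c : H} (hc : c ^ 5 = 1) :
    (∀ y ∈ E, y * c = c * y → y = 1 ∨ y = t) ∨ ∀ y ∈ E, y * c = c * y := by
  have h := inv_card hc E (fun y hy => Subgroup.Normal.conj_mem inferInstance y hy c)
  rw [X.card] at h
  have h' : Nat.card (E ⊓ centralizer {c} : Subgroup H) % 5 = 2 := by
    unfold Nat.ModEq at h; omega
  rcases X.card_cases inf_le_left h' with h2 | h2
  · left
    intro y hy hyc
    exact X.of_card_two (E ⊓ centralizer {c} : Subgroup H)
      ⟨X.tmem, mem_centralizer_singleton_iff.mpr (X.cen c).symm⟩ h2 y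
      ⟨hy, mem_centralizer_singleton_iff.mpr hyc⟩
  · right
    have : (E ⊓ centralizer {c} : Subgroup H) = E :=
      Subgroup.eq_of_le_of_card_ge inf_le_left (by rw [h2, X.card])
    intro y hy
    rw [← this] at hy
    exact mem_centralizer_singleton_iff.mp hy.2

theorem inv_sub [Finite H] {c : H} (hc : c ^ 5 = 1)
    (hfix : ∀ y ∈ E, y * c = c * y → y = 1 ∨ y = t) {F : Subgroup H} (hF : F ≤ E) (ht : t ∈ F)
    (hinv : ∀ y ∈ F, c * y * c⁻¹ ∈ F) : (∀ y ∈ F, y = 1 ∨ y = t) ∨ F = E := by
  have h := inv_card hc F hinv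
  have h1 : Nat.card (F ⊓ centralizer {c} : Subgroup H) ≤ 2 :=
    X.card_pair _ (fun y hy => hfix y (hF hy.1) (mem_centralizer_singleton_iff.mp hy.2))
  have h2 := X.two_dvd (F ⊓ centralizer {c} : Subgroup H)
    ⟨ht, mem_centralizer_singleton_iff.mpr (X.cen c).symm⟩
  have h3 : 0 < Nat.card (F ⊓ centralizer {c} : Subgroup H) := Nat.card_pos
  have h4 : Nat.card F % 5 = 2 := by
    unfold Nat.ModEq at h; omega
  rcases X.card_cases hF h4 with h5 | h5
  · exact Or.inl (X.of_card_two F ht h5)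
  · exact Or.inr (Subgroup.eq_of_le_of_card_ge hF (by rw [h5, X.card]))

omit X in
open Classical in
/-- commutation form -/
noncomputable def sg (a b : H) : ZMod 2 := if a * b = b * a then 0 else 1

omit X in
open Classical in
/-- squaring form -/
noncomputable def qf (a : H) : ZMod 2 := if a * a = 1 then 0 else 1

omit X in
theorem sg_zero {a b : H} (h : a * b = b * a) : sg a b = 0 := if_pos h

omit X in
theorem sg_eq_zero {a b : H} (h : sg a b = 0) : a * b = b * a := by
  by_contra hn
  rw [sg, if_neg hn] at h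
  exact absurd h (by decide)

theorem sg_one {a b : H} (h : a * b = t * (b * a)) : sg a b = 1 := by
  apply if_neg
  rw [h]; exact X.ne_t _

theorem sg_eq_one {a b : H} (ha : a ∈ E) (hb : b ∈ E) (h : sg a b = 1) : a * b = t * (b * a) := by
  rcases X.comm a ha b hb with h1 | h1
  · rw [sg_zero h1] at h; exact absurd h (by decide)
  · exact h1

omit X in
theorem sg_symm (a b : H) : sg a b = sg b a := by
  classical
  unfold sg
  exact if_congr eq_comm rfl rfl

omit X in
theorem sg_conj (c a b : H) : sg (c * a * c⁻¹) (c * b * c⁻¹) = sg a b := by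
  classical
  unfold sg
  have : (c * a * c⁻¹ * (c * b * c⁻¹) = c * b * c⁻¹ * (c * a * c⁻¹)) ↔ a * b = b * a := by
    constructor
    · intro h
      calc a * b = c⁻¹ * (c * a * c⁻¹ * (c * b * c⁻¹)) * c := by group
        _ = b * a := by rw [h]; group
    · intro h
      calc c * a * c⁻¹ * (c * b * c⁻¹) = c * (a * b) * c⁻¹ := by group
        _ = _ := by rw [h]; group
  exact if_congr this rfl rfl

theorem sg_mul {a b w : H} (ha : a ∈ E) (hb : b ∈ E) (hw : w ∈ E) :
    sg (a * b) w = sg a w + sg b w := by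
  rcases X.comm a ha w hw with h1 | h1 <;> rcases X.comm b hb w hw with h2 | h2
  · rw [sg_zero h1, sg_zero h2, sg_zero]; · rfl
    rw [mul_assoc, h2, ← mul_assoc, h1, mul_assoc]
  · rw [sg_zero h1, X.sg_one h2, X.sg_one]; · rfl
    rw [mul_assoc, h2, X.mt, ← mul_assoc a, h1, mul_assoc]
  · rw [X.sg_one h1, sg_zero h2, X.sg_one]; · rfl
    rw [mul_assoc, h2, ← mul_assoc, h1]; group
  · rw [X.sg_one h1, X.sg_one h2, sg_zero]; · rfl
    rw [mul_assoc, h2, X.mt, ← mul_assoc a, h1, mul_assoc, X.tt, mul_assoc]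

omit X in
theorem qf_zero {a : H} (h : a * a = 1) : qf a = 0 := if_pos h

theorem qf_one {a : H} (h : a * a = t) : qf a = 1 := by
  apply if_neg
  rw [h]; exact X.tne

theorem qf_mul {a b : H} (ha : a ∈ E) (hb : b ∈ E) :
    qf (a * b) = qf a + qf b + sg a b := by
  rcases X.comm a ha b hb with h | h
  · have e : a * b * (a * b) = (a * a) * (b * b) := by
      calc a * b * (a * b) = a * (b * a) * b := by group
        _ = _ := by rw [← h]; group
    rw [sg_zero h]
    rcases X.sq ha with h1 | h1 <;> rcases X.sq hb with h2 | h2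
    · rw [qf_zero h1, qf_zero h2, qf_zero]; · rfl
      rw [e, h1, h2, one_mul]
    · rw [qf_zero h1, X.qf_one h2, X.qf_one]; · rfl
      rw [e, h1, h2, one_mul]
    · rw [X.qf_one h1, qf_zero h2, X.qf_one]; · rfl
      rw [e, h1, h2, mul_one]
    · rw [X.qf_one h1, X.qf_one h2, qf_zero]; · rfl
      rw [e, h1, h2, X.t2]
  · have e : a * b * (a * b) = t * ((a * a) * (b * b)) := by
      have h' : b * a = t * (a * b) := by rw [h, X.tt]
      calc a * b * (a * b) = a * (b * a) * b := by group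
        _ = a * (t * (a * b)) * b := by rw [h']
        _ = _ := by rw [X.mt]; group
    rw [X.sg_one h]
    rcases X.sq ha with h1 | h1 <;> rcases X.sq hb with h2 | h2
    · rw [qf_zero h1, qf_zero h2, X.qf_one]; · rfl
      rw [e, h1, h2, one_mul, mul_one]
    · rw [qf_zero h1, X.qf_one h2, qf_zero]; · rfl
      rw [e, h1, h2, one_mul, X.t2]
    · rw [X.qf_one h1, qf_zero h2, qf_zero]; · rfl
      rw [e, h1, h2, mul_one, X.t2]
    · rw [X.qf_one h1, X.qf_one h2, X.qf_one]; · rfl
      rw [e, h1, h2, X.t2, mul_one]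

theorem exists_x [Finite H] [E.Normal] {c : H} (hc : c ^ 5 = 1)
    (hfix : ∀ y ∈ E, y * c = c * y → y = 1 ∨ y = t) :
    ∃ x ∈ E, x * x = 1 ∧ x ≠ 1 ∧ x ≠ t ∧ (x * c) ^ 5 = 1 := by
  obtain ⟨x, hx, hxx, hx1, hxt⟩ := X.exists_inv
  have hn : E.Normal := inferInstance
  have hpE : (x * c) ^ 5 ∈ E := by
    have : (x * c) ^ 5 = x * (c * x * c⁻¹) * (c ^ 2 * x * (c ^ 2)⁻¹) * (c ^ 3 * x * (c ^ 3)⁻¹) *
        (c ^ 4 * x * (c ^ 4)⁻¹) * c ^ 5 := by
      simp only [pow_succ, pow_zero]; group
    rw [this, hc, mul_one]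
    exact E.mul_mem (E.mul_mem (E.mul_mem (E.mul_mem hx (hn.conj_mem _ hx _)) (hn.conj_mem _ hx _))
      (hn.conj_mem _ hx _)) (hn.conj_mem _ hx _)
  have hcomm : (x * c) * (x * c) ^ 5 = (x * c) ^ 5 * (x * c) := by
    rw [← pow_succ', ← pow_succ]
  generalize hp : (x * c) ^ 5 = p at hpE hcomm
  have h1 : c * p = p * c ∨ c * p = t * (p * c) := by
    have e : c * p = x * (p * x) * c := by
      calc c * p = (x * x) * (c * p) := by rw [hxx, one_mul]
        _ = x * ((x * c) * p) := by group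
        _ = _ := by rw [hcomm]; group
    rcases X.comm p hpE x hx with h | h
    · left
      rw [e, h, ← mul_assoc x, hxx, one_mul]
    · right
      rw [e, h, X.mt, ← mul_assoc x, hxx, one_mul, mul_assoc]
  have h2 : p * c = c * p := by
    rcases h1 with h | h
    · exact h.symm
    · have e2 : c ^ 2 * p = p * c ^ 2 := by
        calc c ^ 2 * p = c * (c * p) := by rw [pow_two, mul_assoc]
          _ = c * (t * (p * c)) := by rw [h]
          _ = t * ((c * p) * c) := by rw [X.mt, mul_assoc]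
          _ = p * c ^ 2 := by rw [h, mul_assoc, X.tt, pow_two, mul_assoc]
      have e3 : Commute (c ^ 2) p := e2
      have e4 := (e3.pow_left 3).eq
      have e5 : (c ^ 2) ^ 3 = c := by
        rw [← pow_mul]
        change c ^ (5 + 1) = c
        rw [pow_succ, hc, one_mul]
      rw [e5] at e4
      exact e4.symm
  rcases hfix p hpE h2 with h | h
  · exact ⟨x, hx, hxx, hx1, hxt, hp.trans h⟩
  · refine ⟨t * x, E.mul_mem X.tmem hx, ?_, ?_, ?_, ?_⟩
    · rw [mul_assoc, X.mt, X.tt, hxx]
    · intro h0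
      apply hxt
      rw [← X.tt x, h0, mul_one]
    · intro h0
      apply hx1
      rw [← X.tt x, h0, X.t2]
    · have : Commute t (x * c) := (X.cen _).symm
      rw [mul_assoc, this.mul_pow, hp, h]
      have : t ^ 5 * t = (t * t) ^ 3 := by simp only [pow_succ, pow_zero]; group
      rw [this, X.t2, one_pow]

end Ex

/-- the five conjugates -/
def xs (x c : H) (i : Fin 5) : H := c ^ (i : ℕ) * x * (c ^ (i : ℕ))⁻¹

theorem xs_zero (x c : H) : xs x c 0 = x := by simp [xs]

theorem xs_one (x c : H) : xs x c 1 = c * x * c⁻¹ := by simp [xs]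

theorem xs_succ {x c : H} (hc : c ^ 5 = 1) (i : Fin 5) :
    c * xs x c i * c⁻¹ = xs x c (i + 1) := by
  have h : c * xs x c i * c⁻¹ = c ^ ((i : ℕ) + 1) * x * (c ^ ((i : ℕ) + 1))⁻¹ := by
    unfold xs; rw [pow_succ']; group
  rw [h]
  fin_cases i
  · rfl
  · rfl
  · rfl
  · rfl
  · change c ^ 5 * x * (c ^ 5)⁻¹ = xs x c 0
    rw [hc, xs_zero]; simp

theorem xs_prod {x c : H} (hc : c ^ 5 = 1) :
    xs x c 0 * xs x c 1 * xs x c 2 * xs x c 3 * xs x c 4 = (x * c) ^ 5 := by
  have : (x * c) ^ 5 = x * (c * x * c⁻¹) * (c ^ 2 * x * (c ^ 2)⁻¹) * (c ^ 3 * x * (c ^ 3)⁻¹) *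
      (c ^ 4 * x * (c ^ 4)⁻¹) * c ^ 5 := by
    simp only [pow_succ, pow_zero]; group
  rw [this, hc, mul_one, xs_zero, xs_one]
  rfl

/-- the configuration -/
structure Cf (t : H) (E : Subgroup H) (x c : H) : Prop extends Ex t E where
  hc : c ^ 5 = 1
  hfix : ∀ y ∈ E, y * c = c * y → y = 1 ∨ y = t
  hx : x ∈ E
  xx : x * x = 1
  x1 : x ≠ 1
  xt : x ≠ t
  p1 : (x * c) ^ 5 = 1

namespace Cf

open Ex

variable [Finite H] {t : H} {E : Subgroup H} [hn : E.Normal] {x c : H} (Y : Cf t E x c)
include Y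

omit [Finite H] in
theorem mem (i : Fin 5) : xs x c i ∈ E := hn.conj_mem _ Y.hx _

omit [Finite H] hn in
theorem sq' (i : Fin 5) : xs x c i * xs x c i = 1 := by
  unfold xs
  calc _ = c ^ (i : ℕ) * (x * x) * (c ^ (i : ℕ))⁻¹ := by group
    _ = 1 := by rw [Y.xx]; group

theorem cent (y : H) (hy : y ∈ E) (h : ∀ i, y * xs x c i = xs x c i * y) : y = 1 ∨ y = t := by
  have hD := Y.toEx.inv_sub Y.hc Y.hfix (F := E ⊓ centralizer (Set.range (xs x c))) inf_le_left
    ⟨Y.tmem, fun g _ => Y.cen g⟩ (by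
      rintro y ⟨hy1, hy2⟩
      refine ⟨hn.conj_mem _ hy1 _, ?_⟩
      rintro _ ⟨j, rfl⟩
      have e : xs x c j = c * xs x c (j - 1) * c⁻¹ := by rw [xs_succ Y.hc, sub_add_cancel]
      have e2 := hy2 (xs x c (j - 1)) ⟨_, rfl⟩
      rw [e]
      calc _ = c * (xs x c (j - 1) * y) * c⁻¹ := by group
        _ = _ := by rw [e2]; group)
  rcases hD with hD | hD
  · apply hD y
    refine ⟨hy, ?_⟩
    rintro _ ⟨j, rfl⟩
    exact (h j).symm
  · exfalso
    have := Y.z x Y.hx (fun w hw => by
      rw [← hD] at hw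
      have := hw.2 (xs x c 0) ⟨0, rfl⟩
      rwa [xs_zero] at this)
    rcases this with h1 | h1
    · exact Y.x1 h1
    · exact Y.xt h1

omit [Finite H] in
theorem sum_sg (y : H) (hy : y ∈ E) :
    sg (xs x c 0) y + sg (xs x c 1) y + sg (xs x c 2) y + sg (xs x c 3) y + sg (xs x c 4) y = 0 := by
  have m := Y.mem
  rw [← Y.toEx.sg_mul (m 0) (m 1) hy, ← Y.toEx.sg_mul (E.mul_mem (m 0) (m 1)) (m 2) hy,
    ← Y.toEx.sg_mul (E.mul_mem (E.mul_mem (m 0) (m 1)) (m 2)) (m 3) hy,
    ← Y.toEx.sg_mul (E.mul_mem (E.mul_mem (E.mul_mem (m 0) (m 1)) (m 2)) (m 3)) (m 4) hy,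
    xs_prod Y.hc, Y.p1]
  exact sg_zero (by simp)

theorem sg_xs (i j : Fin 5) : sg (xs x c i) (xs x c j) = if i = j then 0 else 1 := by
  have m := Y.mem
  have hs : ∀ i j, sg (xs x c (i + 1)) (xs x c (j + 1)) = sg (xs x c i) (xs x c j) := by
    intro i j
    rw [← xs_succ Y.hc, ← xs_succ Y.hc, sg_conj]
  have h4 : xs x c 0 * xs x c 1 * xs x c 2 * xs x c 3 = xs x c 4 := by
    have h := xs_prod (x := x) Y.hc
    rw [Y.p1] at h
    rw [eq_inv_of_mul_eq_one_left h]
    exact inv_eq_of_mul_eq_one_right (Y.sq' 4)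
  have hq : qf (xs x c 0 * xs x c 1 * xs x c 2 * xs x c 3) = 0 := by
    rw [h4]; exact qf_zero (Y.sq' 4)
  rw [Y.toEx.qf_mul (E.mul_mem (E.mul_mem (m 0) (m 1)) (m 2)) (m 3),
    Y.toEx.qf_mul (E.mul_mem (m 0) (m 1)) (m 2), Y.toEx.qf_mul (m 0) (m 1),
    Y.toEx.sg_mul (E.mul_mem (m 0) (m 1)) (m 2) (m 3), Y.toEx.sg_mul (m 0) (m 1) (m 3),
    Y.toEx.sg_mul (m 0) (m 1) (m 2), qf_zero (Y.sq' 0), qf_zero (Y.sq' 1), qf_zero (Y.sq' 2),
    qf_zero (Y.sq' 3)] at hq
  have hne : ¬ ∀ j, sg (xs x c 0) (xs x c j) = 0 := by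
    intro h
    rcases Y.cent (xs x c 0) (m 0) (fun j => sg_eq_zero (h j)) with h1 | h1
    · exact Y.x1 (by rwa [xs_zero] at h1)
    · exact Y.xt (by rwa [xs_zero] at h1)
  have hd : ∀ i, sg (xs x c i) (xs x c i) = 0 := fun i => sg_zero rfl
  have hy : ∀ i j, sg (xs x c i) (xs x c j) = sg (xs x c j) (xs x c i) := fun i j => sg_symm _ _
  have a12 : sg (xs x c 1) (xs x c 2) = sg (xs x c 0) (xs x c 1) := hs 0 1
  have a23 : sg (xs x c 2) (xs x c 3) = sg (xs x c 0) (xs x c 1) := (hs 1 2).trans a12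
  have a34 : sg (xs x c 3) (xs x c 4) = sg (xs x c 0) (xs x c 1) := (hs 2 3).trans a23
  have a04 : sg (xs x c 0) (xs x c 4) = sg (xs x c 0) (xs x c 1) := (hy _ _).trans ((hs 3 4).trans a34)
  have b13 : sg (xs x c 1) (xs x c 3) = sg (xs x c 0) (xs x c 2) := hs 0 2
  have b24 : sg (xs x c 2) (xs x c 4) = sg (xs x c 0) (xs x c 2) := (hs 1 3).trans b13
  have b30 : sg (xs x c 3) (xs x c 0) = sg (xs x c 0) (xs x c 2) := (hs 2 4).trans b24
  have b03 : sg (xs x c 0) (xs x c 3) = sg (xs x c 0) (xs x c 2) := (hy _ _).trans b30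
  have b14 : sg (xs x c 1) (xs x c 4) = sg (xs x c 0) (xs x c 2) := (hy _ _).trans ((hs 3 0).trans b30)
  rw [a12, a23, b13, b03] at hq
  have hab : ∀ a b : ZMod 2, 0 + 0 + a + 0 + (b + a) + 0 + (b + b + a) = 0 → b = a := by decide
  have hb := hab _ _ hq
  have ha : sg (xs x c 0) (xs x c 1) = 1 := by
    have : ∀ a : ZMod 2, a = 0 ∨ a = 1 := by decide
    rcases this (sg (xs x c 0) (xs x c 1)) with h | h
    · exfalso
      apply hne
      intro j
      fin_cases j
      · exact hd 0
      · exact h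
      · exact hb.trans h
      · exact b03.trans (hb.trans h)
      · exact a04.trans h
    · exact h
  rw [ha] at hb a12 a23 a34 a04
  rw [hb] at b13 b24 b03 b14
  have key : ∀ i j : Fin 5, i < j → sg (xs x c i) (xs x c j) = 1 := by
    intro i j hij
    fin_cases i <;> fin_cases j <;> first | exact absurd hij (by decide) | assumption
  rcases lt_trichotomy i j with h | h | h
  · rw [key i j h, if_neg h.ne]
  · rw [h, hd, if_pos rfl]
  · rw [hy, key j i h, if_neg h.ne']

theorem anti {i j : Fin 5} (h : i ≠ j) : xs x c i * xs x c j = t * (xs x c j * xs x c i) :=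
  Y.toEx.sg_eq_one (Y.mem i) (Y.mem j) (by rw [Y.sg_xs, if_neg h])

theorem classify {y : H} (hy : y ∈ E) (h2 : y * y = 1) (h1 : y ≠ 1) (ht : y ≠ t) :
    ∃ j, y = xs x c j ∨ y = t * xs x c j := by
  have m := Y.mem
  have key : ∀ s : Fin 5 → ZMod 2, s 0 + s 1 + s 2 + s 3 + s 4 = 0 → (∀ i, s i = 0) ∨
      (∃ j, ∀ i, s i + (if j = i then 0 else 1) = 0) ∨
      ∃ j k, j ≠ k ∧ ∀ i, s i + (if j = i then 0 else 1) + (if k = i then 0 else 1) = 0 := by
    decide
  have hs := Y.sum_sg y hy
  simp only [sg_symm _ y] at hs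
  rcases key (fun i => sg y (xs x c i)) hs with h | ⟨j, h⟩ | ⟨j, k, hjk, h⟩
  · rcases Y.cent y hy (fun i => sg_eq_zero (h i)) with h | h
    · exact absurd h h1
    · exact absurd h ht
  · refine ⟨j, ?_⟩
    have e : y = y * xs x c j * xs x c j := by rw [mul_assoc, Y.sq', mul_one]
    rcases Y.cent (y * xs x c j) (E.mul_mem hy (m j)) (fun i => sg_eq_zero (by
      rw [Y.toEx.sg_mul hy (m j) (m i), Y.sg_xs]; exact h i)) with h | h
    · left; rw [e, h, one_mul]
    · right; rw [e, h]
  · exfalso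
    have e : y = y * xs x c j * xs x c k * (xs x c k * xs x c j) := by
      calc y = y * (xs x c j * (xs x c k * xs x c k) * xs x c j) := by
            rw [Y.sq', mul_one, Y.sq', mul_one]
        _ = _ := by group
    have e2 : (xs x c k * xs x c j) * (xs x c k * xs x c j) = t := by
      calc _ = xs x c k * (xs x c j * xs x c k) * xs x c j := by group
        _ = t * ((xs x c k * xs x c k) * (xs x c j * xs x c j)) := by
          rw [Y.anti hjk, Y.toEx.mt]; group
        _ = t := by rw [Y.sq', Y.sq', mul_one, mul_one]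
    rcases Y.cent (y * xs x c j * xs x c k) (E.mul_mem (E.mul_mem hy (m j)) (m k))
      (fun i => sg_eq_zero (by
        rw [Y.toEx.sg_mul (E.mul_mem hy (m j)) (m k) (m i), Y.toEx.sg_mul hy (m j) (m i),
          Y.sg_xs, Y.sg_xs]; exact h i)) with h | h
    · rw [h, one_mul] at e
      rw [e, e2] at h2
      exact Y.tne h2
    · rw [h] at e
      rw [e, mul_assoc, Y.toEx.mt, Y.toEx.tt, e2] at h2
      exact Y.tne h2

theorem uniq {y : H} {j k : Fin 5} (hj : y = xs x c j ∨ y = t * xs x c j)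
    (hk : y = xs x c k ∨ y = t * xs x c k) : j = k := by
  by_contra hne
  have h := Y.anti hne
  have h2 : xs x c j * xs x c k = xs x c k * xs x c j := by
    have : xs x c j = xs x c k ∨ xs x c j = t * xs x c k := by
      rcases hj with h1 | h1 <;> rcases hk with h2 | h2
      · left; rw [← h1, h2]
      · right; rw [← h1, h2]
      · right; rw [← h2, h1, Y.toEx.tt]
      · left; exact mul_left_cancel (h1.symm.trans h2)
    rcases this with h3 | h3
    · rw [h3]
    · rw [h3, Y.toEx.mt, mul_assoc]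
  rw [h2] at h
  exact Y.toEx.ne_t _ h.symm

theorem conj_ex (a : H) (i : Fin 5) :
    ∃ j, a * xs x c i * a⁻¹ = xs x c j ∨ a * xs x c i * a⁻¹ = t * xs x c j := by
  have hi : xs x c i * xs x c (i + 1) = t * (xs x c (i + 1) * xs x c i) := Y.anti (by
    revert i; decide)
  apply Y.classify (hn.conj_mem _ (Y.mem i) a)
  · calc _ = a * (xs x c i * xs x c i) * a⁻¹ := by group
      _ = 1 := by rw [Y.sq']; group
  · intro h
    have : xs x c i = 1 := by
      calc xs x c i = a⁻¹ * (a * xs x c i * a⁻¹) * a := by group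
        _ = 1 := by rw [h]; group
    rw [this, one_mul, mul_one] at hi
    exact Y.toEx.ne_t _ hi.symm
  · intro h
    have : xs x c i = t := by
      calc xs x c i = a⁻¹ * (a * xs x c i * a⁻¹) * a := by group
        _ = t := by rw [h, Y.cen]; group
    rw [this, Y.cen] at hi
    exact Y.toEx.ne_t _ hi.symm

theorem exists_pi : ∃ π : H →* Equiv.Perm (Fin 5), ∀ a i,
    a * xs x c i * a⁻¹ = xs x c (π a i) ∨ a * xs x c i * a⁻¹ = t * xs x c (π a i) := by
  choose f hf using Y.conj_ex
  let F : H →* Function.End (Fin 5) :=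
    { toFun := f
      map_one' := by
        funext i
        exact Y.uniq (hf 1 i) (Or.inl (by simp; rfl))
      map_mul' := by
        intro a b
        funext i
        apply Y.uniq (hf (a * b) i)
        change _ = xs x c (f a (f b i)) ∨ _ = t * xs x c (f a (f b i))
        have e : a * b * xs x c i * (a * b)⁻¹ = a * (b * xs x c i * b⁻¹) * a⁻¹ := by group
        rw [e]
        rcases hf b i with h | h
        · rw [h]; exact hf a _
        · rw [h, Y.toEx.mt, mul_assoc t]
          rcases hf a (f b i) with h' | h'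
          · right; rw [h']
          · left; rw [h', Y.toEx.tt] }
  exact ⟨F.toHomPerm, fun a i => hf a i⟩

end Cf

theorem core [Finite H] {t : H} {E : Subgroup H} [hn : E.Normal] (X : Ex t E) (A : Subgroup H)
    (hEA : E.IsComplement' A) (eA : A ≃* alternatingGroup (Fin 5))
    (hnc : ¬ ∀ a ∈ A, ∀ e ∈ E, e * a = a * e) :
    ∃ x c r : H, x^2 = 1 ∧ c^5 = 1 ∧ r^3 = 1 ∧ (c⁻¹*r)^3 = 1 ∧ (c*r)^5 = 1 ∧ (c^2*r)^2 = 1 ∧
      x*r = r*x ∧ (c*x*c⁻¹)*r = r*(c*x*c⁻¹) ∧ (x*c)^5 = 1 ∧ (x*c*x*c⁻¹)^2 = t ∧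
      Subgroup.closure {x,c,r} = ⊤ := by
  classical
  haveI : Fact (Nat.Prime 5) := ⟨by norm_num⟩
  haveI := a5_simple
  haveI hsA : IsSimpleGroup A := eA.isSimpleGroup
  have hA : Nat.card A = 60 := by rw [Nat.card_congr eA.toEquiv, a5_card]
  obtain ⟨c, hc5⟩ := exists_prime_orderOf_dvd_card' (G := A) 5 (by rw [hA]; norm_num)
  have hcA : c ^ 5 = 1 := by rw [← hc5]; exact pow_orderOf_eq_one c
  have hc : (c : H) ^ 5 = 1 := by simpa using congrArg Subtype.val hcA
  have hc1 : c ≠ 1 := by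
    rintro rfl
    simp at hc5
  have hfix : ∀ y ∈ E, y * c = c * y → y = 1 ∨ y = t := by
    rcases X.fix_cases hc with h | h
    · exact h
    · exfalso
      apply hnc
      haveI : (centralizer (E : Set H)).Normal := inferInstance
      have hN : ((centralizer (E : Set H)).subgroupOf A).Normal := inferInstance
      rcases hN.eq_bot_or_eq_top with h1 | h1
      · exfalso
        apply hc1
        rw [← Subgroup.mem_bot, ← h1, mem_subgroupOf]
        exact fun y hy => h y hy
      · intro a ha e he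
        have : (⟨a, ha⟩ : A) ∈ (centralizer (E : Set H)).subgroupOf A := by rw [h1]; trivial
        exact this e he
  obtain ⟨x, hx, hxx, hx1, hxt, hp⟩ := X.exists_x hc hfix
  have Y : Cf t E x c := ⟨X, hc, hfix, hx, hxx, hx1, hxt, hp⟩
  obtain ⟨π, hπ⟩ := Y.exists_pi
  have hπc : π c = finRotate 5 := by
    ext i
    have := Y.uniq (hπ c i) (Or.inl (xs_succ hc i))
    rw [this]; simp
  let ψ : A →* Equiv.Perm (Fin 5) := π.comp A.subtype
  have hψc : ψ c = finRotate 5 := hπc
  have hinj : Function.Injective ψ := by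
    rw [← MonoidHom.ker_eq_bot_iff]
    rcases (inferInstance : ψ.ker.Normal).eq_bot_or_eq_top with h1 | h1
    · exact h1
    · exfalso
      have : c ∈ ψ.ker := by rw [h1]; trivial
      rw [MonoidHom.mem_ker, hψc] at this
      exact absurd this (by decide)
  have hrange : ψ.range = alternatingGroup (Fin 5) := by
    apply Equiv.Perm.eq_alternatingGroup_of_index_eq_two
    have h1 : Nat.card ψ.range = 60 := by
      rw [← hA]; exact (Nat.card_congr (MonoidHom.ofInjective hinj).toEquiv).symm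
    have h2 := ψ.range.card_mul_index
    rw [h1, Nat.card_perm] at h2
    simp [Nat.factorial] at h2
    omega
  obtain ⟨r, hr⟩ : Equiv.swap 2 3 * Equiv.swap 3 4 ∈ ψ.range := by
    rw [hrange, Equiv.Perm.mem_alternatingGroup]; decide
  have r3 : r ^ 3 = 1 := hinj (by rw [map_pow, hr, map_one]; decide)
  have r4 : (c⁻¹ * r) ^ 3 = 1 := hinj (by rw [map_pow, map_mul, map_inv, hr, hψc, map_one]; decide)
  have r5 : (c * r) ^ 5 = 1 := hinj (by rw [map_pow, map_mul, hr, hψc, map_one]; decide)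
  have r6 : (c ^ 2 * r) ^ 2 = 1 :=
    hinj (by rw [map_pow, map_mul, map_pow, hr, hψc, map_one]; decide)
  have r6' : c ^ 2 * r ≠ 1 := by
    intro h
    have := congrArg ψ h
    rw [map_mul, map_pow, hr, hψc, map_one] at this
    exact absurd this (by decide)
  have r1 : r ≠ 1 := by
    intro h
    have := congrArg ψ h
    rw [hr, map_one] at this
    exact absurd this (by decide)
  have r3' : (r : H) ^ 3 = 1 := by simpa using congrArg Subtype.val r3
  have hπr : π r = Equiv.swap 2 3 * Equiv.swap 3 4 := hr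
  have hfixr : ∀ i, π r i = i → xs x c i * r = r * xs x c i := by
    intro i hi
    have h := hπ r i
    rw [hi] at h
    rcases h with h | h
    · calc xs x c i * r = (r * xs x c i * (r : H)⁻¹) * r := by rw [h]
        _ = _ := by group
    · exfalso
      have h' : (r : H) * xs x c i = t * (xs x c i * r) := by
        calc (r : H) * xs x c i = (r * xs x c i * (r : H)⁻¹) * r := by group
          _ = _ := by rw [h, mul_assoc]
      have : (r : H) ^ 3 * xs x c i = t * (xs x c i * r ^ 3) := by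
        calc (r : H) ^ 3 * xs x c i = r * (r * (r * xs x c i)) := by
              simp only [pow_succ, pow_zero]; group
          _ = r * (r * (t * (xs x c i * r))) := by rw [h']
          _ = t * (r * (r * xs x c i) * r) := by rw [X.mt, X.mt]; group
          _ = t * (r * (t * (xs x c i * r)) * r) := by rw [h']
          _ = r * xs x c i * r * r := by rw [X.mt, mul_assoc t, X.tt]; group
          _ = t * (xs x c i * r) * r * r := by rw [h']
          _ = t * (xs x c i * r ^ 3) := by simp only [pow_succ, pow_zero, mul_assoc, one_mul]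
      rw [r3', one_mul, mul_one] at this
      exact X.ne_t _ this.symm
  have f0 := hfixr 0 (by rw [hπr]; decide)
  have f1 := hfixr 1 (by rw [hπr]; decide)
  rw [xs_zero] at f0
  rw [xs_one] at f1
  have ht : (x * c * x * (c : H)⁻¹) ^ 2 = t := by
    have h01 := Y.anti (i := 1) (j := 0) (by decide)
    have s1 := Y.sq' 1
    rw [xs_zero, xs_one] at h01
    rw [xs_one] at s1
    calc (x * c * x * (c : H)⁻¹) ^ 2 = x * ((c * x * (c : H)⁻¹) * x) * (c * x * (c : H)⁻¹) := by
          rw [pow_two]; group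
      _ = t * ((x * x) * ((c * x * (c : H)⁻¹) * (c * x * (c : H)⁻¹))) := by
          rw [h01, X.mt]; group
      _ = t := by rw [hxx, s1, mul_one, mul_one]
  refine ⟨x, c, r, by rw [pow_two, hxx], hc, r3', by simpa using congrArg Subtype.val r4,
    by simpa using congrArg Subtype.val r5, by simpa using congrArg Subtype.val r6, f0, f1, hp,
    ht, ?_⟩
  set K := Subgroup.closure ({x, (c : H), (r : H)} : Set H) with hK
  have xK : x ∈ K := subset_closure (by simp)
  have cK : (c : H) ∈ K := subset_closure (by simp)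
  have rK : (r : H) ∈ K := subset_closure (by simp)
  have tK : t ∈ K := by
    rw [← ht]
    exact K.pow_mem (K.mul_mem (K.mul_mem (K.mul_mem xK cK) xK) (K.inv_mem cK)) 2
  have hE : E ≤ K := by
    rcases X.inv_sub hc hfix (F := E ⊓ K) inf_le_left ⟨X.tmem, tK⟩ (fun y hy =>
      ⟨hn.conj_mem _ hy.1 _, K.mul_mem (K.mul_mem cK hy.2) (K.inv_mem cK)⟩) with h | h
    · exfalso
      rcases h x ⟨hx, xK⟩ with h | h
      · exact hx1 h
      · exact hxt h
    · rw [← h]; exact inf_le_right
  have hAK : K.subgroupOf A = ⊤ := by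
    set L := K.subgroupOf A
    have cL : c ∈ L := cK
    have rL : r ∈ L := rK
    have d : ∀ g ∈ L, orderOf g ∣ Nat.card L := fun g hg => by
      have := orderOf_dvd_natCard (⟨g, hg⟩ : L)
      rwa [← Subgroup.orderOf_coe] at this
    haveI : Fact (Nat.Prime 2) := ⟨Nat.prime_two⟩
    haveI : Fact (Nat.Prime 3) := ⟨Nat.prime_three⟩
    have d5 := d c cL
    rw [hc5] at d5
    have d3 := d r rL
    rw [orderOf_eq_prime r3 r1] at d3
    have d2 := d _ (L.mul_mem (L.pow_mem cL 2) rL)
    rw [orderOf_eq_prime r6 r6'] at d2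
    have h30 : 30 ∣ Nat.card L := by omega
    have hm := L.card_mul_index
    rw [hA] at hm
    obtain ⟨k, hk⟩ := h30
    have hi : k * L.index = 2 := by
      rw [hk] at hm; nlinarith
    have hi2 : L.index ∣ 2 := Dvd.intro_left k hi
    rcases (Nat.dvd_prime Nat.prime_two).mp hi2 with h | h
    · exact Subgroup.index_eq_one.mp h
    · rcases (Subgroup.normal_of_index_eq_two h).eq_bot_or_eq_top with h1 | h1
      · exfalso
        apply hc1
        rw [← Subgroup.mem_bot, ← h1]; exact cL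
      · exact h1
  rw [eq_top_iff, ← hEA.sup_eq_top]
  exact sup_le hE (subgroupOf_eq_top.mp hAK)

theorem ex_of [Finite H] {t : H} (ht : orderOf t = 2) (hcen : ∀ h, h * t = t * h)
    (E A : Subgroup H) [hn : E.Normal] (hE : Cfsg.IsExtraspecial 2 E) (hE32 : Nat.card E = 32)
    (hEA : E.IsComplement' A) (eA : A ≃* alternatingGroup (Fin 5)) : Ex t E := by
  have t2 : t * t = 1 := by rw [← pow_two, ← ht]; exact pow_orderOf_eq_one t
  have tne : t ≠ 1 := by
    rintro rfl
    simp at ht
  have tmem : t ∈ E := by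
    obtain ⟨⟨e, a⟩, h, -⟩ := hEA.existsUnique t
    have ha : eA a ∈ center (alternatingGroup (Fin 5)) := by
      rw [mem_center_iff]
      intro g
      obtain ⟨b, rfl⟩ := eA.surjective g
      rw [← map_mul, ← map_mul]
      congr 1
      have h1 : (a : H) * b * (a : H)⁻¹ * (b : H)⁻¹ ∈ A :=
        A.mul_mem (A.mul_mem (A.mul_mem a.2 b.2) (A.inv_mem a.2)) (A.inv_mem b.2)
      have h2 : (a : H) * b * (a : H)⁻¹ * (b : H)⁻¹ ∈ E := by
        have e1 : (a : H) = (e : H)⁻¹ * t := by rw [← h]; simp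
        have : (a : H) * b * (a : H)⁻¹ * (b : H)⁻¹ = (e : H)⁻¹ * (b * e * (b : H)⁻¹) := by
          rw [e1]
          calc _ = (e : H)⁻¹ * (t * b) * t⁻¹ * e * (b : H)⁻¹ := by group
            _ = _ := by rw [← hcen]; group
        rw [this]
        exact E.mul_mem (E.inv_mem e.2) (hn.conj_mem _ e.2 _)
      have h3 := (Subgroup.disjoint_def.mp hEA.disjoint) h2 h1
      apply Subtype.ext
      change (b : H) * a = a * b
      calc (b : H) * a = 1 * (b * a) := by group
        _ = _ := by rw [← h3]; group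
    rw [alternatingGroup.center_eq_bot (by simp), Subgroup.mem_bot, MulEquiv.map_eq_one_iff] at ha
    have : (a : H) = 1 := congrArg Subtype.val ha
    rw [← h]
    change (e : H) * a ∈ E
    rw [this, mul_one]; exact e.2
  have z : ∀ y ∈ E, (∀ w ∈ E, y * w = w * y) → y = 1 ∨ y = t := by
    intro y hy h
    obtain ⟨u, -, hu⟩ := (Nat.card_eq_two_iff' (1 : center E)).mp hE.2
    by_cases h1 : y = 1
    · exact Or.inl h1
    · right
      have a1 := hu ⟨⟨y, hy⟩, mem_center_iff.mpr (fun g => Subtype.ext (h g g.2).symm)⟩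
        (fun h => h1 (congrArg (fun z : center E => ((z : E) : H)) h))
      have a2 := hu ⟨⟨t, tmem⟩, mem_center_iff.mpr (fun g => Subtype.ext (hcen g))⟩
        (fun h => tne (congrArg (fun z : center E => ((z : E) : H)) h))
      exact congrArg (fun z : center E => ((z : E) : H)) (a1.trans a2.symm)
  refine ⟨t2, tne, hcen, tmem, z, ?_, hE32⟩
  intro a ha b hb
  have hc : (⁅(⟨a, ha⟩ : E), (⟨b, hb⟩ : E)⁆ : E) ∈ center E := by
    rw [← hE.1.2.2]
    exact commutator_mem_commutator (mem_top _) (mem_top _)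
  have hm : a * b * a⁻¹ * b⁻¹ ∈ E :=
    E.mul_mem (E.mul_mem (E.mul_mem ha hb) (E.inv_mem ha)) (E.inv_mem hb)
  have e : a * b = a * b * a⁻¹ * b⁻¹ * (b * a) := by group
  rcases z _ hm (fun w hw => (congrArg Subtype.val (mem_center_iff.mp hc ⟨w, hw⟩)).symm) with h | h
  · left; rw [e, h, one_mul]
  · right; rw [e, h]

theorem stageH {G : Type*} [Group G] [Finite G]
    (hone : ∀ x y : G, orderOf x = 2 → orderOf y = 2 → IsConj x y) (t : G) (ht : orderOf t = 2)
    (E A : Subgroup ↥(Subgroup.centralizer ({t} : Set G))) [E.Normal]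
    (hE : Cfsg.IsExtraspecial 2 ↥E) (hE32 : Nat.card ↥E = 32) (hEA : E.IsComplement' A)
    (eA : ↥A ≃* ↥(alternatingGroup (Fin 5))) :
    ∃ x c r : G, x^2 = 1 ∧ c^5 = 1 ∧ r^3 = 1 ∧ (c⁻¹*r)^3 = 1 ∧ (c*r)^5 = 1 ∧ (c^2*r)^2 = 1 ∧
      x*r = r*x ∧ (c*x*c⁻¹)*r = r*(c*x*c⁻¹) ∧ (x*c)^5 = 1 ∧ (x*c*x*c⁻¹)^2 = t ∧
      Subgroup.closure {x,c,r} = Subgroup.centralizer {t} ∧
      Nat.card (Subgroup.centralizer ({t} : Set G)) = 1920 := by
  let C := Subgroup.centralizer ({t} : Set G)
  let t' : C := ⟨t, mem_centralizer_singleton_iff.mpr rfl⟩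
  have ht' : orderOf t' = 2 := by rw [← Subgroup.orderOf_coe]; exact ht
  have X : Ex t' E := ex_of ht' (fun h => Subtype.ext (mem_centralizer_singleton_iff.mp h.2))
    E A hE hE32 hEA eA
  have hA : Nat.card A = 60 := by rw [Nat.card_congr eA.toEquiv, a5_card]
  have hnc : ¬ ∀ a ∈ A, ∀ e ∈ E, e * a = a * e := by
    intro h
    haveI : Fact (Nat.Prime 2) := ⟨Nat.prime_two⟩
    obtain ⟨v, hv⟩ := exists_prime_orderOf_dvd_card' (G := A) 2 (by rw [hA]; norm_num)
    have hv' : orderOf ((v : C) : G) = 2 := by rw [Subgroup.orderOf_coe, Subgroup.orderOf_coe, hv]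
    obtain ⟨g, hg⟩ := isConj_iff.mp (hone _ _ hv' ht)
    obtain ⟨y, hy, hyy⟩ := X.exists_sq
    have hyv : (y : G) * v = v * y := congrArg Subtype.val (h v v.2 y hy)
    have hy' : g * y * g⁻¹ ∈ C := by
      rw [mem_centralizer_singleton_iff, ← hg]
      calc _ = g * (y * v) * g⁻¹ := by group
        _ = _ := by rw [hyv]; group
    obtain ⟨⟨e, a⟩, hea, -⟩ := hEA.existsUnique ⟨_, hy'⟩
    have hea' : (e : C) * a = ⟨_, hy'⟩ := hea
    have hc : Commute (e : C) (a : C) := h a a.2 e e.2
    have hyG : (y : G) * y = t := congrArg Subtype.val hyy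
    have hs : ((e : C) * a) ^ 2 = ⟨g * t * g⁻¹, by
        have := C.mul_mem hy' hy'
        have e : g * y * g⁻¹ * (g * y * g⁻¹) = g * t * g⁻¹ := by rw [← hyG]; group
        rwa [e] at this⟩ := by
      rw [hea']
      apply Subtype.ext
      change (g * y * g⁻¹) ^ 2 = g * t * g⁻¹
      rw [← hyG, pow_two]; group
    have tt : t * t = 1 := congrArg Subtype.val X.t2
    have hs4 : ((e : C) * a) ^ 4 = 1 := by
      rw [show 4 = 2 * 2 from rfl, pow_mul, hs]
      apply Subtype.ext
      change (g * t * g⁻¹) ^ 2 = 1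
      calc _ = g * (t * t) * g⁻¹ := by rw [pow_two]; group
        _ = 1 := by rw [tt]; group
    have he4 : (e : C) ^ 4 = 1 := by
      rw [show 4 = 2 * 2 from rfl, pow_mul, pow_two (e : C)]
      rcases X.sq e.2 with h1 | h1
      · rw [h1, one_pow]
      · rw [h1, pow_two, X.t2]
    rw [hc.mul_pow, he4, one_mul] at hs4
    let a' : A := ⟨a, a.2⟩
    have ha4 : a' ^ 4 = 1 := Subtype.ext hs4
    have ha2 : a' ^ 2 = 1 := by
      apply eA.injective
      rw [map_pow, map_one]
      apply a5_four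
      rw [← map_pow, ha4, map_one]
    have ha2' : (a : C) ^ 2 = 1 := congrArg Subtype.val ha2
    rw [hc.mul_pow, ha2', mul_one, pow_two] at hs
    rcases X.sq e.2 with h1 | h1
    · rw [h1] at hs
      have h2 : (1 : G) = g * t * g⁻¹ := congrArg Subtype.val hs
      apply X.tne
      apply Subtype.ext
      change t = 1
      calc t = g⁻¹ * (g * t * g⁻¹) * g := by group
        _ = 1 := by rw [← h2]; group
    · rw [h1] at hs
      have h2 : t = g * t * g⁻¹ := congrArg Subtype.val hs
      have h3 : ((v : C) : G) = t := by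
        calc ((v : C) : G) = g⁻¹ * (g * v * g⁻¹) * g := by group
          _ = g⁻¹ * (g * t * g⁻¹) * g := by rw [hg, ← h2]
          _ = t := by group
      have h4 : (v : C) = t' := Subtype.ext h3
      have h5 := (Subgroup.disjoint_def.mp hEA.disjoint) X.tmem (h4 ▸ v.2)
      exact X.tne h5
  obtain ⟨x, c, r, h1, h2, h3, h4, h5, h6, h7, h8, h9, h10, h11⟩ := core X A hEA eA hnc
  refine ⟨x, c, r, congrArg Subtype.val h1, congrArg Subtype.val h2, congrArg Subtype.val h3,
    congrArg Subtype.val h4, congrArg Subtype.val h5, congrArg Subtype.val h6,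
    congrArg Subtype.val h7, congrArg Subtype.val h8, congrArg Subtype.val h9,
    congrArg Subtype.val h10, ?_, ?_⟩
  · have := congrArg (Subgroup.map C.subtype) h11
    rw [MonoidHom.map_closure, ← MonoidHom.range_eq_map, Subgroup.range_subtype] at this
    simpa [Set.image_insert_eq] using this
  · rw [← hEA.card_mul, hE32, hA]

end Cfsg.Agent.JT
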