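import Mathlib

set_option autoImplicit false

namespace Cfsg.Agent.JT

open Subgroup

section
variable {G : Type*} [Group G] [Finite G] {p m : ℕ} [hp : Fact p.Prime]

theorem syl_card (hG : Nat.card G = p * m) (hm : ¬ p ∣ m) (X : Sylow p G) :
    Nat.card (X : Subgroup G) = p := by
  rw [Sylow.card_eq_multiplicity, hG]
  have hm0 : m ≠ 0 := by rintro rfl; exact hm (dvd_zero _)
  rw [Nat.factorization_mul hp.out.ne_zero hm0, Finsupp.add_apply, hp.out.factorization_self,
    Nat.factorization_eq_zero_of_not_dvd hm]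
  simp

theorem syl_cent {a : G} (ha : orderOf a = p) (hc : ∀ c, Commute c a → c ∈ Subgroup.zpowers a)
    (hG : Nat.card G = p * m) (hm : ¬ p ∣ m) (X : Sylow p G) :
    Subgroup.centralizer ((X : Subgroup G) : Set G) = X := by
  have hPa : IsPGroup p (zpowers a) := IsPGroup.of_card (n := 1) (by rw [Nat.card_zpowers, ha]; simp)
  obtain ⟨Q, hQ⟩ := hPa.exists_le_sylow
  have hQa : zpowers a = Q := eq_of_le_of_card_ge hQ (by
    rw [syl_card hG hm Q, Nat.card_zpowers, ha])
  obtain ⟨g, rfl⟩ := MulAction.exists_smul_eq G Q X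
  have hmem : ∀ x : G, x ∈ ((g • Q : Sylow p G) : Subgroup G) ↔ g⁻¹ * x * g ∈ zpowers a := by
    intro x
    rw [hQa, Sylow.coe_subgroup_smul, mem_pointwise_smul_iff_inv_smul_mem]
    simp
  ext c
  rw [mem_centralizer_iff]
  constructor
  · intro h
    rw [hmem]
    apply hc
    have := h (g * a * g⁻¹) ((hmem _).2 (by simp [mul_assoc]))
    show g⁻¹ * c * g * a = a * (g⁻¹ * c * g)
    calc g⁻¹ * c * g * a = g⁻¹ * (c * (g * a * g⁻¹)) * g := by group
      _ = _ := by rw [← this]; group
  · intro h x hx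
    obtain ⟨i, hi⟩ := (hmem _).1 h
    obtain ⟨j, hj⟩ := (hmem _).1 hx
    simp only at hi hj
    have h1 : c = g * a ^ i * g⁻¹ := by rw [hi]; group
    have h2 : x = g * a ^ j * g⁻¹ := by rw [hj]; group
    rw [h1, h2]; group

theorem syl_quot (hG : Nat.card G = p * m) (hm : ¬ p ∣ m) (X : Sylow p G)
    (hX : Subgroup.centralizer ((X : Subgroup G) : Set G) = X) :
    IsCyclic (↥(Subgroup.normalizer ((X : Subgroup G) : Set G)) ⧸ (X : Subgroup G).subgroupOf _) ∧
    Nat.card (↥(Subgroup.normalizer ((X : Subgroup G) : Set G)) ⧸ (X : Subgroup G).subgroupOf _)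
      = m % p ∧ m % p ∣ p - 1 ∧ m % p ∣ m := by
  have hcard := syl_card hG hm X
  have : IsCyclic (X : Subgroup G) := isCyclic_of_prime_card hcard
  set N := Subgroup.normalizer ((X : Subgroup G) : Set G) with hN
  have hker : (X : Subgroup G).normalizerMonoidHom.ker = (X : Subgroup G).subgroupOf N := by
    rw [normalizerMonoidHom_ker, hX]
  let e := IsCyclic.mulAutMulEquiv (X : Subgroup G)
  have : Fact (Nat.card (X : Subgroup G)).Prime := ⟨by rw [hcard]; exact hp.out⟩
  have : IsCyclic (MulAut (X : Subgroup G)) := isCyclic_of_surjective e.symm e.symm.surjective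
  let f : (N ⧸ (X : Subgroup G).subgroupOf N) →* MulAut (X : Subgroup G) :=
    QuotientGroup.lift _ (X : Subgroup G).normalizerMonoidHom (fun x hx => by
      rw [hker]; exact hx)
  have hf : Function.Injective f := by
    rw [injective_iff_map_eq_one]
    intro x hx
    induction x using QuotientGroup.induction_on with
    | H y =>
      rw [QuotientGroup.eq_one_iff, ← hker]
      exact hx
  have hdvd : Nat.card (N ⧸ (X : Subgroup G).subgroupOf N) ∣ p - 1 := by
    have := Subgroup.card_dvd_of_injective f hf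
    rwa [IsCyclic.card_mulAut, hcard, Nat.totient_prime hp.out] at this
  set k := Nat.card (N ⧸ (X : Subgroup G).subgroupOf N) with hk
  have h1 : Nat.card N = k * p := by
    rw [card_eq_card_quotient_mul_card_subgroup ((X : Subgroup G).subgroupOf N),
      Nat.card_congr (subgroupOfEquivOfLe le_normalizer).toEquiv, hcard]
  have h2 : Nat.card (Sylow p G) = N.index := X.card_eq_index_normalizer
  have h3 : Nat.card (Sylow p G) ≡ 1 [MOD p] := card_sylow_modEq_one p G
  have h4 : N.index * k = m := by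
    have := N.index_mul_card
    rw [h1, hG] at this
    exact Nat.eq_of_mul_eq_mul_right hp.out.pos (by rw [mul_assoc, this, mul_comm])
  have h5 : k < p := by
    have := Nat.le_of_dvd (by have := hp.out.two_le; omega) hdvd
    have := hp.out.two_le
    omega
  have h6 : k = m % p := by
    have h7 : m ≡ k [MOD p] := by
      rw [← h4, ← h2]
      simpa using h3.mul_right k
    rw [h7, Nat.mod_eq_of_lt h5]
  refine ⟨isCyclic_of_injective f hf, h6, h6 ▸ hdvd, ?_⟩
  rw [← h6, ← h4]; exact Dvd.intro_left _ rfl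

theorem sylow_fact {e : ℕ} {a : G} (ha : orderOf a = p)
    (hc : ∀ c, Commute c a → c ∈ Subgroup.zpowers a) (hG : Nat.card G = p * m) (hm : ¬ p ∣ m)
    (he : m % p = e) :
    ∀ X : Sylow p G, Subgroup.centralizer ((X : Subgroup G) : Set G) = X ∧
      ∃ _h : ((X : Subgroup G).subgroupOf (Subgroup.normalizer ((X : Subgroup G) : Set G))).Normal,
        IsCyclic (↥(Subgroup.normalizer ((X : Subgroup G) : Set G)) ⧸ (X : Subgroup G).subgroupOf _) ∧
        Nat.card (↥(Subgroup.normalizer ((X : Subgroup G) : Set G)) ⧸ (X : Subgroup G).subgroupOf _)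
          = e := by
  intro X
  have hX := syl_cent ha hc hG hm X
  obtain ⟨h1, h2, -⟩ := syl_quot hG hm X hX
  exact ⟨hX, inferInstance, h1, he ▸ h2⟩

end

theorem no_odd {G : Type*} [Group G] [Finite G] (hG : Nat.card G = 50232960) {a : G}
    (ha : orderOf a = 17) (hc : ∀ c, Commute c a → c ∈ Subgroup.zpowers a) (K : Subgroup G)
    (ho : Odd (Nat.card K)) : ¬ 26163 ∣ Nat.card K := by
  have : Fact (Nat.Prime 17) := ⟨by norm_num⟩
  rintro ⟨d, hd⟩
  have hdv : Nat.card K ∣ 50232960 := hG ▸ K.card_subgroup_dvd_card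
  have hd1 : d ∣ 1920 := by
    rw [hd] at hdv
    exact Nat.dvd_of_mul_dvd_mul_left (by norm_num : 0 < 26163) (by simpa using hdv)
  have hdo : Odd d := by rw [hd] at ho; exact (Nat.odd_mul.1 ho).2
  have hd2 : d ∣ 15 := by
    have h2 : Nat.Coprime d (2 ^ 7) := Nat.Coprime.pow_right _ (Nat.coprime_two_right.2 hdo)
    exact h2.dvd_of_dvd_mul_left (by simpa using hd1)
  have hK : Nat.card K = 17 * (1539 * d) := by rw [hd]; ring
  have hm : ¬ 17 ∣ 1539 * d := by
    intro h
    have h' := h.trans (Nat.mul_dvd_mul_left 1539 hd2)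
    norm_num at h'
  obtain ⟨X⟩ : Nonempty (Sylow 17 K) := inferInstance
  have hXc := syl_card hK hm X
  have hPa : IsPGroup 17 ((X : Subgroup K).map K.subtype) := X.isPGroup'.map _
  obtain ⟨Q, hQ⟩ := hPa.exists_le_sylow
  have hG' : Nat.card G = 17 * 2954880 := hG
  have hm' : ¬ 17 ∣ 2954880 := by norm_num
  have hQX : (X : Subgroup K).map K.subtype = Q := eq_of_le_of_card_ge hQ (by
    rw [syl_card hG' hm' Q, card_map_of_injective K.subtype_injective, hXc])
  have hQc := syl_cent ha hc hG' hm' Q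
  have hX : Subgroup.centralizer ((X : Subgroup K) : Set K) = X := by
    ext c
    have : c ∈ (X : Subgroup K) ↔ (c : G) ∈ (Q : Subgroup G) := by
      rw [← hQX]; simp
    rw [this, ← hQc, mem_centralizer_iff, mem_centralizer_iff, ← hQX]
    constructor
    · rintro h _ ⟨x, hx, rfl⟩
      exact congrArg Subtype.val (h x hx)
    · intro h x hx
      exact Subtype.ext (h x ⟨x, hx, rfl⟩)
  obtain ⟨-, -, h1, h2⟩ := syl_quot hK hm X hX
  have hle := Nat.le_of_dvd (by norm_num) hd2
  interval_cases d <;> simp_all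

end Cfsg.Agent.JT
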