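import Cfsg.Agent.JT.Amal
import Cfsg.Agent.JTJ.Cen
import Cfsg.Agent.JT.StageH
import Cfsg.Agent.JT.SE
import Cfsg.Agent.JT.Syl

set_option autoImplicit false
set_option linter.unusedSimpArgs false

/-! Identification of the group. -/

namespace Cfsg.Agent.JT

open Cfsg.Agent.CGT

section
variable {J : Type*} [Group J] [Finite J]

/-- A `p`-element has a conjugate in a subgroup of index prime to `p`. -/
theorem conj_into {p : ℕ} [Fact p.Prime] {H : Subgroup J} (hH : ¬ p ∣ H.index) {s : J}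
    (hs : orderOf s = p) : ∃ g : J, g⁻¹ * s * g ∈ H := by
  have hp : IsPGroup p (Subgroup.zpowers s) :=
    IsPGroup.of_card (n := 1) (by rw [Nat.card_zpowers, hs, pow_one])
  obtain ⟨z, hz⟩ := hp.nonempty_fixed_point_of_prime_not_dvd_card (J ⧸ H) hH
  obtain ⟨g, rfl⟩ := QuotientGroup.mk_surjective z
  have : ((s * g : J) : J ⧸ H) = g := hz ⟨s, Subgroup.mem_zpowers s⟩
  exact ⟨g, by simpa only [mul_assoc] using QuotientGroup.eq.1 this.symm⟩

/-- A normal subgroup of odd order does not contain `a`, and its order is 1 mod `p`. -/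
theorem normal_mod {p m : ℕ} [hp : Fact p.Prime] {N : Subgroup J} [hN : N.Normal] (ho : Odd (Nat.card N))
    {a g : J} (h1 : a ^ p = 1) (h2 : a ≠ 1) (h3 : ∀ c, Commute c a → c ∈ Subgroup.zpowers a)
    (h4 : ((a * (g * a * g⁻¹)) ^ m) ^ 2 = 1) (h5 : (a * (g * a * g⁻¹)) ^ m ≠ 1) :
    Nat.card N ≡ 1 [MOD p] := by
  have ha := orderOf_eq_prime h1 h2
  have na : a ∉ N := fun h => by
    have := N.orderOf_dvd_natCard (N.pow_mem (N.mul_mem h (hN.conj_mem a h g)) m)
    rw [orderOf_eq_prime h4 h5] at this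
    exact (Nat.not_even_iff_odd.2 ho) (even_iff_two_dvd.2 this)
  have hP : IsPGroup p (Subgroup.zpowers a) :=
    IsPGroup.of_card (n := 1) (by rw [Nat.card_zpowers, ha, pow_one])
  letI : MulAction (Subgroup.zpowers a) N :=
    MulAction.compHom N ((MulAut.conjNormal (H := N)).comp (Subgroup.zpowers a).subtype)
  refine (hP.card_modEq_card_fixedPoints N).trans ?_
  rw [Nat.card_eq_one_iff_exists.2 ⟨⟨1, fun u => map_one (MulAut.conjNormal (u : J))⟩, ?_⟩]
  rintro ⟨z, hz⟩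
  have e : a * z * a⁻¹ = z := congrArg Subtype.val (hz ⟨a, Subgroup.mem_zpowers a⟩)
  have m := h3 z (of_cj e).symm
  by_contra h6
  obtain ⟨k, hk⟩ := mem_zpowers_of_prime_card (G := Subgroup.zpowers a) (g := ⟨z, m⟩)
    (g' := ⟨a, Subgroup.mem_zpowers _⟩) (by rw [Nat.card_zpowers, ha])
    (fun h => h6 (Subtype.ext (Subtype.ext (show (z : J) = 1 from congrArg Subtype.val h))))
  have h8 : (z : J) ^ k = a := congrArg Subtype.val hk
  exact na (h8 ▸ N.zpow_mem z.2 k)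

end

variable {G : Type*} [Group G] [Finite G] {x c r y t a b n : G}

theorem iso [IsSimpleGroup G] (hone : ∀ x y : G, orderOf x = 2 → orderOf y = 2 → IsConj x y)
    (O : HO x c r y t a b n) (hn : Nat.card (Subgroup.centralizer ({t} : Set G)) = 1920) :
    Nonempty (JTJ.K ≃* G) := by
  have h1 : One G := fun u v hu u1 hv v1 => isConj_iff.1 (hone u v
    (orderOf_eq_prime ((sq u).trans hu) u1) (orderOf_eq_prime ((sq v).trans hv) v1))
  obtain ⟨h, k, q, R⟩ := O.relJ h1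
  obtain ⟨xx, -, tt, aa, -⟩ := O.rel
  obtain ⟨t1, -⟩ := O.nrel
  obtain ⟨f, hf⟩ := pg_lift (m := 11) (fun j hj => gl_one hj) R
  haveI : Finite JTJ.K := Nat.finite_of_card_ne_zero (by rw [JTJ.card_eq]; norm_num)
  haveI : Fact (Nat.Prime 17) := ⟨by norm_num⟩
  haveI : Fact (Nat.Prime 19) := ⟨by norm_num⟩
  have hC : Subgroup.centralizer {t} ≤ f.range := fun z hz => by
    obtain ⟨w, -, rfl⟩ := O.all z hz
    refine ev_mem _ _ _ fun j _ => ext_mem ?_
    generalize j / 2 = i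
    rcases i with _ | _ | _ | _ | _ | _ | _ | _ | i
    exacts [⟨_, hf 0⟩, ⟨_, hf 1⟩, ⟨_, hf 2⟩, ⟨_, hf 3⟩, ⟨_, hf 4⟩, ⟨_, hf 5⟩, ⟨_, hf 6⟩, ⟨_, hf 7⟩,
      one_mem _]
  obtain ⟨a17, g17, p1, p2, p3, p4, p5⟩ := JTJ.a17
  obtain ⟨a19, g19, q1, q2, q3, q4, q5⟩ := JTJ.a19
  have hi : Function.Injective f := by
    have e1 := f.ker.card_mul_index
    obtain ⟨d, hd⟩ := Subgroup.card_dvd_of_le hC
    rw [Subgroup.index_ker, JTJ.card_eq, hd, hn] at e1
    have e2 : Nat.card f.ker * d = 26163 := by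
      rw [mul_left_comm] at e1; omega
    have ho : Odd (Nat.card f.ker) := Odd.of_dvd_nat (by decide : Odd 26163) ⟨d, e2.symm⟩
    have m1 : Nat.card f.ker % 17 = 1 := normal_mod ho p1 p2 p3 p4 p5
    have m2 : Nat.card f.ker % 19 = 1 := normal_mod ho q1 q2 q3 q4 q5
    have e3 : 26163 % Nat.card f.ker = 0 := Nat.mod_eq_zero_of_dvd ⟨d, e2.symm⟩
    have e4 : Nat.card f.ker < 26164 := Nat.lt_succ_of_le (Nat.le_of_dvd (by norm_num) ⟨d, e2.symm⟩)
    have D : (allLt 26164 fun i => Nat.beq i 1 || !(Nat.beq (Nat.mod i 17) 1 &&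
      (Nat.beq (Nat.mod i 19) 1 && Nat.beq (Nat.mod 26163 i) 0))) = true := by decide +kernel
    have D' := allLt_iff.1 D _ e4
    rw [show Nat.mod (Nat.card f.ker) 17 = 1 from m1, show Nat.mod (Nat.card f.ker) 19 = 1 from m2,
      show Nat.mod 26163 (Nat.card f.ker) = 0 from e3] at D'
    exact (f.ker_eq_bot_iff).1 (Subgroup.card_eq_one.1 (by simpa using D'))
  let e := MonoidHom.ofInjective hi
  have cM : Nat.card f.range = 50232960 := (Nat.card_congr e.toEquiv).symm.trans JTJ.card_eq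
  refine ⟨MulEquiv.ofBijective f ⟨hi, MonoidHom.range_eq_top.1 ?_⟩⟩
  by_contra hM
  obtain ⟨K, k1, k2, k3⟩ := se hone hM (orderOf_eq_prime ((sq t).trans tt) t1) hC fun s hs s2 => by
    have R' := R.subR (D := [[16, 8, 17, 0], [18, 18], [18, 8, 18, 10]]) (by decide +kernel)
    simp only [ws] at R'
    obtain ⟨ht, kk, kt, -⟩ := R'
    have ht' : h * t * h⁻¹ = x := by
      rw [← inv_eq_of_mul_eq_one_right xx, eq_inv_iff_mul_eq_one, ← ht]; group
    have kt' : k * t * k⁻¹ = a := by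
      rw [← inv_eq_of_mul_eq_one_right aa, eq_inv_iff_mul_eq_one, inv_eq_of_mul_eq_one_right kk, ← kt]
      group
    have i1 := ((Subgroup.centralizer {t}).subgroupOf f.range).card_mul_index
    rw [Nat.card_congr (Subgroup.subgroupOfEquivOfLe hC).toEquiv, hn, cM] at i1
    obtain ⟨g, hg⟩ := conj_into (p := 2) (H := (Subgroup.centralizer {t}).subgroupOf f.range)
      (by omega) (s := ⟨s, hs⟩) ((Subgroup.orderOf_mk _ _).trans s2)
    have hz : (g : G)⁻¹ * s * g * t = t * ((g : G)⁻¹ * s * g) := mc.1 hg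
    have ss : s * s = 1 := by rw [← sq, ← s2, pow_orderOf_eq_one]
    rcases O.inv hz (by simpa using cj_sq (g : G)⁻¹ ss) with u | u | ⟨p, pt, u⟩ | ⟨p, pt, u⟩
    · have : s = 1 := by simpa using (conj_eq_one_iff (a := (g : G)⁻¹) (b := s)).1 (by simpa using u)
      rw [this, orderOf_one] at s2; cases s2
    · exact ⟨g, g.2, by rw [← u]; group⟩
    · exact ⟨g * (p⁻¹ * h), mul_mem g.2 (mul_mem (inv_mem (hC (mc.2 pt))) ⟨_, hf 8⟩),
        by rw [cj_cj, cj_cj, ht', ← u]; group⟩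
    · exact ⟨g * (p⁻¹ * k), mul_mem g.2 (mul_mem (inv_mem (hC (mc.2 pt))) ⟨_, hf 9⟩),
        by rw [cj_cj, cj_cj, kt', ← u]; group⟩
  rw [cM, hn] at k3
  have k4 : Nat.card (K.comap f) = Nat.card K := by
    rw [← Subgroup.card_map_of_injective hi, Subgroup.map_comap_eq_self k1]
  exact no_odd JTJ.card_eq (orderOf_eq_prime p1 p2) p3 (K.comap f) (k4 ▸ k2)
    (k4 ▸ Nat.dvd_of_mul_dvd_mul_right (k := 1920) (by norm_num) k3)

/-- The order and two self-centralising elements. -/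
theorem main [IsSimpleGroup G] (hone : ∀ x y : G, orderOf x = 2 → orderOf y = 2 → IsConj x y)
    (O : HO x c r y t a b n) (hn : Nat.card (Subgroup.centralizer ({t} : Set G)) = 1920) :
    Nat.card G = 50232960 ∧ (∃ a : G, orderOf a = 17 ∧ ∀ c, Commute c a → c ∈ Subgroup.zpowers a) ∧
      ∃ a : G, orderOf a = 19 ∧ ∀ c, Commute c a → c ∈ Subgroup.zpowers a := by
  obtain ⟨e⟩ := iso hone O hn
  haveI : Fact (Nat.Prime 17) := ⟨by norm_num⟩
  haveI : Fact (Nat.Prime 19) := ⟨by norm_num⟩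
  have T : ∀ a : JTJ.K, (∀ c, Commute c a → c ∈ Subgroup.zpowers a) →
      ∀ c, Commute c (e a) → c ∈ Subgroup.zpowers (e a) := fun a h c hc => by
    obtain ⟨c, rfl⟩ := e.surjective c
    obtain ⟨k, rfl⟩ := h c (e.injective (by rw [map_mul, map_mul]; exact hc))
    exact ⟨k, (map_zpow e a k).symm⟩
  obtain ⟨a17, -, p1, p2, p3, -⟩ := JTJ.a17
  obtain ⟨a19, -, q1, q2, q3, -⟩ := JTJ.a19
  exact ⟨(Nat.card_congr e.toEquiv).symm.trans JTJ.card_eq,
    ⟨e a17, (e.orderOf_eq _).trans (orderOf_eq_prime p1 p2), T _ p3⟩,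
    ⟨e a19, (e.orderOf_eq _).trans (orderOf_eq_prime q1 q2), T _ q3⟩⟩

end Cfsg.Agent.JT
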