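import Cfsg.Agent.JT.Kappa
import Cfsg.Agent.JT.D8

set_option autoImplicit false
set_option linter.unusedSimpArgs false

/-! The centraliser of an element of order three. -/

namespace Cfsg.Agent.JT

open Cfsg.Agent.CGT

variable {G : Type*} [Group G]

/-- The centraliser. -/
abbrev CC (r : G) : Subgroup G := Subgroup.centralizer {r}

/-- The central subgroup. -/
def ZZ (r : G) : Subgroup (CC r) := (Subgroup.zpowers r).subgroupOf (CC r)

theorem comm_z {r z w : G} (hz : z * r = r * z) (hw : w ∈ Subgroup.zpowers r) : z * w = w * z := by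
  obtain ⟨i, rfl⟩ := hw
  exact (Commute.zpow_right hz i).eq

instance normal_ZZ (r : G) : (ZZ r).Normal :=
  ⟨fun w hw g => by
    have : g * w * g⁻¹ = w := Subtype.ext (cj_of (comm_z (mc.1 g.2) hw))
    rwa [this]⟩

/-- The projection. -/
def pr (r : G) : CC r →* CC r ⧸ ZZ r := QuotientGroup.mk' _

theorem pr_one {r : G} {z : CC r} : pr r z = 1 ↔ (z : G) ∈ Subgroup.zpowers r :=
  QuotientGroup.eq_one_iff z

theorem pr_surj (r : G) : Function.Surjective (pr r) := QuotientGroup.mk'_surjective _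

theorem cube_z {r w : G} (h : r * (r * r) = 1) (hw : w ∈ Subgroup.zpowers r) : w ^ 3 = 1 := by
  obtain ⟨i, rfl⟩ := hw
  show (r ^ i) ^ 3 = 1
  rw [← zpow_natCast, ← zpow_mul, mul_comm, zpow_mul, zpow_natCast, pow_three, h, one_zpow]

theorem one_z {r w : G} (h : r * (r * r) = 1) (hw : w ∈ Subgroup.zpowers r) (h2 : w * w = 1) :
    w = 1 := by
  have := cube_z h hw
  rwa [pow_three, h2, mul_one] at this

theorem ord_pr {r : G} (h : r * (r * r) = 1) {z : CC r} (h2 : (z : G) * z = 1) (h1 : (z : G) ≠ 1) :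
    orderOf (pr r z) = 2 :=
  orderOf_eq_prime (by rw [sq, ← map_mul, show z * z = 1 from Subtype.ext h2, map_one])
    fun e => h1 (one_z h (pr_one.1 e) h2)

theorem cent_conj {X : Type*} [Group X] {g s u : X} (h : g * s * g⁻¹ = u) :
    Nonempty (Subgroup.centralizer {s} ≃* Subgroup.centralizer {u}) := by
  refine ⟨((MulAut.conj g).subgroupMap _).trans (MulEquiv.subgroupCongr ?_)⟩
  ext z
  refine Subgroup.mem_map_equiv.trans ?_
  rw [mc, mc, ← h]
  simp only [MulAut.conj_symm_apply]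
  constructor
  · intro e
    calc _ = g * (g⁻¹ * z * g * s) * g⁻¹ := by group
      _ = _ := by rw [e]; group
  · intro e
    calc _ = g⁻¹ * (z * (g * s * g⁻¹)) * g := by group
      _ = _ := by rw [e]; group

/-- Words for the dihedral group. -/
noncomputable def wd : DihedralGroup 4 → List ℕ
  | .r i => pw [0, 6] i.val
  | .sr i => 0 :: pw [0, 6] i.val

variable {x c r y t a b n : G}

namespace HO

theorem conj_t (O : HO x c r y t a b n) (h1 : One G) (ht : t ∈ CC r) {s : CC r ⧸ ZZ r}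
    (hs : orderOf s = 2) : ∃ g, g * s * g⁻¹ = pr r ⟨t, ht⟩ := by
  obtain ⟨-, -, tt, -, -, rrr, -⟩ := O.rel
  obtain ⟨t1, -, -, r1, -⟩ := O.nrel
  obtain ⟨s, rfl⟩ := pr_surj r s
  have h2 : pr r s ^ 2 = 1 := hs ▸ pow_orderOf_eq_one _
  have h3 : pr r (s ^ 3) = pr r s := by rw [map_pow, pow_succ, h2, one_mul]
  have h4 : ((s ^ 3 : CC r) : G) * (s ^ 3 : CC r) = 1 := by
    have := cube_z rrr (pr_one.1 ((map_pow _ s 2).trans h2))
    rw [← this]; push_cast; group
  have h5 : ((s ^ 3 : CC r) : G) ≠ 1 := fun e => by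
    rw [← h3, show s ^ 3 = 1 from Subtype.ext e, map_one, orderOf_one] at hs
    cases hs
  rw [← h3]
  generalize s ^ 3 = z at h4 h5
  obtain ⟨g, hg⟩ := h1 z t h4 h5 tt t1
  have u := cj_comm g (mc.1 z.2).symm
  rw [hg] at u
  rcases O.three u (cj_cube g rrr) with e | ⟨p, pt, e⟩
  · exact absurd (conj_eq_one_iff.1 e) r1
  refine ⟨pr r ⟨p * g, mc.2 (of_cj (by rw [cj_cj, e]))⟩, ?_⟩
  rw [← map_inv, ← map_mul, ← map_mul]
  exact congrArg _ (Subtype.ext (by show p * g * z * (p * g)⁻¹ = t; rw [cj_cj, hg, cj_of pt]))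

theorem cent_t (O : HO x c r y t a b n) (ht : t ∈ CC r) :
    Nonempty (Subgroup.centralizer {pr r ⟨t, ht⟩} ≃* DihedralGroup 4) := by
  obtain ⟨-, -, tt, -, -, rrr, -⟩ := O.rel
  have c1 : ∀ d e : DihedralGroup 4, qH (wd (d * e)) (app (wd d) (wd e)) = true := by decide +kernel
  have c2 : ∀ d : DihedralGroup 4, qH (app (wd d) [4]) (4 :: wd d) = true := by decide +kernel
  have c3 : ∀ d : DihedralGroup 4, qH (pw (wd d) 3) [] = true → d = 1 := by decide +kernel
  have c4 : ∀ s ∈ S24, ∃ d : DihedralGroup 4, ∃ i < 3, qH s (app (wd d) (pw [4] i)) = true := by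
    decide +kernel
  let f0 : DihedralGroup 4 →* G := MonoidHom.mk' (fun d => ev (ext (gl [x, c, r, y, t, a, b, n])) (wd d))
    fun d e => by rw [← ev_app]; exact O.eq _ _ (c1 d e)
  have m : ∀ d, f0 d ∈ CC r := fun d => mc.2 (by
    have := O.eq _ _ (c2 d)
    simp only [ev_app, ws] at this
    exact this)
  let f := (pr r).comp (f0.codRestrict _ m)
  have hi : Function.Injective f := (injective_iff_map_eq_one f).2 fun d hd =>
    c3 d ((O.iff _ _).2 ((ev_pw _ _ _).trans (cube_z rrr (pr_one.1 hd))))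
  refine ⟨(MulEquiv.subgroupCongr ?_).trans (MonoidHom.ofInjective hi).symm⟩
  ext z
  obtain ⟨z, rfl⟩ := pr_surj r z
  rw [mc]
  constructor
  · intro e
    have e1 : pr r (z * ⟨t, ht⟩ * z⁻¹ * ⟨t, ht⟩⁻¹) = 1 := by
      simp only [map_mul, map_inv]; rw [e]; group
    have e2 : (z : G) * t * (z : G)⁻¹ * t⁻¹ ∈ Subgroup.zpowers r := pr_one.1 e1
    have e3 := one_z rrr e2 (by
      nth_rewrite 1 [inv_eq_of_mul_eq_one_right tt]
      rw [mul_assoc, comm_z (mc.1 ht) e2, inv_mul_cancel_right, cj_sq _ tt])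
    obtain ⟨s, hs, e4⟩ := O.sol _ _ c_r (mc.2 (of_cj (mul_inv_eq_one.1 e3)))
      (by simpa only [ws, and_true] using cm_of (mc.1 z.2))
    obtain ⟨d, i, -, e5⟩ := c4 s hs
    have e6 := O.eq _ _ e5
    rw [← e4, ev_app, ev_pw] at e6
    simp only [ws] at e6
    refine ⟨d, (QuotientGroup.eq.2 ?_ : pr r _ = pr r z)⟩
    show (f0 d)⁻¹ * (z : G) ∈ Subgroup.zpowers r
    rw [e6]
    exact (inv_mul_cancel_left (f0 d) (r ^ i)).symm ▸ Subgroup.npow_mem_zpowers r i
  · rintro ⟨d, e⟩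
    rw [← e]
    show pr r _ * _ = _ * pr r _
    rw [← map_mul, ← map_mul]
    exact congrArg _ (Subtype.ext (mc.1 (O.mem (wd d))))

theorem card_X [Finite G] (O : HO x c r y t a b n) (h1 : One G) {h q : G} (hr : h * r = r * h)
    (qr : q * r = r * q) (h3 : h * (h * h) = 1) (ht : h * t * h⁻¹ = x) (yh : y * (h * (y * h)) = 1)
    (qq : q * q = 1) (q1 : q ≠ 1) (qh : q * (h * (q * h)) = 1) (qx : (q * x) ^ 5 = 1)
    (qt : (q * t) ^ 3 = 1) : Nat.card (CC r ⧸ ZZ r) = 360 ∧ q * (y * (q * (y * (q * y)))) = 1 := by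
  obtain ⟨xx, yy, tt, -, -, rrr, xt, rt, -, -, -, rx, -, -, yr, -⟩ := O.rel
  obtain ⟨t1, -, -, -, tx, -, y1⟩ := O.nrel
  have mt : t ∈ CC r := mc.2 rt.symm
  haveI : Fact (Nat.Prime 5) := ⟨by norm_num⟩
  let H : CC r := ⟨h, mc.2 hr⟩
  let Q : CC r := ⟨q, mc.2 qr⟩
  let X : CC r := ⟨x, mc.2 rx.symm⟩
  let Y : CC r := ⟨y, mc.2 yr⟩
  have yh' : y * h * y = h⁻¹ := by rw [eq_inv_iff_mul_eq_one, ← yh]; group
  have qh' : q * h * q = h⁻¹ := by rw [eq_inv_iff_mul_eq_one, ← qh]; group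
  obtain ⟨k1, k2, -⟩ := card_cent (X := CC r ⧸ ZZ r) (fun s s' hs hs' => by
      obtain ⟨g, hg⟩ := O.conj_t h1 mt hs
      obtain ⟨g', hg'⟩ := O.conj_t h1 mt hs'
      exact (isConj_iff.2 ⟨g, hg⟩).trans (isConj_iff.2 ⟨g', hg'⟩).symm)
    (fun s hs => by
      obtain ⟨g, hg⟩ := O.conj_t h1 mt hs
      obtain ⟨e⟩ := cent_conj hg
      obtain ⟨e'⟩ := O.cent_t mt
      exact ⟨e.trans e'⟩)
    (a := pr r H) (b := pr r (Q * X)) (s := pr r Y) (s' := pr r Q)
    (orderOf_eq_prime (by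
      rw [← map_pow, show H ^ 3 = 1 from Subtype.ext ((pow_three h).trans h3), map_one]) fun e =>
        tx ((cj_of (comm_z rt.symm (pr_one.1 e)).symm).symm.trans ht))
    (orderOf_eq_prime (by rw [← map_pow, show (Q * X) ^ 5 = 1 from Subtype.ext qx, map_one]) fun e => by
      have e3 : (q * x) ^ 3 = 1 := cube_z rrr (pr_one.1 e)
      have e1 : q * x = 1 := by
        rw [← pow_one (q * x), show 1 = Nat.gcd 5 3 from rfl, pow_gcd_eq_one]; exact ⟨qx, e3⟩
      have e2 : q = x := by rw [← mul_left_inj x, e1, xx]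
      have e4 : x * t * (x * t) = 1 := by rw [mul_assoc, ← mul_assoc t, ← xt, mul_assoc, tt, mul_one, xx]
      rw [e2, pow_three, e4, mul_one] at qt
      exact tx (by rw [← mul_right_inj x, qt, xx]))
    (ord_pr rrr yy y1) (ord_pr rrr qq q1)
    (by rw [← map_mul, ← map_mul, ← map_inv]; exact congrArg _ (Subtype.ext yh'))
    (by
      rw [← map_mul, ← map_mul, ← map_inv]
      refine congrArg _ (Subtype.ext ?_)
      show q * (q * x) * q = (q * x)⁻¹
      rw [← mul_assoc, qq, one_mul, mul_inv_rev, inv_eq_of_mul_eq_one_right xx,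
        inv_eq_of_mul_eq_one_right qq])
  refine ⟨k1, ?_⟩
  have cm : q * y * h = h * (q * y) := by
    apply of_cj
    rw [cj_cj, inv_eq_of_mul_eq_one_right yy, inv_eq_of_mul_eq_one_right qq, yh', ← qh']
    simp only [← mul_assoc, qq, one_mul]
    rw [mul_assoc, qq, mul_one]
  have k3 := k2 (pr r (Q * Y)) (Commute.map (show Commute (Q * Y) H from Subtype.ext cm) _)
  rw [← map_pow, pr_one] at k3
  have k4 : (q * y) ^ 3 ∈ Subgroup.zpowers r := k3
  have k5 := one_z rrr k4 (by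
    nth_rewrite 1 [← cj_of (comm_z yr k4), ← conj_pow, inv_eq_of_mul_eq_one_right yy, mul_assoc y,
      mul_assoc q, yy, mul_one, ← Commute.mul_pow]
    · rw [mul_assoc, ← mul_assoc q, qq, one_mul, yy, one_pow]
    · exact (mul_eq_one_comm.1 (by rw [mul_assoc, ← mul_assoc y, yy, one_mul, qq])).trans
        (by rw [mul_assoc, ← mul_assoc y, yy, one_mul, qq]))
  rw [← k5, pow_three]; group

end HO

end Cfsg.Agent.JT
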