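import Cfsg.Agent.JT.Facts

set_option autoImplicit false
set_option linter.unusedSimpArgs false

/-! The element of order three permuting the involutions of a four-group. -/

namespace Cfsg.Agent.JT

open Cfsg.Agent.CGT

variable {G : Type*} [Group G]

/-- One class of involutions. -/
def One (G : Type*) [Group G] : Prop :=
  ∀ u v : G, u * u = 1 → u ≠ 1 → v * v = 1 → v ≠ 1 → ∃ g, g * u * g⁻¹ = v

theorem cj_comm (g : G) {u v : G} (h : u * v = v * u) :
    g * u * g⁻¹ * (g * v * g⁻¹) = g * v * g⁻¹ * (g * u * g⁻¹) := by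
  calc _ = g * (u * v) * g⁻¹ := by group
    _ = _ := by rw [h]; group

theorem cj_mul (g u v : G) : g * (u * v) * g⁻¹ = g * u * g⁻¹ * (g * v * g⁻¹) := by group

theorem cj_cj (h g u : G) : h * g * u * (h * g)⁻¹ = h * (g * u * g⁻¹) * h⁻¹ := by group

theorem cj_of {g u : G} (h : g * u = u * g) : g * u * g⁻¹ = u := by rw [h]; group

theorem of_cj {g u : G} (h : g * u * g⁻¹ = u) : g * u = u * g := by
  conv_rhs => rw [← h]
  group

theorem cj_sq (g : G) {u : G} (h : u * u = 1) : g * u * g⁻¹ * (g * u * g⁻¹) = 1 := by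
  rw [← cj_mul, h]; group

theorem cj_cube (g : G) {u : G} (h : u * (u * u) = 1) :
    g * u * g⁻¹ * (g * u * g⁻¹ * (g * u * g⁻¹)) = 1 := by
  rw [← cj_mul, ← cj_mul, h]; group

variable {x c r y t a b n : G}

namespace HO

theorem rel (O : HO x c r y t a b n) : x * x = 1 ∧ y * y = 1 ∧ t * t = 1 ∧ a * a = 1 ∧ b * b = 1 ∧
    r * (r * r) = 1 ∧ x * t = t * x ∧ r * t = t * r ∧ y * t = t * y ∧ a * t = t * a ∧
    b * t = t * b ∧ r * x = x * r ∧ a * x = x * a ∧ b * x = x * b ∧ y * r = r * y ∧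
    y * x * y⁻¹ = t * x ∧ y * a * y⁻¹ = b ∧ y * b * y⁻¹ = a := by
  have := O.holds [[0, 0], [6, 6], [8, 8], [10, 10], [12, 12], [4, 4, 4], [0, 8, 1, 9], [4, 8, 5, 9],
    [6, 8, 7, 9], [10, 8, 11, 9], [12, 8, 13, 9], [4, 0, 5, 1], [10, 0, 11, 1], [12, 0, 13, 1],
    [6, 4, 7, 5]] (by decide +kernel)
  simp only [ws] at this
  obtain ⟨h1, h2, h3, h4, h5, h6, h7, h8, h9, h10, h11, h12, h13, h14, h15, -⟩ := this
  refine ⟨h1, h2, h3, h4, h5, h6, of_cm h7, of_cm h8, of_cm h9, of_cm h10, of_cm h11, of_cm h12,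
    of_cm h13, of_cm h14, of_cm h15, ?_, ?_, ?_⟩
  · simpa only [ws, mul_assoc] using O.eq [6, 0, 7] [8, 0] (by decide +kernel)
  · simpa only [ws, mul_assoc] using O.eq [6, 10, 7] [12] (by decide +kernel)
  · simpa only [ws, mul_assoc] using O.eq [6, 12, 7] [10] (by decide +kernel)

theorem nrel (O : HO x c r y t a b n) : t ≠ 1 ∧ x ≠ 1 ∧ a ≠ 1 ∧ r ≠ 1 ∧ t ≠ x ∧ t ≠ a ∧ y ≠ 1 := by
  refine ⟨?_, ?_, ?_, ?_, ?_, ?_, ?_⟩
  · simpa only [ws] using O.ne [8] [] (by decide +kernel)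
  · simpa only [ws] using O.ne [0] [] (by decide +kernel)
  · simpa only [ws] using O.ne [10] [] (by decide +kernel)
  · simpa only [ws] using O.ne [4] [] (by decide +kernel)
  · simpa only [ws] using O.ne [8] [0] (by decide +kernel)
  · simpa only [ws] using O.ne [8] [10] (by decide +kernel)
  · simpa only [ws] using O.ne [6] [] (by decide +kernel)

theorem sq_a (O : HO x c r y t a b n) {z : G} (hz : z * t = t * z) (h : z * a = a * z) :
    z * z = 1 := by
  obtain ⟨i, hi, rfl⟩ := O.cent_a hz h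
  rw [O.e_mul hi hi, Nat.xor_self]; rfl

theorem swap (O : HO x c r y t a b n) (h1 : One G) : ∃ g, g * x * g⁻¹ = t ∧ g * t * g⁻¹ = x := by
  obtain ⟨xx, -, tt, -, -, rrr, xt, rt, -, -, -, rx, -⟩ := O.rel
  obtain ⟨t1, x1, -, r1, tx, -⟩ := O.nrel
  obtain ⟨g, hg⟩ := h1 x t xx x1 tt t1
  have hz := cj_comm g xt.symm
  rw [hg] at hz
  rcases O.inv hz (cj_sq g tt) with e | e | ⟨h, ht, e⟩ | ⟨h, ht, e⟩
  · exact absurd (by simpa using e) t1
  · exact absurd (by simpa using e.trans hg.symm) tx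
  · exact ⟨h * g, by rw [cj_cj, hg, cj_of ht], by rw [cj_cj, e]⟩
  · have e1 := cj_comm (h * g) rx
    have e2 := cj_comm (h * g) rt
    rw [cj_cj h g x, hg, cj_of ht] at e1
    rw [cj_cj h g t, e] at e2
    have e3 := cj_cube (h * g) rrr
    rw [O.sq_a e1 e2, mul_one] at e3
    exact absurd (conj_eq_one_iff.1 e3) r1

theorem theta1 (O : HO x c r y t a b n) (h1 : One G) :
    ∃ h, h * t * h⁻¹ = x ∧ h * x * h⁻¹ = t * x ∧ h * r = r * h := by
  obtain ⟨xx, -, tt, -, -, rrr, xt, rt, yt, -, -, rx, -, -, -, yx, -⟩ := O.rel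
  obtain ⟨-, -, -, r1, -⟩ := O.nrel
  obtain ⟨g, hx, ht⟩ := O.swap h1
  have e1 : g * y * t * (g * y)⁻¹ = x := by rw [cj_cj, cj_of yt, ht]
  have e2 : g * y * x * (g * y)⁻¹ = t * x := by rw [cj_cj, yx, cj_mul, ht, hx, xt]
  generalize g * y = k at e1 e2
  have e0 : k * (t * x) * k⁻¹ = t := by rw [cj_mul, e1, e2, ← xt, ← mul_assoc, xx, one_mul]
  have u1 := cj_comm k rt
  have u2 := cj_comm k (show r * (t * x) = t * x * r by rw [← mul_assoc, rt, mul_assoc, rx, mul_assoc])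
  rw [e1] at u1
  rw [e0] at u2
  rcases O.three_x u2 u1 (cj_cube k rrr) with e | ⟨p, pt, px, e⟩
  · exact absurd (by simpa using e) r1
  have f1 : p * k * t * (p * k)⁻¹ = x := by rw [cj_cj, e1, cj_of px]
  have f2 : p * k * x * (p * k)⁻¹ = t * x := by rw [cj_cj, e2, cj_mul, cj_of px, cj_of pt]
  rw [← cj_cj] at e
  generalize p * k = h at f1 f2 e
  rcases e with e | e
  · exact ⟨h, f1, f2, of_cj e⟩
  · have f0 : h * (t * x) * h⁻¹ = t := by rw [cj_mul, f1, f2, ← xt, ← mul_assoc, xx, one_mul]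
    have e' : h * r⁻¹ * h⁻¹ = r := by rw [← conj_inv, e, inv_inv]
    exact (O.no_inv (z := h * (h * h)) (of_cj (by rw [cj_cj, cj_cj, f1, f2, f0]))
      (of_cj (by rw [cj_cj, cj_cj, f2, f0, f1])) (by rw [cj_cj, cj_cj, e, e', e])).elim

theorem theta2 (O : HO x c r y t a b n) (h1 : One G) :
    ∃ h, h * t * h⁻¹ = x ∧ h * x * h⁻¹ = t * x ∧ h * r = r * h ∧ h * (h * h) = 1 ∧
      y * h * (y * h) = 1 := by
  obtain ⟨xx, yy, tt, -, -, rrr, xt, rt, yt, -, -, rx, -, -, yr, yx, -⟩ := O.rel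
  obtain ⟨t1, x1, -, r1, tx, -⟩ := O.nrel
  have r3 : r ^ 3 = 1 := (pow_three r).trans rrr
  have ytx : y * (t * x) * y⁻¹ = x := by rw [cj_mul, cj_of yt, yx, ← mul_assoc, tt, one_mul]
  -- the square of `y h`
  have A : ∀ h, h * t * h⁻¹ = x → h * x * h⁻¹ = t * x → h * (t * x) * h⁻¹ = t ∧
      y * h * t * (y * h)⁻¹ = t * x ∧ y * h * x * (y * h)⁻¹ = x ∧
      y * h * (t * x) * (y * h)⁻¹ = t := fun h f1 f2 => by
    have f0 : h * (t * x) * h⁻¹ = t := by rw [cj_mul, f1, f2, ← xt, ← mul_assoc, xx, one_mul]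
    exact ⟨f0, by rw [cj_cj, f1, yx], by rw [cj_cj, f2, ytx], by rw [cj_cj, f0, cj_of yt]⟩
  obtain ⟨h, f1, f2, hr⟩ := O.theta1 h1
  obtain ⟨f0, g1, g2, g0⟩ := A h f1 f2
  have yhr : Commute (y * h) r := Commute.mul_left yr hr
  obtain ⟨v, hv, i, e⟩ := O.cent_xr (z := y * h * (y * h)) (of_cj (by rw [cj_cj, g1, g0]))
    (of_cj (by rw [cj_cj, g2, g2])) (yhr.mul_left yhr)
  have B : ∃ h, h * t * h⁻¹ = x ∧ h * x * h⁻¹ = t * x ∧ h * r = r * h ∧ y * h * (y * h) = v := by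
    have c1 : Commute (r ^ i) t := Commute.pow_left rt i
    have c2 : Commute (r ^ i) x := Commute.pow_left rx i
    refine ⟨h * r ^ i, by rw [cj_cj, cj_of c1, f1], by rw [cj_cj, cj_of c2, f2],
      Commute.mul_left hr ((Commute.refl r).pow_left i), ?_⟩
    calc y * (h * r ^ i) * (y * (h * r ^ i)) = y * h * (r ^ i * (y * h)) * r ^ i := by group
      _ = v * (r ^ 3) ^ i := by rw [← (yhr.pow_right i).eq, ← mul_assoc, e]; group
      _ = v := by rw [r3, one_pow, mul_one]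
  clear e yhr g0 g1 g2 f0 f1 f2 hr h
  obtain ⟨h, f1, f2, hr, e⟩ := B
  obtain ⟨f0, g1, g2, g0⟩ := A h f1 f2
  have hv2 : y * h * v * (y * h)⁻¹ = v := by rw [← e]; group
  have C : ∃ h, h * t * h⁻¹ = x ∧ h * x * h⁻¹ = t * x ∧ h * r = r * h ∧ y * h * (y * h) = 1 := by
    rcases hv with rfl | rfl | rfl | rfl
    · exact ⟨h, f1, f2, hr, e⟩
    · exact absurd (by simpa using g1.symm.trans hv2) x1
    · refine ⟨t * h, by rw [cj_cj, f1, cj_of xt.symm], by rw [cj_cj, f2, cj_mul, cj_of xt.symm, cj_of rfl],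
        Commute.mul_left rt.symm hr, ?_⟩
      calc y * (t * h) * (y * (t * h)) = y * t * (h * y * (h * (t * v) * h⁻¹) * h) := by
            rw [f0]; group
        _ = t * (y * h * (y * h)) * (t * v) := by rw [yt]; group
        _ = t * t * (v * v) := by rw [e, mul_assoc, ← mul_assoc v, xt]; group
        _ = 1 := by rw [tt, xx, one_mul]
    · exact absurd (by simpa using g0.symm.trans hv2) x1
  clear e hv hv2 g0 g1 g2 f0 f1 f2 hr h v
  obtain ⟨h, f1, f2, hr, e⟩ := C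
  obtain ⟨f0, -⟩ := A h f1 f2
  have hr' : Commute h r := hr
  obtain ⟨v, hv, i, e3⟩ := O.cent_xr (z := h * (h * h)) (of_cj (by rw [cj_cj, cj_cj, f1, f2, f0]))
    (of_cj (by rw [cj_cj, cj_cj, f2, f0, f1])) (hr'.mul_left (hr'.mul_left hr'))
  have hv2 : h * v * h⁻¹ = v := by
    have : h * (v * r ^ i) * h⁻¹ = v * r ^ i := by rw [← e3]; group
    rwa [cj_mul, cj_of (hr'.pow_right i).eq, mul_left_inj] at this
  have v1 : v = 1 := by
    rcases hv with rfl | rfl | rfl | rfl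
    · rfl
    · exact absurd (hv2.symm.trans f1) tx
    · exact absurd (by simpa using f2.symm.trans hv2) t1
    · exact absurd (by simpa using f0.symm.trans hv2) x1
  rw [v1, one_mul] at e3
  have e4 : y * h * y⁻¹ = h⁻¹ := by
    rw [inv_eq_of_mul_eq_one_right yy, eq_inv_iff_mul_eq_one, mul_assoc, e]
  have e5 : y * (h * (h * h)) * y⁻¹ = h * (h * h) := by
    rw [e3]; exact cj_of (Commute.pow_right yr i).eq
  rw [cj_mul, cj_mul, e4] at e5
  have e6 : (h * (h * h)) ^ 3 = 1 := by rw [e3, ← pow_mul, mul_comm, pow_mul, r3, one_pow]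
  refine ⟨h, f1, f2, hr, ?_, e⟩
  have e7 : h * (h * h) * (h * (h * h)) = 1 := by
    nth_rewrite 1 [← e5]
    group
  rwa [pow_three, e7, mul_one] at e6

/-- Substitution in the letters `t, x, r, a, b`. -/
noncomputable def sT (T : List (List ℕ)) (u : List ℕ) : List ℕ := expand (dbl T) u

theorem c_th : (allL W7 fun u => allL W7 fun v => (fun T T' q =>
    Bool.rec true (q u [4, 6, 5] && q v [5, 8, 4])
      (q (sT T (sT T (sT T [6]))) [6] && (q (sT T' (sT T (sT T' (sT T [6])))) [6] &&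
        q (sT T [6, 8, 6, 8]) (sT T [0])))) [[2], [0, 2], [4], u, v] [[0], [0, 2], [4], [8], [6]]
      fun u v => qH (sT D5 u) (sT D5 v)) = true := by decide +kernel

theorem inW (O : HO x c r y t a b n) {z : G} (hz : z * t = t * z) (h : z * x = x * z)
    (h2 : z * z = 1) (h3 : z * (r * z * r⁻¹) * (r⁻¹ * z * r) = 1) :
    ∃ s ∈ W7, z = ev (ext (gl [t, x, r, a, b])) s := by
  obtain ⟨s, hs, e⟩ := O.sol _ _ c_W (mc.2 hz) (by
    simp only [ws, and_true]
    exact ⟨cm_of h, h2, by rw [← h3]; group⟩)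
  obtain ⟨s, hs', rfl⟩ := List.mem_map.1 hs
  refine ⟨s, hs', ?_⟩
  rw [e, ev_expand_dbl]
  congr 2
  funext j
  rcases j with _ | _ | _ | _ | _ | j <;> first | exact mul_one _ | rfl

theorem theta (O : HO x c r y t a b n) (h1 : One G) :
    ∃ h, h * t * h⁻¹ = x ∧ h * x * h⁻¹ = t * x ∧ h * r = r * h ∧ h * (h * h) = 1 ∧
      y * h * (y * h) = 1 ∧ h * a * h⁻¹ = r * a * r⁻¹ ∧ h * b * h⁻¹ = r⁻¹ * b * r := by
  obtain ⟨xx, yy, tt, aa, bb, -, xt, -, yt, at', bt, -, ax, bx, yr, yx, ya, yb⟩ := O.rel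
  obtain ⟨h, f1, f2, hr, h3, hy⟩ := O.theta2 h1
  have f0 : h * (t * x) * h⁻¹ = t := by rw [cj_mul, f1, f2, ← xt, ← mul_assoc, xx, one_mul]
  have W : ∀ z, z * t = t * z → z * x = x * z → z * z = 1 →
      z * (r * z * r⁻¹) * (r⁻¹ * z * r) = 1 →
      ∃ s ∈ W7, h * z * h⁻¹ = ev (ext (gl [t, x, r, a, b])) s := fun z zt zx zz z3 => by
    have u1 := cj_comm h zt
    have u2 := cj_comm h (Commute.mul_right zt zx).eq
    rw [f1] at u1
    rw [f0] at u2
    refine O.inW u2 u1 (cj_sq h zz) ?_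
    have hr' : h * r⁻¹ * h⁻¹ = r⁻¹ := cj_of (Commute.inv_right hr).eq
    have := congrArg (fun g => h * g * h⁻¹) z3
    simp only [cj_mul h, cj_of hr, hr'] at this
    rw [this]; group
  obtain ⟨u, hu, eu⟩ := W a at' ax aa (by
    simpa only [ws, mul_assoc] using O.eq [10, 4, 10, 5, 5, 10, 4] [] (by decide +kernel))
  obtain ⟨v, hv, ev'⟩ := W b bt bx bb (by
    simpa only [ws, mul_assoc] using O.eq [12, 4, 12, 5, 5, 12, 4] [] (by decide +kernel))
  have hD : wg (gl [x, c, r, y, t, a, b, n]) D5 = gl [t, x, r, a, b] := by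
    funext j
    rcases j with _ | _ | _ | _ | _ | j <;> first | exact mul_one _ | rfl
  have hq : ∀ u v, qH (sT D5 u) (sT D5 v) = true ↔
      ev (ext (gl [t, x, r, a, b])) u = ev (ext (gl [t, x, r, a, b])) v := fun u v => by
    rw [O.iff, sT, sT, ev_expand_dbl, ev_expand_dbl, hD]
  have α : ∀ w, ev (ext (gl [t, x, r, a, b])) (sT [[2], [0, 2], [4], u, v] w) =
      h * ev (ext (gl [t, x, r, a, b])) w * h⁻¹ := fun w =>
    (map_ev_wg (β := MulAut.conj h) (fun j => by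
      rcases j with _ | _ | _ | _ | _ | j
      · exact f1.trans (mul_one _).symm
      · exact f2.trans (congrArg _ (mul_one _).symm)
      · exact (cj_of hr).trans (mul_one _).symm
      · exact eu
      · exact ev'
      · exact map_one _) w).symm
  have β : ∀ w, ev (ext (gl [t, x, r, a, b])) (sT [[0], [0, 2], [4], [8], [6]] w) =
      y * ev (ext (gl [t, x, r, a, b])) w * y⁻¹ := fun w =>
    (map_ev_wg (β := MulAut.conj y) (fun j => by
      rcases j with _ | _ | _ | _ | _ | j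
      · exact (cj_of yt).trans (mul_one _).symm
      · exact yx.trans (congrArg _ (mul_one _).symm)
      · exact (cj_of yr).trans (mul_one _).symm
      · exact ya.trans (mul_one _).symm
      · exact yb.trans (mul_one _).symm
      · exact map_one _) w).symm
  have k := allL_iff.1 (allL_iff.1 c_th u hu) v hv
  have k1 : qH (sT D5 (sT [[2], [0, 2], [4], u, v] (sT [[2], [0, 2], [4], u, v]
      (sT [[2], [0, 2], [4], u, v] [6])))) (sT D5 [6]) = true := by
    rw [hq, α, α, α, ← cj_cj, ← cj_cj, mul_assoc h h, h3]; group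
  have k2 : qH (sT D5 (sT [[0], [0, 2], [4], [8], [6]] (sT [[2], [0, 2], [4], u, v]
      (sT [[0], [0, 2], [4], [8], [6]] (sT [[2], [0, 2], [4], u, v] [6]))))) (sT D5 [6]) = true := by
    rw [hq, β, α, β, α, ← cj_cj, ← cj_cj, ← cj_cj, mul_assoc (y * h), hy]; group
  have k3 : qH (sT D5 (sT [[2], [0, 2], [4], u, v] [6, 8, 6, 8]))
      (sT D5 (sT [[2], [0, 2], [4], u, v] [0])) = true := by
    rw [hq, α, α, (hq _ [0]).1 (by decide +kernel)]
  simp only [k1, k2, k3, Bool.and_self, Bool.and_eq_true, hq, ← eu, ← ev'] at k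
  exact ⟨h, f1, f2, hr, h3, hy, by simpa only [ws, mul_assoc] using k.1,
    by simpa only [ws, mul_assoc] using k.2⟩

end HO

end Cfsg.Agent.JT
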